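/-
Project L11 (S3717): a simple group with Sylow 3-normaliser `3² : SD₁₆` strongly 3-embedded is `M₁₁`.
-/
import Cfsg.Statements.S3717
import Cfsg.Agent.Even.Amb2

set_option autoImplicit false
open Subgroup

namespace CL.L11

universe u

section defs

variable {G : Type*} [Group G]

/-- `O₂(C_G(s))` as a subgroup of `G`. -/
def O2C (s : G) : Subgroup G :=
  (Cfsg.pCore 2 (centralizer ({s} : Set G))).map (centralizer ({s} : Set G)).subtype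

/-- the norm `u · u^y · u^(y²)` -/
def nm (y u : G) : G := u * (y * u * y⁻¹) * (y ^ 2 * u * (y ^ 2)⁻¹)

/-- The configuration `M : ⟨c, t⟩ = 3² : SD₁₆`, `z = c⁴`, `d = c t c⁻¹`. -/
structure Cfg (M : Subgroup G) (y t c z d : G) : Prop where
  card : Nat.card M = 9
  n27 : ¬ 27 ∣ Nat.card G
  cube : ∀ m ∈ M, m ^ 3 = 1
  comm : ∀ m ∈ M, ∀ n ∈ M, m * n = n * m
  yM : y ∈ M
  y3 : orderOf y = 3
  t2 : orderOf t = 2
  c8 : orderOf c = 8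
  tc : t * c * t⁻¹ = c ^ 3
  hz : z = c ^ 4
  hd : d = c * t * c⁻¹
  cM : ∀ m ∈ M, c * m * c⁻¹ ∈ M
  tM : ∀ m ∈ M, t * m * t⁻¹ ∈ M
  zM : ∀ m ∈ M, z * m * z⁻¹ = m⁻¹
  reg : ∀ m ∈ M, m ≠ 1 → ∃ i : ℕ, c ^ i * y * (c ^ i)⁻¹ = m
  ty : t * y = y * t
  ct : ∀ m ∈ M, t * m = m * t → m ∈ zpowers y
  cy : ∀ x, x * y = y * x → x ∈ M ∨ x * t ∈ M
  cM' : ∀ x, (∀ m ∈ M, x * m = m * x) → x ∈ M
  conj3 : ∀ g, orderOf g = 3 → ∃ h, h * g * h⁻¹ = y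

/-- `Q` is a 2-group with central involution `t`, normalised by `y` of order 3 with `C_Q(y) = ⟨t⟩`. -/
structure Tri (Q : Subgroup G) (t y : G) : Prop where
  pg : IsPGroup 2 Q
  tQ : t ∈ Q
  t2 : orderOf t = 2
  cen : ∀ q ∈ Q, q * t = t * q
  y3 : orderOf y = 3
  ty : t * y = y * t
  nor : ∀ q ∈ Q, y * q * y⁻¹ ∈ Q
  fix : ∀ q ∈ Q, q * y = y * q → q = 1 ∨ q = t

/-- in addition an involution `z` inverting `y` -/
structure TriZ (Q : Subgroup G) (t y z : G) : Prop extends Tri Q t y where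
  z2 : z * z = 1
  zt : z * t = t * z
  zy : z * y * z⁻¹ = y⁻¹
  zn : ∀ q ∈ Q, z * q * z⁻¹ ∈ Q

/-- `C(t) = (Q × R) . S₃` -/
def T3 (t : G) : Prop :=
  ∃ (R : Subgroup G) (φ : centralizer ({t} : Set G) →* Equiv.Perm (Fin 3)),
    R ≤ centralizer ({t} : Set G) ∧ (Nat.card R).Coprime 6 ∧
    (∀ g ∈ centralizer ({t} : Set G), ∀ r ∈ R, g * r * g⁻¹ ∈ R) ∧
    (∀ q ∈ O2C t, ∀ r ∈ R, q * r = r * q) ∧ Function.Surjective φ ∧
    ∀ x, φ x = 1 ↔ ∃ q ∈ O2C t, ∃ r ∈ R, (x : G) = q * r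

/-- `C(t) = Q . S₃` -/
def T6 (t : G) : Prop :=
  ∃ φ : centralizer ({t} : Set G) →* Equiv.Perm (Fin 3), Function.Surjective φ ∧
    ∀ x, φ x = 1 ↔ (x : G) ∈ O2C t

/-- `C(t) = Q . A₅` with `Q / ⟨t⟩` elementary abelian and non-trivial -/
def TA (t : G) : Prop :=
  (∃ φ : centralizer ({t} : Set G) →* alternatingGroup (Fin 5), Function.Surjective φ ∧
    ∀ x, φ x = 1 ↔ (x : G) ∈ O2C t) ∧
  (∀ q ∈ O2C t, q * q = 1 ∨ q * q = t) ∧
  (∀ p ∈ O2C t, ∀ q ∈ O2C t, p * q = q * p ∨ p * q = q * p * t) ∧ ∃ q ∈ O2C t, q ≠ 1 ∧ q ≠ t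

/-- `C(t) / ⟨t⟩ ≅ L` -/
def TS (t : G) (L : Type) [Group L] : Prop :=
  ∃ φ : centralizer ({t} : Set G) →* L, Function.Surjective φ ∧
    ∀ x, φ x = 1 ↔ ((x : G) = 1 ∨ (x : G) = t)

/-- the involution `a ∈ O₂(C(t)) ∩ C(d)` and the element `g` of order 3 acting on `⟨t, z, a⟩` -/
structure Alp (y t z d a g : G) : Prop where
  aQ : a ∈ O2C t
  a2 : a * a = 1
  a1 : a ≠ 1
  ad : a * d = d * a
  na : nm y a = t
  g3 : orderOf g = 3
  ga : g * a = a * g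
  gz : g * z * g⁻¹ = t * a
  gt : g * t * g⁻¹ = t * z
  gp : g ∈ zpowers ((y * a * y⁻¹) * (d * (y * a * y⁻¹) * d⁻¹))

/-- `C(t) ∩ C(z) = ⟨t, z, a⟩` -/
def B8 (t z a : G) : Prop := ∀ x, x * t = t * x → x * z = z * x → x ∈ closure ({t, z, a} : Set G)

variable {M : Subgroup G} {y t c z d : G}

theorem Cfg.tt (h : Cfg M y t c z d) : t * t = 1 := by
  have := pow_orderOf_eq_one t; rwa [h.t2, pow_two] at this
theorem Cfg.t_inv (h : Cfg M y t c z d) : t⁻¹ = t := inv_eq_of_mul_eq_one_right h.tt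
theorem Cfg.c_pow (h : Cfg M y t c z d) : c ^ 8 = 1 := by
  have := pow_orderOf_eq_one c; rwa [h.c8] at this
theorem Cfg.zz (h : Cfg M y t c z d) : z * z = 1 := by rw [h.hz, ← pow_add]; exact h.c_pow
theorem Cfg.z_inv (h : Cfg M y t c z d) : z⁻¹ = z := inv_eq_of_mul_eq_one_right h.zz
theorem Cfg.z_ne (h : Cfg M y t c z d) : z ≠ 1 := by
  rw [h.hz]; exact pow_ne_one_of_lt_orderOf (by norm_num) (by rw [h.c8]; norm_num)
theorem Cfg.zc (h : Cfg M y t c z d) : z * c = c * z := by rw [h.hz, ← pow_succ, ← pow_succ']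
theorem Cfg.tcn (h : Cfg M y t c z d) (n : ℕ) : t * c ^ n * t⁻¹ = c ^ (3 * n) := by
  rw [← conj_pow, h.tc, ← pow_mul]
theorem Cfg.zt (h : Cfg M y t c z d) : z * t = t * z := by
  have h1 := h.tcn 4
  have h2 : c ^ (3 * 4) = c ^ 4 := by rw [show 3 * 4 = 8 + 4 by norm_num, pow_add, h.c_pow, one_mul]
  rw [h2, ← h.hz] at h1
  calc z * t = (t * z * t⁻¹) * t := by rw [h1]
    _ = t * z := by group
theorem Cfg.dd (h : Cfg M y t c z d) : d * d = 1 := by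
  rw [h.hd]
  calc c * t * c⁻¹ * (c * t * c⁻¹) = c * (t * t) * c⁻¹ := by group
    _ = 1 := by rw [h.tt]; group
theorem Cfg.d_inv (h : Cfg M y t c z d) : d⁻¹ = d := inv_eq_of_mul_eq_one_right h.dd
/-- `c² = t d` -/
theorem Cfg.td (h : Cfg M y t c z d) : t * d = c ^ 2 := by
  rw [h.hd]
  calc t * (c * t * c⁻¹) = (t * c * t⁻¹) * (t * t) * c⁻¹ := by group
    _ = c ^ 2 := by rw [h.tc, h.tt]; group
theorem Cfg.zd (h : Cfg M y t c z d) : z * d = d * z := by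
  have h1 : Commute z c := h.zc
  have h2 : Commute z t := h.zt
  rw [h.hd]
  exact ((h1.mul_right h2).mul_right h1.inv_right).eq
theorem Cfg.dtd (h : Cfg M y t c z d) : d * t * d⁻¹ = t * z := by
  have h1 : t * d * (t * d) = z := by rw [h.td, h.hz, ← pow_add]
  rw [h.d_inv, ← h1]
  calc d * t * d = (t * t) * d * t * d := by rw [h.tt, one_mul]
    _ = t * (t * d * (t * d)) := by group
theorem Cfg.cdc (h : Cfg M y t c z d) : c * d * c⁻¹ = t * z := by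
  have h1 : c * d * c⁻¹ = c ^ 2 * t * (c ^ 2)⁻¹ := by rw [h.hd, pow_two]; group
  rw [h1, ← h.td]
  calc t * d * t * (t * d)⁻¹ = t * (d * t * d⁻¹) * t⁻¹ := by group
    _ = t * z := by rw [h.dtd, h.t_inv, mul_assoc, mul_assoc, h.zt, ← mul_assoc t t z, h.tt, one_mul]
theorem Cfg.zy (h : Cfg M y t c z d) : z * y * z⁻¹ = y⁻¹ := h.zM y h.yM

end defs

def SetThm : Prop := ∀ (G : Type u) [Group G] [Finite G] (M : Sylow 3 G), Nat.card (M : Subgroup G) = 9 →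
  (∀ m ∈ (M : Subgroup G), m ^ 3 = 1) → centralizer ((M : Subgroup G) : Set G) = (M : Subgroup G) →
  ∀ N : Subgroup G, N = normalizer ((M : Subgroup G) : Set G) →
  (∀ g ∈ (M : Subgroup G), g ≠ 1 → centralizer ({g} : Set G) ≤ N) →
  (∀ S : Sylow 2 N, Nat.card (S : Subgroup N) = 16 ∧ ∃ a ∈ (S : Subgroup N), ∃ b ∈ (S : Subgroup N),
    orderOf a = 8 ∧ orderOf b = 2 ∧ b * a * b⁻¹ = a ^ 3) →
  ∃ y t c z d, Cfg (M : Subgroup G) y t c z d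

def BasThm : Prop := ∀ (G : Type u) [Group G] [Finite G] (s : G),
  IsPGroup 2 (O2C s) ∧ (∀ q ∈ O2C s, q * s = s * q) ∧
  (∀ g x, x ∈ O2C s ↔ g * x * g⁻¹ ∈ O2C (g * s * g⁻¹)) ∧
  (∀ g, g * s = s * g → ∀ x ∈ O2C s, g * x * g⁻¹ ∈ O2C s) ∧ (s * s = 1 → s ∈ O2C s) ∧
  (∀ g, Nat.card (O2C (g * s * g⁻¹)) = Nat.card (O2C s)) ∧
  (∀ P : Subgroup G, IsPGroup 2 P → (∀ q ∈ P, q * s = s * q) →
    (∀ g, g * s = s * g → ∀ x ∈ P, g * x * g⁻¹ ∈ P) → P ≤ O2C s)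

def F1Thm : Prop := ∀ (G : Type u) [Group G] [Finite G] (M : Subgroup G) (y t c z d : G), Cfg M y t c z d →
  (∀ P : Subgroup G, IsPGroup 2 P → (∀ m ∈ M, ∀ x ∈ P, m * x * m⁻¹ ∈ P) → P = ⊥) ∧
  (∀ P : Subgroup G, IsPGroup 2 P → P ≠ ⊥ → ∀ g₁ g₂ : G, orderOf g₁ = 3 → orderOf g₂ = 3 →
    g₁ ∈ normalizer (P : Set G) → g₂ ∈ normalizer (P : Set G) →
    ∃ n ∈ normalizer (P : Set G), n * g₁ * n⁻¹ = g₂ ∨ n * g₁ * n⁻¹ = g₂⁻¹)

def F2Thm : Prop := ∀ (G : Type u) [Group G] [Finite G] (M : Subgroup G) (y t c z d : G), Cfg M y t c z d →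
  (∀ g s : G, orderOf g = 3 → s * s = 1 → s ≠ 1 → s * g = g * s → ∃ h, h * g * h⁻¹ = y ∧ h * s * h⁻¹ = t) ∧
  (∀ g : G, orderOf g = 3 → ∀ P : Subgroup G, IsPGroup 2 P → ∀ x ∈ P, ∀ x' ∈ P, x ≠ 1 → x' ≠ 1 →
    x * g = g * x → x' * g = g * x' → x = x') ∧
  (∀ g x : G, orderOf g = 3 → x * g = g * x → orderOf x ∣ 6) ∧
  (orderOf (y * t) = 6 ∧ centralizer ({y * t} : Set G) = zpowers (y * t)) ∧
  TriZ (O2C t) t y z ∧ z ∉ O2C t ∧ t ∉ O2C (t * z) ∧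
  (∀ g : G, orderOf g = 3 → g * t = t * g → Tri (O2C t) t g) ∧
  (∀ p : G, 3 ∣ orderOf p → ∃ k : ℕ, k % 3 = 1 ∧ orderOf (p ^ k) = 3)

def NThm : Prop := ∀ (G : Type u) [Group G] [Finite G] (Q : Subgroup G) (t y : G), Tri Q t y → ∀ u ∈ Q,
  (nm y u = 1 ∨ nm y u = t) ∧
  (u * (y * u * y⁻¹) = (y * u * y⁻¹) * u ∨ u * (y * u * y⁻¹) = (y * u * y⁻¹) * u * t) ∧
  (u * u = 1 → u * (y * u * y⁻¹) = (y * u * y⁻¹) * u) ∧
  (∀ z, TriZ Q t y z → z * u = u * z → nm y (u * u) = 1)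

def FIThm : Prop := ∀ (G : Type u) [Group G] [Finite G] (Q : Subgroup G) (t y z : G), TriZ Q t y z →
  ((Nat.card ↥(Q ⊓ centralizer ({z} : Set G))) ^ 2 = 2 * Nat.card Q ∨
    (2 * (Nat.card ↥(Q ⊓ centralizer ({z} : Set G))) ^ 2 = Nat.card Q ∧ ∃ q ∈ Q, z * q * z⁻¹ = q * t)) ∧
  (∀ q ∈ Q, (z * q * z⁻¹ * q = 1 ∨ z * q * z⁻¹ * q = t) →
    ∃ v ∈ Q, q = v⁻¹ * (z * v * z⁻¹) ∨ q = v⁻¹ * (z * v * z⁻¹) * t)

def BetaThm : Prop := ∀ (G : Type u) [Group G] [Finite G] (M : Subgroup G) (y t c z d : G), Cfg M y t c z d →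
  ∀ a ∈ O2C t, a * c = c * a → a = 1

def GridThm : Prop := ∀ (G : Type u) [Group G] [Finite G] (M : Subgroup G) (y t c z d : G), Cfg M y t c z d →
  ∀ a ∈ O2C t, a * a = 1 → a ≠ 1 → a * d = d * a → nm y a = t

def AlpThm : Prop := ∀ (G : Type u) [Group G] [Finite G] (M : Subgroup G) (y t c z d : G), Cfg M y t c z d →
  (∀ a ∈ O2C t, a * a = 1 → a ≠ 1 → a * d = d * a → nm y a = t → ∃ g, Alp y t z d a g) ∧
  (∀ q ∈ O2C t, q ∈ O2C (t * z) → q ≠ 1 → ∃ a ∈ O2C t, a * a = 1 ∧ a ≠ 1 ∧ a * d = d * a)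

def RawThm : Prop := ∀ (G : Type u) [Group G] [Finite G] (M : Subgroup G) (y t c z d : G), Cfg M y t c z d →
  T3 t ∨ TA t ∨ TS t (alternatingGroup (Fin 5)) ∨ TS t (Matrix.ProjectiveSpecialLinearGroup (Fin 2) (ZMod 7))

def SplThm : Prop := ∀ (C : Type u) [Group C] [Finite C] (L : Type) [Group L] (φ : C →* L) (t z : C),
  (Nonempty (L ≃* alternatingGroup (Fin 5)) ∨
    Nonempty (L ≃* Matrix.ProjectiveSpecialLinearGroup (Fin 2) (ZMod 7))) →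
  Function.Surjective φ → (∀ x, φ x = 1 ↔ (x = 1 ∨ x = t)) → orderOf t = 2 → z * z = 1 → φ z ≠ 1 →
  Nonempty (C ≃* Multiplicative (ZMod 2) × L)

def ExSThm : Prop := ∀ (G : Type u) [Group G] [Finite G] [IsSimpleGroup G] (M : Subgroup G) (y t c z d : G),
  Cfg M y t c z d → ¬ TS t (alternatingGroup (Fin 5)) ∧
    ¬ TS t (Matrix.ProjectiveSpecialLinearGroup (Fin 2) (ZMod 7))

def EndThm : Prop := ∀ (G : Type u) [Group G] [Finite G] [IsSimpleGroup G] (M : Subgroup G) (y t c z d : G),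
  Cfg M y t c z d → (∀ x : G, (∃ k, x ^ 2 ^ k = 1) → x * t = t * x → x * z = z * x →
    x = 1 ∨ x = t ∨ x = z ∨ x = t * z) → Cfsg.Spor.IsoM11 G

def TBThm : Prop := ∀ (G : Type u) [Group G] [Finite G] (M : Subgroup G) (y t c z d : G), Cfg M y t c z d →
  T3 t → (∀ x : G, (∃ k, x ^ 2 ^ k = 1) → x * t = t * x → x * z = z * x → x ∈ O2C t ∨ x * z ∈ O2C t) ∧
    (∀ q ∈ O2C t, q * z = z * q → q ∈ O2C (t * z) ∨ q * t ∈ O2C (t * z))

def RThm : Prop := ∀ (G : Type u) [Group G] [Finite G] (M : Subgroup G) (y t c z d a g : G), Cfg M y t c z d →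
  T3 t → Alp y t z d a g → T6 t ∧ ∀ x, x * t = t * x → x * z = z * x → x ∈ O2C t ∨ x * z ∈ O2C t

def A1Thm : Prop := ∀ (G : Type u) [Group G] [Finite G] (M : Subgroup G) (y t c z d a g : G), Cfg M y t c z d →
  (∀ x, x * t = t * x → x * z = z * x → x ∈ O2C t ∨ x * z ∈ O2C t) → Alp y t z d a g →
  ∀ b ∈ O2C t, b * d = d * b → b = 1 ∨ b = a

def B8Thm : Prop := ∀ (G : Type u) [Group G] [Finite G] (M : Subgroup G) (y t c z d a g : G), Cfg M y t c z d →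
  (∀ x, x * t = t * x → x * z = z * x → x ∈ O2C t ∨ x * z ∈ O2C t) →
  (∀ q ∈ O2C t, q * z = z * q → q ∈ O2C (t * z) ∨ q * t ∈ O2C (t * z)) → Alp y t z d a g →
  (∀ b ∈ O2C t, b * d = d * b → b = 1 ∨ b = a) → B8 t z a

def YThm : Prop := ∀ (G : Type u) [Group G] [Finite G] (M : Subgroup G) (y t c z d a g : G), Cfg M y t c z d →
  T6 t → Alp y t z d a g → B8 t z a →
  t ∈ O2C a ∧ z ∈ O2C a ∧ (Nat.card (O2C t) = 8 ∨
    (Nat.card (O2C t) = 32 ∧ ∀ q ∈ O2C t, (∀ p ∈ O2C t, q * p = p * q) → q = 1 ∨ q = t))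

def XSThm : Prop := ∀ (G : Type u) [Group G] [Finite G] (M : Subgroup G) (y t c z d : G), Cfg M y t c z d →
  T6 t → Nat.card (O2C t) = 32 → (∀ q ∈ O2C t, (∀ p ∈ O2C t, q * p = p * q) → q = 1 ∨ q = t) →
  Cfsg.IsOfSymplecticType (Cfsg.generalizedFittingSubgroup (centralizer ({t} : Set G))) ∧
  Cfsg.IsExtraspecial 2 (Cfsg.generalizedFittingSubgroup (centralizer ({t} : Set G))) ∧
  Nat.card (Cfsg.generalizedFittingSubgroup (centralizer ({t} : Set G))) = 32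

def LstThm : Prop := ∀ (G : Type u) [Group G] [Finite G] [IsSimpleGroup G] (M : Subgroup G) (y t c z d : G),
  Cfg M y t c z d → Cfsg.IsOfSymplecticType (Cfsg.generalizedFittingSubgroup (centralizer ({t} : Set G))) →
  Cfsg.IsExtraspecial 2 (Cfsg.generalizedFittingSubgroup (centralizer ({t} : Set G))) →
  Nat.card (Cfsg.generalizedFittingSubgroup (centralizer ({t} : Set G))) = 32 → False

/-- data of the case `C(t) ≅ 2 × S₄`: `S = C_T(t)` has index two in the Sylow 2-subgroup `T` -/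
structure E8 {G : Type*} [Group G] (y t z a : G) (T : Sylow 2 G) (x : G) : Prop where
  memQ : ∀ q, q ∈ O2C t ↔ q ∈ closure ({t, a, y * a * y⁻¹} : Set G)
  memP : ∀ q, q ∈ O2C a ↔ q ∈ closure ({t, z, a} : Set G)
  QT : O2C t ≤ T
  zT : z ∈ T
  xT : x ∈ T
  xt : x * t * x⁻¹ = a
  cov : ∀ w ∈ T, (w ∈ O2C t ∨ w * z ∈ O2C t) ∨ (w * x ∈ O2C t ∨ w * x * z ∈ O2C t)
  nf : ¬ IsConj t (t * a)

def X8aThm : Prop := ∀ (G : Type u) [Group G] [Finite G] (M : Subgroup G) (y t c z d a g : G), Cfg M y t c z d →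
  T6 t → Alp y t z d a g → B8 t z a → t ∈ O2C a → z ∈ O2C a → Nat.card (O2C t) = 8 →
  ∃ (T : Sylow 2 G) (x : G), E8 y t z a T x

def X8bThm : Prop := ∀ (G : Type u) [Group G] [Finite G] [IsSimpleGroup G] (M : Subgroup G) (y t c z d a g : G),
  Cfg M y t c z d → Alp y t z d a g → ∀ (T : Sylow 2 G) (x : G), E8 y t z a T x → False

def CntThm : Prop := ∀ (G : Type u) [Group G] [Finite G] (M : Subgroup G) (y t c z d : G), Cfg M y t c z d →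
  TA t → ∀ X : Set G, (∀ q ∈ X, q ∈ O2C t ∧ q ≠ 1 ∧ q ≠ t) →
  (∀ q ∈ X, ∀ h, h * t = t * h → h * q * h⁻¹ ∈ X) → 15 ∣ Nat.card X

def StrThm : Prop := ∀ (G : Type u) [Group G] [Finite G] (M : Subgroup G) (y t c z d : G), Cfg M y t c z d →
  TA t → (Nat.card (O2C t) = 32 ∨ 512 ≤ Nat.card (O2C t)) ∧
  (Nat.card (O2C t) = 32 → ∀ q ∈ O2C t, q * q = 1) ∧
  (Nat.card (O2C t) = 512 → (∃ p ∈ O2C t, ∃ q ∈ O2C t, p * q ≠ q * p) →
    Nat.card ↥(O2C t ⊓ centralizer (O2C t : Set G)) < 8)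

def PairThm : Prop := ∀ (G : Type u) [Group G] [Finite G] (M : Subgroup G) (y t c z d : G), Cfg M y t c z d →
  TA t → ∀ s s' : G, IsConj t s → s' * s = s * s' → s' * s' = 1 → s' ∉ O2C s →
  (∃ h, h * s * h⁻¹ = t ∧ (h * s' * h⁻¹ = z ∨ h * s' * h⁻¹ = t * z)) ∧
  (∀ q ∈ O2C s, q * s' = s' * q → q * q = 1) ∧
  Nat.card ↥(O2C s ⊓ centralizer ({s'} : Set G)) = Nat.card ↥(O2C t ⊓ centralizer ({z} : Set G))

def TA0Thm : Prop := ∀ (G : Type u) [Group G] [Finite G] (M : Subgroup G) (y t c z d : G), Cfg M y t c z d →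
  TA t → IsPGroup 2 ↥(centralizer ({t} : Set G) ⊓ centralizer ({z} : Set G)) ∧
  Nat.card ↥(centralizer ({t} : Set G) ⊓ centralizer ({z} : Set G)) ≤
    4 * Nat.card ↥(O2C t ⊓ centralizer ({z} : Set G)) ∧
  (Nat.card (O2C t) = 32 → Nat.card ↥(O2C t ⊓ centralizer ({z} : Set G)) = 8) ∧
  ∃ q ∈ O2C t, q ∈ O2C (t * z) ∧ q ≠ 1

def TA2Thm : Prop := ∀ (G : Type u) [Group G] [Finite G] (M : Subgroup G) (y t c z d a g : G), Cfg M y t c z d →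
  TA t → Alp y t z d a g → t ∈ O2C a ∧ z ∈ O2C a

def NVThm : Prop := ∀ (G : Type u) [Group G] [Finite G] (M : Subgroup G) (y t c z d : G), Cfg M y t c z d →
  TA t → ∀ w, w * t = t * w → w * z = z * w → ∀ q ∈ O2C t, q * z = z * q →
  w * q * w⁻¹ = q ∨ w * q * w⁻¹ = q * t

def K1Thm : Prop := ∀ (G : Type u) [Group G] [Finite G] (M : Subgroup G) (y t c z d a g : G), Cfg M y t c z d →
  TA t → Alp y t z d a g → t ∈ O2C a → z ∈ O2C a → Nat.card (O2C t) = 32 → False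

def K2Thm : Prop := ∀ (G : Type u) [Group G] [Finite G] (M : Subgroup G) (y t c z d a g : G), Cfg M y t c z d →
  TA t → Alp y t z d a g → t ∈ O2C a → z ∈ O2C a → 512 ≤ Nat.card (O2C t) → False

end CL.L11
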