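/-
Project L11 (S3717): the centraliser of `d` in `O₂(C(t))` is `⟨a⟩`.
-/
import Cfsg.Agent.L11.Defs

set_option autoImplicit false
open Subgroup

namespace CL.L11

universe u

namespace A1

/-- an element whose square centralises a non-trivial normalised 2-group has a non-trivial fixed point there -/
theorem exists_fix {G : Type*} [Group G] [Finite G] (I : Subgroup G) (hI : IsPGroup 2 I) (c : G)
    (hn : ∀ w ∈ I, c * w * c⁻¹ ∈ I) (h2 : ∀ w ∈ I, w * c ^ 2 = c ^ 2 * w) (e : G) (he : e ∈ I) (he1 : e ≠ 1) :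
    ∃ w ∈ I, w ≠ 1 ∧ w * c = c * w := by
  classical
  haveI : Fact (Nat.Prime 2) := ⟨Nat.prime_two⟩
  let _ : Fintype I := Fintype.ofFinite I
  let f : I → I := fun w => ⟨c * w * c⁻¹, hn w w.2⟩
  have hf : Function.Involutive f := by
    intro w
    apply Subtype.ext
    show c * (c * (w : G) * c⁻¹) * c⁻¹ = w
    calc c * (c * (w : G) * c⁻¹) * c⁻¹ = (c ^ 2 * w) * (c ^ 2)⁻¹ := by rw [pow_two]; group
      _ = w := by rw [← h2 w w.2]; group
  haveI : Nontrivial I := ⟨⟨⟨e, he⟩, 1, fun h => he1 (congrArg Subtype.val h)⟩⟩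
  obtain ⟨n, hn0, hcard⟩ := hI.nontrivial_iff_card.1 inferInstance
  have hdvd : 2 ∣ Fintype.card I := by
    rw [← Nat.card_eq_fintype_card, hcard]
    exact dvd_pow_self 2 hn0.ne'
  have hσ : (hf.toPerm f) ^ 2 ^ 1 = 1 := by
    ext1 w
    simpa [pow_two] using hf w
  have h1 : (hf.toPerm f) (1 : I) = 1 := Subtype.ext (by show c * ((1 : I) : G) * c⁻¹ = _; simp)
  obtain ⟨w, hw, hw1⟩ := Equiv.Perm.exists_fixed_point_of_prime' hdvd hσ h1
  refine ⟨w, w.2, fun h => hw1 (Subtype.ext h), ?_⟩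
  have h3 : c * (w : G) * c⁻¹ = w := congrArg Subtype.val hw
  calc (w : G) * c = (c * (w : G) * c⁻¹) * c := by rw [h3]
    _ = c * w := by group

end A1

theorem a1Thm (hB : BasThm.{u}) (hβ : BetaThm.{u}) : A1Thm.{u} := by
  intro G _ _ M y t c z d a g hC hx ha b hb hbd
  by_contra hne
  push Not at hne
  obtain ⟨hb1, hba⟩ := hne
  have ct : ∀ q ∈ O2C t, Commute q t := (hB G t).2.1
  have cd : ∀ q ∈ O2C d, Commute q d := (hB G d).2.1
  have k1 : ∀ x, x ∈ O2C t ↔ c * x * c⁻¹ ∈ O2C d := fun x => by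
    rw [hC.hd]; exact (hB G t).2.2.1 c x
  have k2 : ∀ x, x ∈ O2C d ↔ c * x * c⁻¹ ∈ O2C (t * z) := fun x => by
    rw [← hC.cdc]; exact (hB G d).2.2.1 c x
  have k3 : ∀ x, x ∈ O2C t ↔ d * x * d⁻¹ ∈ O2C (t * z) := fun x => by
    rw [← hC.dtd]; exact (hB G t).2.2.1 d x
  have c2 : ∀ w, Commute w t → Commute w d → Commute w (c ^ 2) := fun w h1 h2 => by
    rw [← hC.td]; exact h1.mul_right h2
  have cz : ∀ w, Commute w t → Commute w d → Commute w z := fun w h1 h2 => by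
    rw [hC.hz, show c ^ 4 = (c ^ 2) ^ 2 by rw [← pow_mul]]
    exact (c2 w h1 h2).pow_right 2
  have s1 : ∀ w, Commute w t → Commute w d → w ∈ O2C d ∨ w * z ∈ O2C d := by
    intro w h1 h2
    have hzc : Commute z c := hC.zc
    have e1 : c⁻¹ * w * c * t = t * (c⁻¹ * w * c) := by
      have h3 := h2.eq
      rw [hC.hd] at h3
      calc c⁻¹ * w * c * t = c⁻¹ * (w * (c * t * c⁻¹)) * c := by group
        _ = t * (c⁻¹ * w * c) := by rw [h3]; group
    have e2 : c⁻¹ * w * c * z = z * (c⁻¹ * w * c) :=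
      ((hzc.inv_right.mul_right (cz w h1 h2).symm).mul_right hzc).symm.eq
    rcases hx _ e1 e2 with h | h
    · left
      have := (k1 _).1 h
      rwa [show c * (c⁻¹ * w * c) * c⁻¹ = w by group] at this
    · right
      have := (k1 _).1 h
      rwa [show c * (c⁻¹ * w * c * z) * c⁻¹ = w * (c * z) * c⁻¹ by group, ← hC.zc,
        show w * (z * c) * c⁻¹ = w * z by group] at this
  have s2 : ∃ e ∈ O2C t ⊓ O2C d, e ≠ 1 := by
    rcases s1 a (ct a ha.aQ) ha.ad with h1 | h1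
    · exact ⟨a, ⟨ha.aQ, h1⟩, ha.a1⟩
    rcases s1 b (ct b hb) hbd with h2 | h2
    · exact ⟨b, ⟨hb, h2⟩, hb1⟩
    refine ⟨a * b, ⟨mul_mem ha.aQ hb, ?_⟩, fun h => hba ?_⟩
    · have h3 := mul_mem h1 h2
      have h4 : a * z * (b * z) = a * b := by
        rw [(cz b (ct b hb) hbd).eq]
        calc a * z * (z * b) = a * (z * z) * b := by group
          _ = a * b := by rw [hC.zz, mul_one]
      rwa [h4] at h3
    · exact mul_left_cancel (h.trans ha.a2.symm)
  obtain ⟨e, he, he1⟩ := s2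
  obtain ⟨w, hw, hw1, hwc⟩ := A1.exists_fix (O2C t ⊓ O2C d) ((hB G t).1.to_le inf_le_left) c
    (fun w hw => by
      have h1 := (k1 w).1 hw.1
      have h2 := (k2 w).1 hw.2
      refine ⟨(k3 _).2 ?_, h1⟩
      rwa [← (cd _ h1).eq, mul_inv_cancel_right])
    (fun w hw => (c2 w (ct w hw.1) (cd w hw.2)).eq) e he he1
  exact hw1 (hβ G M y t c z d hC w hw.1 hwc)

end CL.L11
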