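/-
Project L11 (S3717): the involution `a` and the element of order three acting on `⟨t, z, a⟩`.
-/
import Cfsg.Agent.L11.Defs
import Cfsg.Agent.Ags.Base

set_option autoImplicit false
open Subgroup

namespace CL.L11

universe u

namespace ALP

variable {G : Type*} [Group G]

theorem mv {p q : G} (e : p * q = q * p) (x : G) : p * (q * x) = q * (p * x) := by rw [← mul_assoc, e, mul_assoc]
theorem cn {p : G} (e : p * p = 1) (x : G) : p * (p * x) = x := by rw [← mul_assoc, e, one_mul]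

theorem act {t z a u d : G} (tt : t * t = 1) (zz : z * z = 1) (aa : a * a = 1) (zt : z * t = t * z)
    (ta : a * t = t * a) (az : a * z = z * a) (di : d⁻¹ = d) (ut : u * t * u⁻¹ = t) (ua : u * a * u⁻¹ = a)
    (uz : u * z * u⁻¹ = t * (z * a)) (dt : d * t * d⁻¹ = t * z) (da : d * a * d⁻¹ = a) (dz : d * z * d⁻¹ = z)
    {p : G} (hp : p = u * (d * u * d⁻¹)) :
    (p * a * p⁻¹ = a ∧ p * z * p⁻¹ = t * a ∧ p * t * p⁻¹ = t * z) ∧
      Commute (p ^ 3) a ∧ Commute (p ^ 3) z ∧ Commute (p ^ 3) t := by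
  have e : ∀ x, MulAut.conj p x = MulAut.conj u (MulAut.conj d (MulAut.conj u (MulAut.conj d x))) := fun x => by
    simp only [MulAut.conj_apply, hp, mul_inv_rev, di, mul_assoc]
  have c : ∀ x, MulAut.conj p (MulAut.conj p (MulAut.conj p x)) = x → Commute (p ^ 3) x := fun x k =>
    mul_inv_eq_iff_eq_mul.1 (Eq.trans (by simp only [MulAut.conj_apply, pow_three, mul_inv_rev, mul_assoc]) k)
  rw [← MulAut.conj_apply] at ut ua uz dt da dz
  have p1 : MulAut.conj p a = a := by rw [e, da, ua, da, ua]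
  have p2 : MulAut.conj p z = t * a := by
    simp only [e, map_mul, ut, ua, uz, dt, da, dz, mul_assoc, cn zz]
  have p3 : MulAut.conj p t = t * z := by
    simp only [e, map_mul, ut, ua, uz, dt, da, dz, mul_assoc, cn tt, cn zz, cn aa, mv zt, mv ta, mv az, aa, tt, zz,
      zt, ta, az, mul_one]
  refine ⟨⟨p1, p2, p3⟩, c _ (by rw [p1, p1, p1]), c _ ?_, c _ ?_⟩ <;>
    simp only [map_mul, p1, p2, p3, mul_assoc, cn tt, cn zz, cn aa, mv zt, mv ta, mv az, aa, tt, zz, zt, ta, az,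
      mul_one]

end ALP

theorem alpThm (hB : BasThm.{u}) (hF2 : F2Thm.{u}) (hN : NThm.{u}) : AlpThm.{u} := by
  intro G _ _ M y t c z d h
  obtain ⟨-, -, -, -, T, zQ, -, -, hk⟩ := hF2 G M y t c z d h
  have dz : d * z * d⁻¹ = z := by rw [← h.zd, mul_inv_cancel_right]
  refine ⟨fun a aQ a2 a1 ad na => ?_, fun q h1 h2 q1 => ?_⟩
  · have ta : Commute a t := T.cen a aQ
    have az : Commute a z := by
      rw [h.hz, show 4 = 2 * 2 from rfl, pow_mul, ← h.td]
      exact (ta.mul_right ad).pow_right 2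
    have au := (hN G _ t y T.toTri a aQ).2.2.1 a2
    have ut := T.cen _ (T.nor a aQ)
    have uu : y * a * y⁻¹ * (y * a * y⁻¹) = 1 := by rw [conj_mul, a2, mul_one, mul_inv_cancel]
    have zu : z * (y * a * y⁻¹) * z⁻¹ = y ^ 2 * a * (y ^ 2)⁻¹ := by
      rw [← inv_eq_of_mul_eq_one_right (show y * y ^ 2 = 1 by rw [← pow_succ']; exact h.cube y h.yM)]
      calc _ = z * y * z⁻¹ * (z * a * z⁻¹) * (z * y * z⁻¹)⁻¹ := by group
        _ = _ := by rw [← az.eq, mul_inv_cancel_right, T.zy]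
    have nb := na
    rw [nm, ← zu] at nb
    generalize hu : y * a * y⁻¹ = u at au ut uu nb
    have ui := inv_eq_of_mul_eq_one_right uu
    obtain ⟨⟨p1, p2, p3⟩, c1, c2, c3⟩ := ALP.act h.tt h.zz a2 h.zt ta az h.d_inv (u := u)
      (by rw [ut, mul_inv_cancel_right]) (by rw [← au, mul_inv_cancel_right])
      (by rw [← az.eq, ← mul_assoc, ← ta.eq, ← nb, ui]; simp only [mul_assoc, ALP.cn a2, inv_mul_cancel, mul_one])
      h.dtd (by rw [← ad, mul_inv_cancel_right]) dz rfl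
    generalize hp : u * (d * u * d⁻¹) = p at p1 p2 p3 c1 c2 c3
    obtain ⟨k, k1, k2⟩ := hk p (by_contra fun k => by
      obtain ⟨m, hm⟩ := exists_pow_eq_self_of_coprime (x := p) (Nat.prime_three.coprime_iff_not_dvd.2 k)
      have := c2.pow_left m
      rw [hm] at this
      rw [this.eq, mul_inv_cancel_right] at p2
      exact zQ (p2 ▸ mul_mem T.tQ aQ))
    have e : ∀ x, Commute (p ^ 3) x → p ^ k * x * (p ^ k)⁻¹ = p * x * p⁻¹ := fun x hx => by
      rw [← Nat.div_add_mod k 3, k1, pow_succ', pow_mul, mul_assoc p, (hx.pow_left _).eq]; group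
    exact ⟨p ^ k, aQ, a2, a1, ad, na, k2, mul_inv_eq_iff_eq_mul.1 ((e a c1).trans p1), (e z c2).trans p2,
      (e t c3).trans p3, by rw [hu, hp]; exact pow_mem (mem_zpowers p) k⟩
  · obtain ⟨e, he, ie⟩ := CL.Ags.exists_inv_of_isP (P := O2C t ⊓ O2C (t * z)) T.pg.to_inf_left
      fun k => q1 (mem_bot.1 (k ▸ mem_inf.2 ⟨h1, h2⟩))
    obtain ⟨a, ha, ia, hc⟩ := CL.Ags.exists_inv_cent (U := zpowers d)
      (CL.Even.isPGroup_zpowers (k := 1) (by rw [pow_one, sq, h.dd]))
      (zpowers_le.2 (mem_normalizer_iff.2 fun x => by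
        have b1 := (hB G t).2.2.1 d x
        have b2 := (hB G (t * z)).2.2.1 d x
        rw [← conj_mul, h.dtd, dz, mul_assoc t, h.zz, mul_one] at b2
        rw [h.dtd] at b1
        rw [mem_inf, mem_inf, b1, b2, and_comm])) he ie
    exact ⟨a, ha.1, ia.1, ia.2, (hc d (mem_zpowers d)).symm⟩

end CL.L11
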