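/-
Project L11 (S3717): assembly of the steps.
-/
import Cfsg.Agent.L11.Defs

set_option autoImplicit false
open Subgroup

namespace CL.L11

universe u

theorem main_of (hGrid : GridThm.{u}) (hAlp : AlpThm.{u}) (hRaw : RawThm.{u}) (hEx : ExSThm.{u})
    (hEnd : EndThm.{u}) (hTB : TBThm.{u}) (hR : RThm.{u}) (hA1 : A1Thm.{u}) (hB8 : B8Thm.{u})
    (hY : YThm.{u}) (hXS : XSThm.{u}) (hLst : LstThm.{u}) (hXa : X8aThm.{u}) (hXb : X8bThm.{u})
    (hStr : StrThm.{u}) (h0 : TA0Thm.{u}) (h2 : TA2Thm.{u}) (hK1 : K1Thm.{u}) (hK2 : K2Thm.{u})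
    {G : Type u} [Group G] [Finite G] [IsSimpleGroup G] {M : Subgroup G} {y t c z d : G}
    (h : Cfg M y t c z d) : Cfsg.Spor.IsoM11 G := by
  have alp : ∀ q ∈ O2C t, q ∈ O2C (t * z) → q ≠ 1 → ∃ a g, Alp y t z d a g := by
    intro q hq hq' hq1
    obtain ⟨a, ha, ha2, ha1, had⟩ := (hAlp G M y t c z d h).2 q hq hq' hq1
    obtain ⟨g, hg⟩ := (hAlp G M y t c z d h).1 a ha ha2 ha1 had (hGrid G M y t c z d h a ha ha2 ha1 had)
    exact ⟨a, g, hg⟩
  rcases hRaw G M y t c z d h with h3 | hA | hS | hS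
  · obtain ⟨tb1, tb2⟩ := hTB G M y t c z d h h3
    by_cases hex : ∃ q ∈ O2C t, q ∈ O2C (t * z) ∧ q ≠ 1
    · exfalso
      obtain ⟨q, hq, hq', hq1⟩ := hex
      obtain ⟨a, g, hg⟩ := alp q hq hq' hq1
      obtain ⟨h6, hdi⟩ := hR G M y t c z d a g h h3 hg
      have hb8 := hB8 G M y t c z d a g h hdi tb2 hg (hA1 G M y t c z d a g h hdi hg)
      obtain ⟨hta, hza, h8 | ⟨h32, hZ⟩⟩ := hY G M y t c z d a g h h6 hg hb8
      · obtain ⟨T, x, hE⟩ := hXa G M y t c z d a g h h6 hg hb8 hta hza h8
        exact hXb G M y t c z d a g h hg T x hE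
      · obtain ⟨h1, h2', h3'⟩ := hXS G M y t c z d h h6 h32 hZ
        exact hLst G M y t c z d h h1 h2' h3'
    · push Not at hex
      have tQ : t ∈ O2C t := by
        refine Subgroup.mem_map.2 ⟨⟨t, mem_centralizer_singleton_iff.2 rfl⟩, ?_, rfl⟩
        have hn : (zpowers (⟨t, mem_centralizer_singleton_iff.2 rfl⟩ :
            centralizer ({t} : Set G))).Normal := by
          refine ⟨fun n hn g => ?_⟩
          obtain ⟨k, rfl⟩ := mem_zpowers_iff.1 hn
          have hc : Commute g (⟨t, mem_centralizer_singleton_iff.2 rfl⟩ : centralizer ({t} : Set G)) :=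
            Subtype.ext (mem_centralizer_singleton_iff.1 g.2)
          rw [(hc.zpow_right k).eq, mul_inv_cancel_right]
          exact zpow_mem (mem_zpowers _) k
        have hp : IsPGroup 2 (zpowers (⟨t, mem_centralizer_singleton_iff.2 rfl⟩ :
            centralizer ({t} : Set G))) := by
          refine IsPGroup.of_card (n := 1) ?_
          rw [Nat.card_zpowers, ← Subgroup.orderOf_coe, pow_one]
          exact h.t2
        exact (le_sSup (s := {N : Subgroup (centralizer ({t} : Set G)) | N.Normal ∧ IsPGroup 2 N})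
          ⟨hn, hp⟩) (mem_zpowers _)
      have key : ∀ q ∈ O2C t, q * z = z * q → q = 1 ∨ q = t := by
        intro q hq hqz
        rcases tb2 q hq hqz with h1 | h1
        · exact Or.inl (hex q hq h1)
        · right
          have := hex (q * t) (mul_mem hq tQ) h1
          rw [← h.t_inv]
          exact eq_inv_of_mul_eq_one_left this
      refine hEnd G M y t c z d h fun x hx hxt hxz => ?_
      rcases tb1 x hx hxt hxz with h1 | h1
      · rcases key x h1 hxz with h2 | h2
        · exact Or.inl h2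
        · exact Or.inr (Or.inl h2)
      · have e : x = x * z * z := by rw [mul_assoc, h.zz, mul_one]
        rcases key (x * z) h1 (by rw [← mul_assoc, ← hxz]) with h2 | h2
        · right; right; left; rw [e, h2, one_mul]
        · right; right; right; rw [e, h2]
  · exfalso
    obtain ⟨-, -, -, q, hq, hq', hq1⟩ := h0 G M y t c z d h hA
    obtain ⟨a, g, hg⟩ := alp q hq hq' hq1
    obtain ⟨hta, hza⟩ := h2 G M y t c z d a g h hA hg
    rcases (hStr G M y t c z d h hA).1 with h32 | h512
    · exact hK1 G M y t c z d a g h hA hg hta hza h32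
    · exact hK2 G M y t c z d a g h hA hg hta hza h512
  · exact ((hEx G M y t c z d h).1 hS).elim
  · exact ((hEx G M y t c z d h).2 hS).elim

end CL.L11
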