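/-
Project L11 (S3717), step B8: `C(t) ∩ C(z) = ⟨t, z, a⟩`.
-/
import Cfsg.Agent.L11.Defs

set_option autoImplicit false
open Subgroup

namespace CL.L11

universe u

namespace B8x

variable {G : Type u} [Group G]

/-- an involution `d` acting on a 2-group `A` with fixed points `{1, a}`, `a` not a square -/
theorem inv_case {A : Subgroup G} {d a : G} (hA : ∀ v ∈ A, ∃ k : ℕ, v ^ 2 ^ k = 1)
    (fx : ∀ b ∈ A, b * d = d * b → b = 1 ∨ b = a) (ns : ∀ v ∈ A, v * v ≠ a) :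
    ∀ v ∈ A, d * v * d⁻¹ = v⁻¹ → v = 1 ∨ v = a := by
  intro v hv
  obtain ⟨k, hk⟩ := hA v hv
  induction k generalizing v with
  | zero => exact fun _ => Or.inl (by simpa using hk)
  | succ k ih =>
    intro h
    rcases ih (v * v) (A.mul_mem hv hv) (by rw [← pow_two, ← pow_mul, ← pow_succ', hk]) (by
      calc d * (v * v) * d⁻¹ = (d * v * d⁻¹) * (d * v * d⁻¹) := by group
        _ = _ := by rw [h]; group) with e | e
    · refine fx v hv ?_
      rw [inv_eq_of_mul_eq_one_right e] at h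
      exact (mul_inv_eq_iff_eq_mul.1 h).symm
    · exact absurd e (ns v hv)

end B8x

theorem b8Thm (hB : BasThm.{u}) (hF2 : F2Thm.{u}) (hN : NThm.{u}) : B8Thm.{u} := by
  intro G _ _ M y t c z d a g cf d1 d2 al fx
  obtain ⟨-, f2, -, -, tri, -⟩ := hF2 G M y t c z d cf
  obtain ⟨pQ, cQ, jQ, -, tQ, -⟩ := hB G t
  obtain ⟨-, cQ', jQ', -⟩ := hB G (t * z)
  have tQ := tQ cf.tt
  have tz : t * z = z * t := cf.zt.symm
  have t1 : t ≠ 1 := fun e => by have := cf.t2; rw [e, orderOf_one] at this; omega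
  obtain ⟨A, hA⟩ : ∃ A : Subgroup G, A = O2C t ⊓ O2C (t * z) := ⟨_, rfl⟩
  have mA : ∀ v, v ∈ A ↔ v ∈ O2C t ∧ v ∈ O2C (t * z) := fun v => by rw [hA]; rfl
  have At : ∀ v ∈ A, v * t = t * v := fun v hv => cQ v ((mA v).1 hv).1
  have Az : ∀ v ∈ A, v * z = z * v := fun v hv => by
    have h := cQ' v ((mA v).1 hv).2
    rw [← mul_assoc, At v hv, mul_assoc, mul_assoc] at h
    exact mul_left_cancel h
  have dtz : d * (t * z) * d⁻¹ = t := by
    calc d * (t * z) * d⁻¹ = d * t * d⁻¹ * (d * z) * d⁻¹ := by group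
      _ = t * (z * z) := by rw [cf.dtd, ← cf.zd]; group
      _ = t := by rw [cf.zz, mul_one]
  have Ad : ∀ v ∈ A, d * v * d⁻¹ ∈ A := fun v hv => by
    have h1 := (jQ d v).1 ((mA v).1 hv).1
    have h2 := (jQ' d v).1 ((mA v).1 hv).2
    rw [cf.dtd] at h1
    rw [dtz] at h2
    exact (mA _).2 ⟨h2, h1⟩
  have dad : d * a * d⁻¹ = a := by rw [← al.ad, mul_inv_cancel_right]
  have aA : a ∈ A := by
    have h1 := (jQ d a).1 al.aQ
    rw [cf.dtd, dad] at h1
    exact (mA a).2 ⟨al.aQ, h1⟩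
  have pA : ∀ v ∈ A, ∃ k : ℕ, v ^ 2 ^ k = 1 := fun v hv => CL.Even.isPGroup_iff_forall.1 pQ v ((mA v).1 hv).1
  have fA : ∀ b ∈ A, b * d = d * b → b = 1 ∨ b = a := fun b hb => fx b ((mA b).1 hb).1
  have fA' : ∀ b ∈ A, d * b * d⁻¹ = b → b = 1 ∨ b = a := fun b hb e => fA b hb (mul_inv_eq_iff_eq_mul.1 e).symm
  have ns : ∀ v ∈ A, v * v ≠ a := fun v hv e => by
    have h := (hN G (O2C t) t y tri.toTri v ((mA v).1 hv).1).2.2.2 z tri (Az v hv).symm
    rw [e, al.na] at h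
    exact t1 h
  have dv : ∀ v ∈ A, d * v * d⁻¹ = v ∨ d * v * d⁻¹ = v * a := fun v hv => by
    rcases B8x.inv_case pA fA ns (v⁻¹ * (d * v * d⁻¹)) (A.mul_mem (A.inv_mem hv) (Ad v hv)) (by
      calc d * (v⁻¹ * (d * v * d⁻¹)) * d⁻¹ = d * v⁻¹ * d⁻¹ * ((d * d) * v * (d * d)⁻¹) := by group
        _ = _ := by rw [cf.dd]; group) with e | e
    · exact Or.inl (inv_mul_eq_one.1 e).symm
    · exact Or.inr (by rw [← e]; group)
  have Aa : ∀ v ∈ A, v * a = a * v := fun v hv => by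
    have h : d * (v * a * v⁻¹) * d⁻¹ = v * a * v⁻¹ := by
      have e : d * (v * a * v⁻¹) * d⁻¹ = (d * v * d⁻¹) * (d * a * d⁻¹) * (d * v * d⁻¹)⁻¹ := by group
      rw [e, dad]
      rcases dv v hv with e | e <;> rw [e]
      group
    rcases fA' _ (A.mul_mem (A.mul_mem hv aA) (A.inv_mem hv)) h with e | e
    · exact absurd (by simpa using e) al.a1
    · exact mul_inv_eq_iff_eq_mul.1 e
  obtain ⟨Y, hY⟩ : ∃ Y : Subgroup G, Y = closure ({t, z, a} : Set G) := ⟨_, rfl⟩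
  have tY : t ∈ Y := hY ▸ subset_closure (by simp)
  have zY : z ∈ Y := hY ▸ subset_closure (by simp)
  have aY : a ∈ Y := hY ▸ subset_closure (by simp)
  have YA : ∀ v ∈ A, ∀ s ∈ Y, s * v = v * s := fun v hv s hs => by
    have : Y ≤ centralizer ({v} : Set G) := by
      rw [hY, closure_le]
      rintro _ (rfl | rfl | rfl)
      exacts [mem_centralizer_singleton_iff.2 (At v hv).symm, mem_centralizer_singleton_iff.2 (Az v hv).symm,
        mem_centralizer_singleton_iff.2 (Aa v hv).symm]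
    exact mem_centralizer_singleton_iff.1 (this hs)
  have Yg : ∀ s ∈ Y, g * s * g⁻¹ ∈ Y := fun s hs => by
    have : Y ≤ Y.comap (MulAut.conj g).toMonoidHom := by
      conv_lhs => rw [hY]
      rw [closure_le]
      rintro _ (rfl | rfl | rfl)
      · change g * _ * g⁻¹ ∈ Y
        rw [al.gt]; exact Y.mul_mem tY zY
      · change g * _ * g⁻¹ ∈ Y
        rw [al.gz]; exact Y.mul_mem tY aY
      · change g * _ * g⁻¹ ∈ Y
        rw [al.ga, mul_inv_cancel_right]; exact aY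
    exact this hs
  obtain ⟨B, hB'⟩ : ∃ B : Subgroup G, B = centralizer ({t} : Set G) ⊓ centralizer ({z} : Set G) := ⟨_, rfl⟩
  have mB : ∀ x, x ∈ B ↔ x * t = t * x ∧ x * z = z * x := fun x => by
    rw [hB', mem_inf, mem_centralizer_singleton_iff, mem_centralizer_singleton_iff]
  have dec : ∀ x ∈ B, ∃ v ∈ A, ∃ s ∈ Y, s * s = 1 ∧ x = v * s := by
    have k : ∀ q ∈ O2C t, q * z = z * q → ∃ v ∈ A, q = v ∨ q = v * t := fun q hq e => by
      rcases d2 q hq e with h | h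
      · exact ⟨q, (mA q).2 ⟨hq, h⟩, Or.inl rfl⟩
      · exact ⟨q * t, (mA _).2 ⟨mul_mem hq tQ, h⟩, Or.inr (by rw [mul_assoc, cf.tt, mul_one])⟩
    intro x hx
    obtain ⟨x1, x2⟩ := (mB x).1 hx
    rcases d1 x x1 x2 with h | h
    · obtain ⟨v, hv, e | e⟩ := k x h x2
      · exact ⟨v, hv, 1, one_mem _, one_mul _, by rw [e, mul_one]⟩
      · exact ⟨v, hv, t, tY, cf.tt, e⟩
    · have e0 : x = x * z * z := by rw [mul_assoc, cf.zz, mul_one]
      obtain ⟨v, hv, e | e⟩ := k _ h (by rw [← mul_assoc, ← x2])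
      · exact ⟨v, hv, z, zY, cf.zz, by rw [← e, ← e0]⟩
      · refine ⟨v, hv, t * z, Y.mul_mem tY zY, ?_, by rw [← mul_assoc, ← e, ← e0]⟩
        calc t * z * (t * z) = t * (z * t) * z := by group
          _ = (t * t) * (z * z) := by rw [← tz]; group
          _ = 1 := by rw [cf.tt, cf.zz, one_mul]
  have Ba : ∀ x ∈ B, x * a = a * x := fun x hx => by
    obtain ⟨v, hv, s, hs, -, rfl⟩ := dec x hx
    rw [mul_assoc, YA a aA s hs, ← mul_assoc, Aa v hv, mul_assoc]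
  have pB : IsPGroup 2 B := CL.Even.isPGroup_iff_forall.2 fun x hx => by
    obtain ⟨v, hv, s, hs, ss, rfl⟩ := dec x hx
    obtain ⟨k, hk⟩ := pA v hv
    have cm : Commute v s := (YA v hv s hs).symm
    refine ⟨k + 1, ?_⟩
    rw [cm.mul_pow, pow_succ 2 k, pow_mul v, hk, one_pow, one_mul, mul_comm, pow_mul, pow_two, ss, one_pow]
  have Bg : ∀ x ∈ B, g⁻¹ * x * g ∈ B := fun x hx => by
    obtain ⟨x1, x2⟩ := (mB x).1 hx
    have c1 : x * (g * t * g⁻¹) = g * t * g⁻¹ * x := by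
      rw [al.gt, ← mul_assoc, x1, mul_assoc, x2, mul_assoc]
    have c2 : x * (g * z * g⁻¹) = g * z * g⁻¹ * x := by
      rw [al.gz, ← mul_assoc, x1, mul_assoc, Ba x hx, mul_assoc]
    refine (mB _).2 ⟨?_, ?_⟩
    · calc g⁻¹ * x * g * t = g⁻¹ * (x * (g * t * g⁻¹)) * g := by group
        _ = _ := by rw [c1]; group
    · calc g⁻¹ * x * g * z = g⁻¹ * (x * (g * z * g⁻¹)) * g := by group
        _ = _ := by rw [c2]; group
  have AB : ∀ v ∈ A, v ∈ B := fun v hv => (mB v).2 ⟨At v hv, Az v hv⟩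
  have AY : ∀ v ∈ A, v ∈ Y := by
    intro w hw
    by_contra wY
    have out : ∀ v ∈ A, v ∉ Y → d * v * d⁻¹ = v * a := fun v hv vY => (dv v hv).resolve_left fun e => by
      rcases fA' v hv e with e | e
      · exact vY (e ▸ one_mem _)
      · exact vY (e ▸ aY)
    have fY : ∀ v ∈ A, d * v * d⁻¹ = v → v ∈ Y := fun v hv e => by
      rcases fA' v hv e with e | e
      · exact e ▸ one_mem _
      · exact e ▸ aY
    have two : ∀ x ∈ B, x ∉ Y → w⁻¹ * x ∈ Y := fun x hx xY => by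
      obtain ⟨v, hv, s, hs, -, rfl⟩ := dec x hx
      have vY : v ∉ Y := fun h => xY (Y.mul_mem h hs)
      have m := A.mul_mem (A.inv_mem hw) hv
      rw [← mul_assoc]
      refine Y.mul_mem (fY _ m ?_) hs
      calc d * (w⁻¹ * v) * d⁻¹ = (d * w * d⁻¹)⁻¹ * (d * v * d⁻¹) := by group
        _ = a⁻¹ * (w⁻¹ * v * a) := by rw [out w hw wY, out v hv vY]; group
        _ = w⁻¹ * v := by rw [Aa _ m]; group
    have cw : ∀ x ∈ B, x * w = w * x := fun x hx => by
      by_cases xY : x ∈ Y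
      · exact YA w hw x xY
      · calc x * w = w * (w⁻¹ * x * w) := by group
          _ = w * x := by rw [YA w hw _ (two x hx xY)]; group
    have ww : w * w ∈ Y := by
      refine fY _ (A.mul_mem hw hw) ?_
      calc d * (w * w) * d⁻¹ = (d * w * d⁻¹) * (d * w * d⁻¹) := by group
        _ = w * (a * w) * a := by rw [out w hw wY]; group
        _ = w * w * (a * a) := by rw [← Aa w hw]; group
        _ = w * w := by rw [al.a2, mul_one]
    have nY : ∀ x, x ∉ Y → g⁻¹ * x * g ∉ Y := fun x xY h => xY (by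
      have := Yg _ h
      rwa [show g * (g⁻¹ * x * g) * g⁻¹ = x by group] at this)
    have g3 : g * g * g = 1 := by rw [← pow_three', ← al.g3]; exact pow_orderOf_eq_one g
    obtain ⟨w1, h1⟩ : ∃ x, x = g⁻¹ * w * g := ⟨_, rfl⟩
    obtain ⟨w2, h2⟩ : ∃ x, x = g⁻¹ * w1 * g := ⟨_, rfl⟩
    have b0 := AB w hw
    have b1 : w1 ∈ B := h1 ▸ Bg w b0
    have b2 : w2 ∈ B := h2 ▸ Bg w1 b1
    have y1 : w1 ∉ Y := h1 ▸ nY w wY
    have y2 : w2 ∉ Y := h2 ▸ nY w1 y1
    have h3 : g⁻¹ * w2 * g = w := by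
      calc g⁻¹ * w2 * g = (g * g * g)⁻¹ * w * (g * g * g) := by rw [h2, h1]; group
        _ = w := by rw [g3]; group
    have ng : w * w1 * w2 * g = g * (w * w1 * w2) := by
      calc w * w1 * w2 * g = g * ((g⁻¹ * w * g) * (g⁻¹ * w1 * g) * (g⁻¹ * w2 * g)) := by group
        _ = g * (w * w1 * w2) := by rw [← h1, ← h2, h3, cw _ (B.mul_mem b1 b2), mul_assoc w]
    have nY' : w * w1 * w2 ∈ Y := by
      by_cases e : w * w1 * w2 = 1
      · exact e ▸ one_mem _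
      · rw [f2 g al.g3 B pB _ (B.mul_mem (B.mul_mem b0 b1) b2) a (AB a aA) e al.a1 ng al.ga.symm]
        exact aY
    have k1 := two w1 b1 y1
    have k2 := two w2 b2 y2
    refine wY ?_
    have e : w = (Y.subtype ⟨_, Y.mul_mem ww k1⟩)⁻¹ * (w * w1 * w2) * (w⁻¹ * w2)⁻¹ := by
      change w = (w * w * (w⁻¹ * w1))⁻¹ * (w * w1 * w2) * (w⁻¹ * w2)⁻¹
      group
    rw [e]
    exact Y.mul_mem (Y.mul_mem (Y.inv_mem (Y.mul_mem ww k1)) nY') (Y.inv_mem k2)
  intro x x1 x2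
  obtain ⟨v, hv, s, hs, -, rfl⟩ := dec x ((mB x).2 ⟨x1, x2⟩)
  exact hY ▸ Y.mul_mem (AY v hv) hs

end CL.L11
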