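/-
Project L11 (S3717): the lemmas `BetaThm` and `GridThm`.
-/
import Cfsg.Agent.L11.Defs

set_option autoImplicit false
open Subgroup

namespace CL.L11

universe u

namespace BG

variable {G : Type*} [Group G]

/-- an involution commuting with all its `M`-conjugates generates an `M`-invariant 2-group -/
theorem common {M : Subgroup G}
    (hF : ∀ P : Subgroup G, IsPGroup 2 P → (∀ m ∈ M, ∀ x ∈ P, m * x * m⁻¹ ∈ P) → P = ⊥)
    {e : G} (e2 : e * e = 1) (hc : ∀ m ∈ M, Commute e (m * e * m⁻¹)) : e = 1 := by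
  let S : Set G := {x | ∃ m ∈ M, x = m * e * m⁻¹}
  have hcomm : ∀ x ∈ S, ∀ w ∈ S, Commute x w := by
    rintro _ ⟨m, hm, rfl⟩ _ ⟨n, hn, rfl⟩
    have h1 := (hc (m⁻¹ * n) (M.mul_mem (M.inv_mem hm) hn)).conj m
    have h2 : m * (m⁻¹ * n * e * (m⁻¹ * n)⁻¹) * m⁻¹ = n * e * n⁻¹ := by group
    rwa [h2] at h1
  have h1 : ∀ w ∈ S, ∀ x ∈ closure S, Commute x w := by
    intro w hw x hx
    induction hx using closure_induction with
    | mem x hx => exact hcomm x hx w hw
    | one => exact Commute.one_left w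
    | mul x x' _ _ hx hx' => exact hx.mul_left hx'
    | inv x _ hx => exact hx.inv_left
  have h2 : ∀ x ∈ closure S, ∀ w ∈ closure S, Commute x w := by
    intro x hx w hw
    induction hw using closure_induction with
    | mem w hw => exact h1 w hw x hx
    | one => exact Commute.one_right x
    | mul w w' _ _ hw hw' => exact hw.mul_right hw'
    | inv w _ hw => exact hw.inv_right
  have h3 : ∀ x ∈ closure S, x * x = 1 := by
    intro x hx
    induction hx using closure_induction with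
    | mem x hx =>
      obtain ⟨m, _, rfl⟩ := hx
      calc m * e * m⁻¹ * (m * e * m⁻¹) = m * (e * e) * m⁻¹ := by group
        _ = 1 := by rw [e2]; group
    | one => exact one_mul 1
    | mul x x' hx0 hx0' hx hx' =>
      have hxx := (h2 x hx0 x' hx0').eq
      calc x * x' * (x * x') = x * (x' * x) * x' := by group
        _ = (x * x) * (x' * x') := by rw [← hxx]; group
        _ = 1 := by rw [hx, hx', one_mul]
    | inv x _ hx => rw [← mul_inv_rev, hx, inv_one]
  have h4 : IsPGroup 2 (closure S) := fun g =>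
    ⟨1, Subtype.ext (by simpa [pow_two] using h3 g.1 g.2)⟩
  have h5 : ∀ m ∈ M, ∀ x ∈ closure S, m * x * m⁻¹ ∈ closure S := by
    intro m hm x hx
    induction hx using closure_induction with
    | mem x hx =>
      obtain ⟨n, hn, rfl⟩ := hx
      exact subset_closure ⟨m * n, M.mul_mem hm hn, by group⟩
    | one => rw [mul_one, mul_inv_cancel]; exact one_mem _
    | mul x x' _ _ hx hx' =>
      have : m * (x * x') * m⁻¹ = (m * x * m⁻¹) * (m * x' * m⁻¹) := by group
      rw [this]; exact mul_mem hx hx'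
    | inv x _ hx =>
      have : m * x⁻¹ * m⁻¹ = (m * x * m⁻¹)⁻¹ := by group
      rw [this]; exact inv_mem hx
  have h6 : e ∈ closure S := subset_closure ⟨1, M.one_mem, by group⟩
  rw [hF _ h4 h5] at h6
  exact (Subgroup.mem_bot).1 h6

theorem abs1 {p q r s : G} (h : p * q * (r * s) = p * r * (q * s)) : Commute q r := by
  have h1 : p * (q * r) * s = p * (r * q) * s := by
    calc p * (q * r) * s = p * q * (r * s) := by group
      _ = p * r * (q * s) := h
      _ = p * (r * q) * s := by group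
  exact mul_left_cancel (mul_right_cancel h1)

theorem abs2 {p q r s : G} (_pq : Commute p q) (pr : Commute p r) (qr : Commute q r)
    (qs : Commute q s) (_rs : Commute r s) (h : Commute (p * q) (r * s)) : Commute p s := by
  have h1 : Commute q (r * s) := qr.mul_right qs
  have h2 := h.mul_left h1.inv_left
  rw [mul_assoc, mul_inv_cancel, mul_one] at h2
  have h3 := pr.inv_right.mul_right h2
  rwa [← mul_assoc, inv_mul_cancel, one_mul] at h3

/-- the grid computation -/
theorem grid {a y w : G} (yw : Commute y w) (a2 : a * a = 1)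
    (c1 : Commute a (y * a * y⁻¹)) (c2 : Commute a (w * a * w⁻¹))
    (n1 : nm y a = 1) (n2 : nm w a = 1) (i j : ℕ) (hi : i < 3) (hj : j < 3) :
    Commute a ((y ^ i * w ^ j) * a * (y ^ i * w ^ j)⁻¹) := by
  have inv2 : ∀ g : G, (g * a * g⁻¹) * (g * a * g⁻¹) = 1 := fun g => by
    calc g * a * g⁻¹ * (g * a * g⁻¹) = g * (a * a) * g⁻¹ := by group
      _ = 1 := by rw [a2]; group
  have key : ∀ g : G, Commute a (g * a * g⁻¹) → nm g a = 1 →
      g ^ 2 * a * (g ^ 2)⁻¹ = a * (g * a * g⁻¹) := by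
    intro g hg hn
    have h1 : (a * (g * a * g⁻¹)) * (a * (g * a * g⁻¹)) = 1 := by
      calc (a * (g * a * g⁻¹)) * (a * (g * a * g⁻¹)) = a * ((g * a * g⁻¹) * a) * (g * a * g⁻¹) := by
            group
        _ = (a * a) * ((g * a * g⁻¹) * (g * a * g⁻¹)) := by rw [← hg.eq]; group
        _ = 1 := by rw [a2, inv2, one_mul]
    unfold nm at hn
    exact mul_left_cancel (hn.trans h1.symm)
  have wy : w * y = y * w := yw.eq.symm
  have e20 := key y c1 n1
  have e02 := key w c2 n2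
  have yw2 : w ^ 2 * y = y * w ^ 2 := (yw.pow_right 2).eq.symm
  have y2w : w * y ^ 2 = y ^ 2 * w := (yw.pow_left 2).eq.symm
  have y2w2 : w ^ 2 * y ^ 2 = y ^ 2 * w ^ 2 := (yw.pow_pow 2 2).eq.symm
  -- `a21 = r s`
  have e21 : (y ^ 2 * w) * a * (y ^ 2 * w)⁻¹ = (w * a * w⁻¹) * ((y * w) * a * (y * w)⁻¹) := by
    calc (y ^ 2 * w) * a * (y ^ 2 * w)⁻¹ = w * (y ^ 2 * a * (y ^ 2)⁻¹) * w⁻¹ := by rw [← y2w]; group
      _ = (w * a * w⁻¹) * ((w * y) * a * (w * y)⁻¹) := by rw [e20]; group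
      _ = _ := by rw [wy]
  -- `a12 = q s`
  have e12 : (y * w ^ 2) * a * (y * w ^ 2)⁻¹ = (y * a * y⁻¹) * ((y * w) * a * (y * w)⁻¹) := by
    calc (y * w ^ 2) * a * (y * w ^ 2)⁻¹ = y * (w ^ 2 * a * (w ^ 2)⁻¹) * y⁻¹ := by group
      _ = _ := by rw [e02]; group
  have e22 : (y ^ 2 * w ^ 2) * a * (y ^ 2 * w ^ 2)⁻¹ =
      (a * (y * a * y⁻¹)) * ((w * a * w⁻¹) * ((y * w) * a * (y * w)⁻¹)) := by
    calc (y ^ 2 * w ^ 2) * a * (y ^ 2 * w ^ 2)⁻¹ = y ^ 2 * (w ^ 2 * a * (w ^ 2)⁻¹) * (y ^ 2)⁻¹ := by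
          group
      _ = (y ^ 2 * a * (y ^ 2)⁻¹) * ((y ^ 2 * w) * a * (y ^ 2 * w)⁻¹) := by rw [e02]; group
      _ = _ := by rw [e20, e21]
  have e22' : (y ^ 2 * w ^ 2) * a * (y ^ 2 * w ^ 2)⁻¹ =
      (a * (w * a * w⁻¹)) * ((y * a * y⁻¹) * ((y * w) * a * (y * w)⁻¹)) := by
    calc (y ^ 2 * w ^ 2) * a * (y ^ 2 * w ^ 2)⁻¹ = w ^ 2 * (y ^ 2 * a * (y ^ 2)⁻¹) * (w ^ 2)⁻¹ := by
          rw [← y2w2]; group
      _ = (w ^ 2 * a * (w ^ 2)⁻¹) * ((w ^ 2 * y) * a * (w ^ 2 * y)⁻¹) := by rw [e20]; group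
      _ = _ := by rw [yw2, e02, e12]
  have crs : Commute (w * a * w⁻¹) ((y * w) * a * (y * w)⁻¹) := by
    have h := c1.conj w
    have h' : w * (y * a * y⁻¹) * w⁻¹ = (w * y) * a * (w * y)⁻¹ := by group
    rwa [h', wy] at h
  have cqs : Commute (y * a * y⁻¹) ((y * w) * a * (y * w)⁻¹) := by
    have h := c2.conj y
    have h' : y * (w * a * w⁻¹) * y⁻¹ = (y * w) * a * (y * w)⁻¹ := by group
    rwa [h'] at h
  have c2021 : Commute (a * (y * a * y⁻¹)) ((w * a * w⁻¹) * ((y * w) * a * (y * w)⁻¹)) := by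
    have h := c2.conj (y ^ 2)
    have h' : y ^ 2 * (w * a * w⁻¹) * (y ^ 2)⁻¹ = (y ^ 2 * w) * a * (y ^ 2 * w)⁻¹ := by group
    rwa [h', e20, e21] at h
  have e3 := e22.symm.trans e22'
  have cqr : Commute (y * a * y⁻¹) (w * a * w⁻¹) := abs1 e3
  have cps : Commute a ((y * w) * a * (y * w)⁻¹) := abs2 c1 c2 cqr cqs crs c2021
  interval_cases i <;> interval_cases j
  · simp only [pow_zero, one_mul, inv_one, mul_one]; exact Commute.refl a
  · simpa only [pow_zero, pow_one, one_mul] using c2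
  · rw [pow_zero, one_mul, e02]; exact (Commute.refl a).mul_right c2
  · simpa only [pow_zero, pow_one, mul_one] using c1
  · simpa only [pow_one] using cps
  · rw [pow_one, e12]; exact c1.mul_right cps
  · rw [pow_zero, mul_one, e20]; exact (Commute.refl a).mul_right c1
  · rw [pow_one, e21]; exact c2.mul_right cps
  · rw [e22]; exact ((Commute.refl a).mul_right c1).mul_right (c2.mul_right cps)

end BG

theorem betaThm (hB : BasThm.{u}) (hF1 : F1Thm.{u}) (hF2 : F2Thm.{u}) (hN : NThm.{u}) :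
    BetaThm.{u} := by
  intro G _ _ M y t c z d h
  have hT : Tri (O2C t) t y := (hF2 G M y t c z d h).2.2.2.2.1.toTri
  have inv : ∀ e ∈ O2C t, e * c = c * e → e * e = 1 → e = 1 := by
    intro e he hec e2
    refine BG.common (hF1 G M y t c z d h).1 e2 ?_
    intro m hm
    by_cases h1 : m = 1
    · subst h1; rw [one_mul, inv_one, mul_one]
    obtain ⟨i, rfl⟩ := h.reg m hm h1
    have h2 : Commute e (y * e * y⁻¹) := (hN G _ t y hT e he).2.2.1 e2
    have h3 : c ^ i * e * (c ^ i)⁻¹ = e := by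
      have : Commute (c ^ i) e := (Commute.symm hec).pow_left i
      rw [this.eq]; group
    have h4 := h2.conj (c ^ i)
    have h5 : c ^ i * (y * e * y⁻¹) * (c ^ i)⁻¹ =
        c ^ i * y * (c ^ i)⁻¹ * (c ^ i * e * (c ^ i)⁻¹) * (c ^ i * y * (c ^ i)⁻¹)⁻¹ := by group
    rwa [h5, h3] at h4
  have ind : ∀ k : ℕ, ∀ a ∈ O2C t, a * c = c * a → a ^ 2 ^ k = 1 → a = 1 := by
    intro k
    induction k with
    | zero => intro a _ _ h1; simpa using h1
    | succ k ih =>
      intro a ha hac h1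
      refine ih a ha hac (inv _ (pow_mem ha _) ((Commute.pow_left hac _).eq) ?_)
      rw [← pow_two, ← pow_mul, ← pow_succ, h1]
  intro a ha hac
  obtain ⟨k, hk⟩ := (hB G t).1 ⟨a, ha⟩
  exact ind k a ha hac (by simpa using congrArg Subtype.val hk)

theorem gridThm (hB : BasThm.{u}) (hF1 : F1Thm.{u}) (hF2 : F2Thm.{u}) (hN : NThm.{u}) :
    GridThm.{u} := by
  intro G _ _ M y t c z d h a ha a2 a1 ad
  have _ := hB
  have hT : Tri (O2C t) t y := (hF2 G M y t c z d h).2.2.2.2.1.toTri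
  rcases (hN G _ t y hT a ha).1 with n1 | n1
  swap
  · exact n1
  exfalso
  have c1 : Commute a (y * a * y⁻¹) := (hN G _ t y hT a ha).2.2.1 a2
  have da : d * a * d⁻¹ = a := by rw [← ad]; group
  have hdc : d = t * c * c := by
    have h1 := h.td
    calc d = t * (t * d) := by rw [← mul_assoc, h.tt, one_mul]
      _ = t * c * c := by rw [h1, pow_two, mul_assoc]
  obtain ⟨w, hw⟩ : ∃ w, w = d * y * d⁻¹ := ⟨_, rfl⟩
  have wM : w ∈ M := by
    have h1 := h.tM _ (h.cM _ (h.cM _ h.yM))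
    have h2 : w = t * (c * (c * y * c⁻¹) * c⁻¹) * t⁻¹ := by rw [hw, hdc]; group
    rwa [h2]
  have yw : Commute y w := h.comm y h.yM w wM
  have c2 : Commute a (w * a * w⁻¹) := by
    have h1 := c1.conj d
    have h2 : d * (y * a * y⁻¹) * d⁻¹ = w * (d * a * d⁻¹) * w⁻¹ := by rw [hw]; group
    rwa [h2, da] at h1
  have n2 : nm w a = 1 := by
    have h1 : nm w (d * a * d⁻¹) = d * nm y a * d⁻¹ := by
      unfold nm; rw [hw, conj_pow]; group
    rw [da, n1] at h1
    rw [h1]; group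
  have wy : w ∉ zpowers y := by
    intro hz
    obtain ⟨k, hk⟩ := mem_zpowers_iff.1 hz
    have h1 : Commute t w := by rw [← hk]; exact (Commute.zpow_right h.ty k)
    have h2 := h1.conj d
    have h3 : d * w * d⁻¹ = y := by
      rw [hw]
      calc d * (d * y * d⁻¹) * d⁻¹ = (d * d) * y * (d * d)⁻¹ := by group
        _ = y := by rw [h.dd]; group
    rw [h3, h.dtd] at h2
    have h4 : Commute z y := by
      have h5 : Commute t⁻¹ y := Commute.inv_left h.ty
      have h6 := h5.mul_left h2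
      rwa [← mul_assoc, inv_mul_cancel, one_mul] at h6
    have h5 := h.zy
    rw [h4.eq, mul_assoc, mul_inv_cancel, mul_one] at h5
    have h6 : y ^ 2 = 1 := by rw [pow_two]; nth_rw 1 [h5]; exact inv_mul_cancel y
    have h7 := orderOf_dvd_of_pow_eq_one h6
    rw [h.y3] at h7
    omega
  have y3 : y ^ 3 = 1 := h.cube y h.yM
  have w3 : w ^ 3 = 1 := h.cube w wM
  let K : Subgroup G := closure {y, w}
  have KM : K ≤ M := by
    refine (closure_le _).2 ?_
    rintro x (rfl | rfl)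
    · exact h.yM
    · exact wM
  have yK : zpowers y ≤ K := zpowers_le.2 (subset_closure (by simp))
  have wK : w ∈ K := subset_closure (by simp)
  have cy : Nat.card (zpowers y) = 3 := by rw [Nat.card_zpowers, h.y3]
  have cK : Nat.card K = 9 := by
    have h1 : Nat.card K ∣ 3 ^ 2 := by
      have := card_dvd_of_le KM; rwa [h.card] at this
    have h2 : 3 ∣ Nat.card K := by
      have := card_dvd_of_le yK; rwa [cy] at this
    obtain ⟨k, hk, hk'⟩ := (Nat.dvd_prime_pow Nat.prime_three).1 h1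
    interval_cases k
    · rw [hk'] at h2; omega
    · exfalso
      have := eq_of_le_of_card_ge yK (by rw [cy, hk']; norm_num)
      exact wy (this ▸ wK)
    · exact hk'
  have KM' : K = M := eq_of_le_of_card_ge KM (by rw [cK, h.card])
  have form : ∀ m ∈ K, ∃ i j : ℕ, m = y ^ i * w ^ j := by
    intro m hm
    induction hm using closure_induction with
    | mem x hx =>
      rcases hx with rfl | rfl
      · exact ⟨1, 0, by simp⟩
      · exact ⟨0, 1, by simp⟩
    | one => exact ⟨0, 0, by simp⟩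
    | mul x x' _ _ hx hx' =>
      obtain ⟨i, j, rfl⟩ := hx
      obtain ⟨i', j', rfl⟩ := hx'
      refine ⟨i + i', j + j', ?_⟩
      rw [pow_add, pow_add]
      exact ((yw.pow_pow i' j).symm.mul_mul_mul_comm _ _)
    | inv x _ hx =>
      obtain ⟨i, j, rfl⟩ := hx
      refine ⟨2 * i, 2 * j, ?_⟩
      refine inv_eq_of_mul_eq_one_right ?_
      rw [(yw.pow_pow (2 * i) j).symm.mul_mul_mul_comm, ← pow_add, ← pow_add,
        show i + 2 * i = 3 * i by ring, show j + 2 * j = 3 * j by ring, pow_mul, pow_mul, y3, w3]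
      simp
  refine a1 (BG.common (hF1 G M y t c z d h).1 a2 ?_)
  intro m hm
  obtain ⟨i, j, rfl⟩ := form m (KM' ▸ hm)
  rw [pow_eq_pow_mod i y3, pow_eq_pow_mod j w3]
  exact BG.grid yw a2 c1 c2 n1 n2 _ _ (Nat.mod_lt _ (by norm_num)) (Nat.mod_lt _ (by norm_num))

end CL.L11
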