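/-
Project L11, job BAS (helper60): basic properties of `O₂(C(s))`.
-/
import Cfsg.Agent.L11.Defs

set_option autoImplicit false
open Subgroup

namespace CL.L11

universe u

open Cfsg CL.Even

theorem basThm : BasThm.{u} := by
  intro G _ _ s
  have e : ∀ s : G, O2C s = pCoreOf 2 (centralizer ({s} : Set G)) := fun s => core_def _
  have cj' : ∀ g : G, O2C (g * s * g⁻¹) = cj g (O2C s) := fun g => by
    rw [e, e, cj_core]
    congr 1
    ext x
    rw [mem_cj, mem_centralizer_singleton_iff, mem_centralizer_singleton_iff]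
    constructor
    · intro h
      calc g⁻¹ * x * g * s = g⁻¹ * (x * (g * s * g⁻¹)) * g := by group
        _ = _ := by rw [h]; group
    · intro h
      calc x * (g * s * g⁻¹) = g * (g⁻¹ * x * g * s) * g⁻¹ := by group
        _ = _ := by rw [h]; group
  have last : ∀ P : Subgroup G, IsPGroup 2 P → (∀ q ∈ P, q * s = s * q) →
      (∀ g, g * s = s * g → ∀ x ∈ P, g * x * g⁻¹ ∈ P) → P ≤ O2C s := fun P hP h1 h2 => by
    rw [e]
    refine le_core (fun q hq => mem_centralizer_singleton_iff.2 (h1 q hq)) hP (le_norm_of_cj_le fun g hg => ?_)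
    rintro _ ⟨x, hx, rfl⟩
    exact h2 g (mem_centralizer_singleton_iff.1 hg) x hx
  refine ⟨e s ▸ core_isP _, fun q hq => mem_centralizer_singleton_iff.1 (core_le _ (e s ▸ hq)), fun g x => ?_,
    fun g hg x hx => ?_, fun h => ?_, fun g => by rw [cj', card_cj], last⟩
  · rw [cj', mem_cj, show g⁻¹ * (g * x * g⁻¹) * g = x by group]
  · rw [e] at hx ⊢
    exact conj_mem (self_le_norm_core _ (mem_centralizer_singleton_iff.2 hg)) hx
  · refine last (zpowers s) (isPGroup_zpowers (k := 1) (by rw [pow_one, pow_two, h])) (fun q hq => ?_)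
      (fun g hg x hx => ?_) (mem_zpowers s)
    · obtain ⟨k, rfl⟩ := mem_zpowers_iff.1 hq
      exact ((Commute.refl s).zpow_left k).eq
    · obtain ⟨k, rfl⟩ := mem_zpowers_iff.1 hx
      rw [((show Commute g s from hg).zpow_right k).eq, mul_inv_cancel_right]
      exact hx

end CL.L11
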