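/-
Project L11 (S3717): in the case `C(t) = Q . A₅` the invariant subsets of `Q \ ⟨t⟩` have order divisible by fifteen.
-/
import Cfsg.Agent.L11.Defs

set_option autoImplicit false
open Subgroup

namespace CL.L11

universe u

namespace CntX

theorem dvd_of_free {G : Type*} [Group G] [Finite G] {p : ℕ} (hp : p.Prime) {g : G} (hg : g ^ p = 1) {X : Set G}
    (hX : ∀ q ∈ X, g * q * g⁻¹ ∈ X) (hf : ∀ q ∈ X, g * q * g⁻¹ ≠ q) : p ∣ Nat.card X := by
  classical
  have : Fact p.Prime := ⟨hp⟩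
  have := Fintype.ofFinite X
  let f : Function.End X := fun q => ⟨g * q * g⁻¹, hX q q.2⟩
  have hn : ∀ (n : ℕ) (q : X), ((f ^ n) q : G) = g ^ n * q * (g ^ n)⁻¹ := by
    intro n
    induction n with
    | zero => intro q; simp [Function.End.one_def]
    | succ n ih =>
      intro q
      rw [pow_succ]
      change ((f ^ n) (f q) : G) = _
      rw [ih, pow_succ]
      simp only [f, mul_assoc, mul_inv_rev]
  have h1 : f ^ p ^ 1 = 1 := funext fun q => Subtype.ext (by rw [pow_one, hn, hg, one_mul, inv_one, mul_one]; rfl)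
  have h2 := Equiv.Perm.card_fixedPoints_modEq h1
  have h3 : IsEmpty f.fixedPoints := ⟨fun q => hf q.1 q.1.2 (congrArg Subtype.val q.2)⟩
  rw [Fintype.card_eq_zero (α := f.fixedPoints)] at h2
  rw [Nat.card_eq_fintype_card]
  exact Nat.modEq_zero_iff_dvd.1 h2

theorem exists_ab : ∃ a b : alternatingGroup (Fin 5), a ^ 3 = 1 ∧ a ≠ 1 ∧ b ^ 3 = 1 ∧ b ≠ 1 ∧ (a * b) ^ 5 = 1 ∧
    (a * b⁻¹) ^ 5 = 1 :=
  ⟨⟨Equiv.swap 0 1 * Equiv.swap 1 2, Equiv.Perm.mem_alternatingGroup.2 (by decide)⟩,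
    ⟨Equiv.swap 2 3 * Equiv.swap 3 4, Equiv.Perm.mem_alternatingGroup.2 (by decide)⟩,
    Subtype.ext (by decide), fun e => absurd (congrArg Subtype.val e) (by decide), Subtype.ext (by decide),
    fun e => absurd (congrArg Subtype.val e) (by decide), Subtype.ext (by decide), Subtype.ext (by decide)⟩

theorem sq_eq {H : Type*} [Group H] {V : Subgroup H} (hc : ∀ a ∈ V, ∀ b ∈ V, a * b = b * a) (h2 : ∀ a ∈ V, a * a = 1)
    {σ : MulAut H} (hV : ∀ a ∈ V, σ a ∈ V) (h3 : ∀ a, σ (σ (σ a)) = a) (hf : ∀ a ∈ V, σ a = a → a = 1) {v : H}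
    (hv : v ∈ V) : σ (σ v) = v * σ v := by
  have h1 := hV v hv
  have h1' := hV _ h1
  have h4 : v * σ v * σ (σ v) = 1 := hf _ (mul_mem (mul_mem hv h1) h1') (by
    rw [map_mul, map_mul, h3, hc _ (mul_mem h1 h1') v hv, mul_assoc])
  rw [← inv_eq_of_mul_eq_one_right h4, inv_eq_of_mul_eq_one_right (h2 _ (mul_mem hv h1))]

theorem core {H : Type*} [Group H] {V : Subgroup H} (hc : ∀ a ∈ V, ∀ b ∈ V, a * b = b * a) (h2 : ∀ a ∈ V, a * a = 1)
    {σ τ : MulAut H} (hσ : ∀ a ∈ V, σ a ∈ V) (hτ : ∀ a ∈ V, τ a ∈ V) (σ3 : σ ^ 3 = 1) (τ3 : τ ^ 3 = 1)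
    (fσ : ∀ a ∈ V, σ a = a → a = 1) (fτ : ∀ a ∈ V, τ a = a → a = 1) {v : H} (hv : v ∈ V)
    (h5 : ((σ * τ⁻¹) ^ 5) v = v) (h : σ (τ v) = v) : v = 1 := by
  have s3 : ∀ a, σ (σ (σ a)) = a := fun a => by simpa [pow_succ] using congrArg (fun f : MulAut H => f a) σ3
  have t3 : ∀ a, τ (τ (τ a)) = a := fun a => by simpa [pow_succ] using congrArg (fun f : MulAut H => f a) τ3
  have hw := hτ v hv
  have e1 : σ v = τ v * v := by
    have := sq_eq hc h2 hσ s3 fσ hw
    rwa [h] at this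
  have e2 : τ (τ v) = v * τ v := sq_eq hc h2 hτ t3 fτ hv
  have e3 : τ⁻¹ v = v * τ v := by
    rw [← e2]
    exact τ.injective (by rw [t3]; exact MulAut.apply_inv_self _ τ v)
  have r1 : (σ * τ⁻¹) v = τ v := by
    rw [MulAut.mul_apply, e3, map_mul, h, e1, mul_assoc, h2 v hv, mul_one]
  have r2 : (σ * τ⁻¹) (τ v) = τ v * v := by rw [MulAut.mul_apply, MulAut.inv_apply_self, e1]
  have r3 : (σ * τ⁻¹) (τ v * v) = v := by
    rw [map_mul, r1, r2, mul_assoc, hc v hv _ hw, ← mul_assoc, h2 _ hw, one_mul]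
  generalize σ * τ⁻¹ = ρ at h5 r1 r2 r3
  change ρ (ρ (ρ (ρ (ρ v)))) = v at h5
  rw [r1, r2, r3, r1, r2, mul_eq_right] at h5
  exact τ.injective (h5.trans (map_one τ).symm)

theorem quot {C H : Type*} [Group C] [Group H] (π : C →* H) {t : C} (hk : ∀ a, π a = 1 ↔ a = 1 ∨ a = t) {Q : Subgroup C}
    [hQ : Q.Normal] (tt : t * t = 1) (ct : ∀ a, a * t = t * a) (h2 : ∀ q ∈ Q, q * q = 1 ∨ q * q = t)
    (hc : ∀ p ∈ Q, ∀ q ∈ Q, p * q = q * p ∨ p * q = q * p * t) {a b : C} (a3 : a ^ 3 = 1) (b3 : b ^ 3 = 1)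
    (fa : ∀ q ∈ Q, q * a = a * q → q = 1 ∨ q = t) (fb : ∀ q ∈ Q, q * b = b * q → q = 1 ∨ q = t)
    (h5 : (a * b) ^ 5 ∈ Q) (h5' : (a * b⁻¹) ^ 5 ∈ Q) {q : C} (hq : q ∈ Q)
    (h : (a * b) ^ 16 * q * ((a * b) ^ 16)⁻¹ = q) : q = 1 ∨ q = t := by
  have πt : π t = 1 := (hk t).2 (Or.inr rfl)
  have c1 : ∀ p ∈ Q, ∀ q ∈ Q, π p * π q = π q * π p := fun p hp q hq => by
    rw [← map_mul, ← map_mul]
    rcases hc p hp q hq with e | e
    · rw [e]
    · rw [e, map_mul, πt, mul_one]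
  have nV : ∀ g : C, ∀ v ∈ Q.map π, MulAut.conj (π g) v ∈ Q.map π := by
    rintro g _ ⟨p, hp, rfl⟩
    exact ⟨g * p * g⁻¹, hQ.conj_mem p hp g, by simp⟩
  have p3 : ∀ g : C, g ^ 3 = 1 → MulAut.conj (π g) ^ 3 = 1 := fun g hg => by
    rw [← map_pow, ← map_pow, hg, map_one, map_one]
  have fV : ∀ g : C, g ^ 3 = 1 → (∀ q ∈ Q, q * g = g * q → q = 1 ∨ q = t) →
      ∀ v ∈ Q.map π, MulAut.conj (π g) v = v → v = 1 := by
    rintro g g3 fg _ ⟨p, hp, rfl⟩ e
    have e1 : π (g * p * g⁻¹ * p⁻¹) = 1 := by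
      rw [MulAut.conj_apply] at e
      rw [map_mul, map_mul, map_mul, map_inv, map_inv, e, mul_inv_cancel]
    refine (hk p).2 (fg p hp ?_)
    rcases (hk _).1 e1 with e2 | e2
    · rw [mul_inv_eq_one, mul_inv_eq_iff_eq_mul] at e2
      exact e2.symm
    · rw [mul_inv_eq_iff_eq_mul, mul_inv_eq_iff_eq_mul] at e2
      have e3 : Commute (g * g) p := by
        change g * g * p = p * (g * g)
        calc g * g * p = g * (t * p * g) := by rw [mul_assoc, e2]
          _ = t * (g * p) * g := by rw [← mul_assoc, ← mul_assoc, ct g, mul_assoc t g p]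
          _ = (t * t) * (p * (g * g)) := by rw [e2]; simp only [mul_assoc]
          _ = _ := by rw [tt, one_mul]
      have e4 := e3.mul_left e3
      rw [show g * g * (g * g) = g ^ 3 * g by simp only [pow_succ, pow_zero, one_mul, mul_assoc], g3, one_mul] at e4
      exact e4.symm.eq
  have tr : ∀ g ∈ Q, MulAut.conj (π g) (π q) = π q := fun g hg => by
    rw [MulAut.conj_apply, c1 g hg q hq, mul_inv_cancel_right]
  refine (hk q).1 (core (V := Q.map π) ?_ ?_ (nV a) (nV b) (p3 a a3) (p3 b b3) (fV a a3 fa) (fV b b3 fb)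
    (mem_map_of_mem π hq) ?_ ?_)
  · rintro _ ⟨x, hx, rfl⟩ _ ⟨y, hy, rfl⟩
    exact c1 x hx y hy
  · rintro _ ⟨x, hx, rfl⟩
    rw [← map_mul]
    exact (hk _).2 (h2 x hx)
  · rw [← map_inv, ← map_inv, ← map_mul, ← map_mul, ← map_pow, ← map_pow]
    exact tr _ h5'
  · have e := congrArg π h
    rw [map_mul, map_mul, map_inv, ← MulAut.conj_apply, show 16 = 5 * 3 + 1 from rfl, pow_succ', pow_mul, map_mul,
      map_mul, MulAut.mul_apply, tr _ (pow_mem h5 3), map_mul, map_mul, MulAut.mul_apply] at e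
    exact e

end CntX

theorem cntThm (hB : BasThm.{u}) (hF2 : F2Thm.{u}) : CntThm.{u} := by
  intro G _ _ M y t c z d h hT X hX hN
  obtain ⟨⟨φ, hφ, hk⟩, h2, hc, -⟩ := hT
  obtain ⟨-, -, -, -, hZ, -, -, hTri, -⟩ := hF2 G M y t c z d h
  obtain ⟨-, cen, -, nor, -⟩ := hB G t
  have mc : ∀ g : centralizer ({t} : Set G), (g : G) * t = t * g := fun g => mem_centralizer_singleton_iff.1 g.2
  have q4 : ∀ q ∈ O2C t, q ^ 4 = 1 := fun q hq => by
    rw [show q ^ 4 = q * q * (q * q) by simp only [pow_succ, pow_zero, one_mul, mul_assoc]]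
    rcases h2 q hq with e | e
    · rw [e, one_mul]
    · rw [e, h.tt]
  have lift : ∀ a : alternatingGroup (Fin 5), a ^ 3 = 1 → a ≠ 1 → ∃ g : centralizer ({t} : Set G), φ g = a ∧ g ^ 3 = 1 ∧
      ∀ q ∈ O2C t, q * g = g * q → q = 1 ∨ q = t := fun a a3 a1 => by
    obtain ⟨p, rfl⟩ := hφ a
    have e1 : φ (p ^ 4) = φ p := by rw [map_pow, pow_succ, a3, one_mul]
    have e2 : (p ^ 4) ^ 3 = 1 := Subtype.ext (by
      have := q4 _ ((hk (p ^ 3)).1 (by rw [map_pow, a3]))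
      rw [← pow_mul, mul_comm, pow_mul]
      exact this)
    refine ⟨p ^ 4, e1, e2, (hTri _ ?_ (mc _)).fix⟩
    rw [orderOf_coe]
    exact orderOf_eq_prime e2 fun e => a1 (by rw [← e1, e, map_one])
  refine Nat.Coprime.mul_dvd_of_dvd_of_dvd (show Nat.Coprime 3 5 by norm_num) ?_ ?_
  · refine CntX.dvd_of_free Nat.prime_three (g := y) (h.y3 ▸ pow_orderOf_eq_one y)
      (fun q hq => hN q hq y h.ty.symm) fun q hq e => ?_
    obtain ⟨k1, k2, k3⟩ := hX q hq
    exact (hZ.fix q k1 (mul_inv_eq_iff_eq_mul.1 e).symm).elim k2 k3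
  · obtain ⟨a', b', a3, a1, b3, b1, p5, p5'⟩ := CntX.exists_ab
    obtain ⟨a, rfl, a3', fa⟩ := lift a' a3 a1
    obtain ⟨b, rfl, b3', fb⟩ := lift b' b3 b1
    have m5 : (((a * b) ^ 5 : centralizer ({t} : Set G)) : G) ∈ O2C t := (hk _).1 (by rw [map_pow, map_mul, p5])
    have m5' : (((a * b⁻¹) ^ 5 : centralizer ({t} : Set G)) : G) ∈ O2C t :=
      (hk _).1 (by rw [map_pow, map_mul, map_inv, p5'])
    refine CntX.dvd_of_free Nat.prime_five (G := G) (X := X) (g := (((a * b) ^ 16 : centralizer ({t} : Set G)) : G)) ?_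
      (fun q hq => hN q hq _ (mc _)) fun q hq e => ?_
    · have := q4 _ m5
      rw [coe_pow, ← pow_mul] at this
      rw [coe_pow, ← pow_mul, show 16 * 5 = 5 * 4 * 4 from rfl, pow_mul, this, one_pow]
    · obtain ⟨k1, k2, k3⟩ := hX q hq
      let t' : centralizer ({t} : Set G) := ⟨t, mem_centralizer_singleton_iff.2 rfl⟩
      have ct : ∀ g : centralizer ({t} : Set G), g * t' = t' * g := fun g => Subtype.ext (mc g)
      have tt : t' * t' = 1 := Subtype.ext h.tt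
      have nZ : (zpowers t').Normal := ⟨fun n hn g => by
        obtain ⟨k, rfl⟩ := hn
        rw [((show Commute g t' from ct g).zpow_right k).eq, mul_inv_cancel_right]
        exact ⟨k, rfl⟩⟩
      have nQ : ((O2C t).subgroupOf (centralizer ({t} : Set G))).Normal := ⟨fun n hn g => nor g (mc g) n hn⟩
      have up : ∀ {x : centralizer ({t} : Set G)}, ((x : G) = 1 ∨ (x : G) = t) → x = 1 ∨ x = t' :=
        fun e => e.imp Subtype.ext Subtype.ext
      have := CntX.quot (QuotientGroup.mk' (zpowers t')) (t := t') (Q := (O2C t).subgroupOf _) (fun x => ?_) tt ct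
        (fun x hx => up (h2 x hx)) (fun x hx x' hx' => (hc x hx x' hx').imp Subtype.ext Subtype.ext) a3' b3'
        (fun x hx e => up (fa x hx (congrArg Subtype.val e))) (fun x hx e => up (fb x hx (congrArg Subtype.val e)))
        m5 m5' (q := ⟨q, mem_centralizer_singleton_iff.2 (cen q k1)⟩) k1 (Subtype.ext e)
      · exact this.elim (fun e => k2 (congrArg Subtype.val e)) fun e => k3 (congrArg Subtype.val e)
      · rw [QuotientGroup.mk'_apply, QuotientGroup.eq_one_iff]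
        refine ⟨?_, fun e => e.elim (fun e => e ▸ one_mem _) fun e => e ▸ mem_zpowers _⟩
        rintro ⟨k, rfl⟩
        have e2 : t' ^ (2 : ℤ) = 1 := by rw [zpow_two, tt]
        rcases Int.even_or_odd' k with ⟨j, rfl | rfl⟩
        · left; simp only [zpow_mul, e2, one_zpow]
        · right; simp only [zpow_add, zpow_mul, e2, one_zpow, one_mul, zpow_one]

end CL.L11
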