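/-
Project L11 (S3717): the group `3²` normalises no non-trivial `2`-group.
-/
import Cfsg.Agent.L11.Defs

set_option autoImplicit false
open Subgroup

namespace CL.L11

universe u

namespace F1x

/-- the four lines through a point of the affine plane of order three -/
theorem grid {B A : Type*} [CommGroup B] [CommGroup A] (a : B → A) (h3 : ∀ m : B, m ^ 3 = 1)
    (N : ∀ m, m ≠ 1 → ∀ n, a n * a (m * n) * a (m * m * n) = 1) {y w : B} (k1 : y ≠ 1) (k2 : w ≠ 1) (k3 : y * w ≠ 1)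
    (k4 : y * (w * w) ≠ 1) : a 1 ^ 3 = 1 := by
  have e2 := N w k2 1
  have e3 := N _ k3 1
  have e4 := N _ k4 1
  have r1 := N y k1 w
  have r2 := N y k1 (w * w)
  have w1 : y * w * (y * w) = y * y * (w * w) := mul_mul_mul_comm y w y w
  have w2 : y * (w * w) * (y * (w * w)) = y * y * w := by
    rw [← mul_one (y * y * w), ← h3 w, pow_three]; ac_rfl
  simp only [mul_one] at e2 e3 e4
  rw [w1] at e3
  rw [w2] at e4
  have : a 1 ^ 3 * (a w * a (y * w) * a (y * y * w)) * (a (w * w) * a (y * (w * w)) * a (y * y * (w * w))) =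
      a 1 * a w * a (w * w) * (a 1 * a (y * w) * a (y * y * (w * w))) * (a 1 * a (y * (w * w)) * a (y * y * w)) := by
    rw [pow_three]; ac_rfl
  simpa only [e2, e3, e4, r1, r2, mul_one] using this

variable {G : Type*} [Group G] [Finite G]

theorem conj_of_card {n : ℕ} {K L : Subgroup G} (h1 : Nat.card K = 3 ^ n) (h2 : Nat.card L = 3 ^ n)
    (hn : ¬ 3 ^ (n + 1) ∣ Nat.card G) : ∃ k : G, ∀ x ∈ K, k * x * k⁻¹ ∈ L := by
  have : Fact (Nat.Prime 3) := ⟨Nat.prime_three⟩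
  have ne : Nat.card G ≠ 0 := Nat.card_pos.ne'
  have e : (Nat.card G).factorization 3 = n := by
    have a := (Nat.prime_three.pow_dvd_iff_le_factorization ne).1 (h1 ▸ card_subgroup_dvd_card K)
    have b := (Nat.prime_three.pow_dvd_iff_le_factorization ne (k := n + 1)).not.1 hn
    omega
  obtain ⟨k, hk⟩ := MulAction.exists_smul_eq G (Sylow.ofCard K (e ▸ h1)) (Sylow.ofCard L (e ▸ h2))
  refine ⟨k, fun x hx => ?_⟩
  have := congrArg (fun S : Sylow 3 G => (S : Subgroup G)) hk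
  simp only [Sylow.coe_subgroup_smul, Sylow.coe_ofCard] at this
  rw [← this]
  exact smul_mem_pointwise_smul x (MulAut.conj k) K hx

omit [Finite G] in
theorem eq_one {P : Subgroup G} (hP : IsPGroup 2 P) {x : G} (hx : x ∈ P) (h3 : x ^ 3 = 1) : x = 1 := by
  obtain ⟨k, hk⟩ := hP ⟨x, hx⟩
  have e : x ^ 2 ^ k = 1 := congrArg Subtype.val hk
  exact orderOf_eq_one_iff.1 (Nat.eq_one_of_dvd_coprimes (Nat.Coprime.pow_left k (by norm_num : Nat.Coprime 2 3))
    (orderOf_dvd_of_pow_eq_one e) (orderOf_dvd_of_pow_eq_one h3))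

variable {M : Subgroup G} {y t c z d : G}

/-- non-trivial elements of `M` have no fixed points on an invariant `2`-group -/
theorem fpf (h : Cfg M y t c z d) {P : Subgroup G} (hP : IsPGroup 2 P) (hM : ∀ m ∈ M, ∀ x ∈ P, m * x * m⁻¹ ∈ P)
    {v m : G} (hv : v ∈ P) (hm : m ∈ M) (m1 : m ≠ 1) (e : v * m = m * v) : v = 1 := by
  obtain ⟨i, rfl⟩ := h.reg m hm m1
  have nc : c ∈ normalizer (M : Set G) := mem_normalizer_fintype h.cM
  have nt : t ∈ normalizer (M : Set G) := mem_normalizer_fintype h.tM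
  have n1 : (c ^ i)⁻¹ * v * c ^ i ∈ normalizer (M : Set G) := by
    rcases h.cy ((c ^ i)⁻¹ * v * c ^ i) (by
      calc (c ^ i)⁻¹ * v * c ^ i * y = (c ^ i)⁻¹ * (v * (c ^ i * y * (c ^ i)⁻¹)) * c ^ i := by group
        _ = y * ((c ^ i)⁻¹ * v * c ^ i) := by rw [e]; group) with k | k
    · exact le_normalizer k
    · exact (mul_mem_cancel_right nt).1 (le_normalizer k)
  have nv : v ∈ normalizer (M : Set G) :=
    (mul_mem_cancel_left (inv_mem (pow_mem nc i))).1 ((mul_mem_cancel_right (pow_mem nc i)).1 n1)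
  refine eq_one hP hv (h.cube v (h.cM' v fun n hn => ?_))
  have k1 : v * n * v⁻¹ * n⁻¹ ∈ M := mul_mem ((mem_normalizer_iff.1 nv n).1 hn) (inv_mem hn)
  have k2 : v * n * v⁻¹ * n⁻¹ ∈ P := by
    have := mul_mem hv (hM n hn _ (inv_mem hv))
    rwa [show v * (n * v⁻¹ * n⁻¹) = v * n * v⁻¹ * n⁻¹ by group] at this
  have := eq_one hP k2 (h.cube _ k1)
  rwa [mul_inv_eq_one, mul_inv_eq_iff_eq_mul] at this

theorem part1 (h : Cfg M y t c z d) (P : Subgroup G) (hP : IsPGroup 2 P) (hM : ∀ m ∈ M, ∀ x ∈ P, m * x * m⁻¹ ∈ P) :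
    P = ⊥ := by
  have : Fact (Nat.Prime 2) := ⟨Nat.prime_two⟩
  by_contra ne
  have : Nontrivial P := (nontrivial_iff_ne_bot P).2 ne
  have := hP.center_nontrivial
  obtain ⟨⟨⟨v, vP⟩, vc⟩, v1⟩ := exists_ne (1 : center P)
  let Z : Subgroup G := P ⊓ centralizer (P : Set G)
  have vZ : v ∈ Z := ⟨vP, fun x hx => congrArg Subtype.val (mem_center_iff.1 vc ⟨x, hx⟩)⟩
  have iZ : ∀ m ∈ M, ∀ u ∈ Z, m * u * m⁻¹ ∈ Z := fun m hm u hu => ⟨hM m hm u hu.1, fun x hx => by
    have := hu.2 _ (hM _ (inv_mem hm) x hx)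
    calc x * (m * u * m⁻¹) = m * (m⁻¹ * x * m⁻¹⁻¹ * u) * m⁻¹ := by group
      _ = m * u * m⁻¹ * x := by rw [this]; group⟩
  let cZ : CommGroup Z := { (inferInstance : Group Z) with mul_comm := fun a b => Subtype.ext (b.2.2 a a.2.1) }
  let cM : CommGroup M := { (inferInstance : Group M) with mul_comm := fun a b => Subtype.ext (h.comm a a.2 b b.2) }
  obtain ⟨w, wM, wy⟩ : ∃ w ∈ M, w ∉ zpowers y := by
    by_contra! k
    have := card_le_of_le (show M ≤ zpowers y from k)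
    rw [h.card, Nat.card_zpowers, h.y3] at this
    omega
  have y1 : y ≠ 1 := fun e => by simpa [e] using h.y3
  have := grid (B := M) (A := Z) (fun m => ⟨m * v * (m : G)⁻¹, iZ m m.2 v vZ⟩) (fun m => Subtype.ext (h.cube m m.2))
    (fun m m1 n => ?_) (y := ⟨y, h.yM⟩) (w := ⟨w, wM⟩) (fun e => y1 (congrArg Subtype.val e))
    (fun e => wy (by rw [show w = 1 from congrArg Subtype.val e]; exact one_mem _))
    (fun e => wy (by
      rw [eq_inv_of_mul_eq_one_right (show y * w = 1 from congrArg Subtype.val e)]; exact inv_mem (mem_zpowers y)))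
    (fun e => wy ?_)
  · have e : (1 * v * (1 : G)⁻¹) ^ 3 = 1 := congrArg Subtype.val this
    rw [one_mul, inv_one, mul_one] at e
    exact v1 (Subtype.ext (Subtype.ext (eq_one hP vP e)))
  · obtain ⟨m, hm⟩ := m
    obtain ⟨n, hn⟩ := n
    have uZ := iZ n hn v vZ
    have u1 := iZ m hm _ uZ
    have u2 := iZ m hm _ u1
    have m3 : m * m * m = 1 := by rw [← pow_three', h.cube m hm]
    refine Subtype.ext (show n * v * n⁻¹ * (m * n * v * (m * n)⁻¹) * (m * m * n * v * (m * m * n)⁻¹) = 1 from ?_)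
    rw [show m * n * v * (m * n)⁻¹ = m * (n * v * n⁻¹) * m⁻¹ by group,
      show m * m * n * v * (m * m * n)⁻¹ = m * (m * (n * v * n⁻¹) * m⁻¹) * m⁻¹ by group]
    generalize n * v * n⁻¹ = u at uZ u1 u2
    refine fpf h hP hM (mul_mem (mul_mem uZ.1 u1.1) u2.1) hm (fun e => m1 (Subtype.ext e)) ?_
    have c1 := uZ.2 _ (mul_mem u1.1 u2.1)
    calc u * (m * u * m⁻¹) * (m * (m * u * m⁻¹) * m⁻¹) * m
        = m * u * m⁻¹ * (m * (m * u * m⁻¹) * m⁻¹) * u * m := by rw [c1]; group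
      _ = m * u * m * u * m⁻¹ * m⁻¹ * (m * m * m) * u * (m * m * m)⁻¹ * m := by rw [m3]; group
      _ = m * (u * (m * u * m⁻¹) * (m * (m * u * m⁻¹) * m⁻¹)) := by group
  · have e1 : y * (w * w) = 1 := congrArg Subtype.val e
    have e2 : w * (w * w) = 1 := by rw [← pow_three, h.cube w wM]
    rw [← mul_right_cancel (e1.trans e2.symm)]
    exact mem_zpowers y

end F1x

open F1x in
theorem f1Thm : F1Thm.{u} := by
  intro G _ _ M y t c z d h
  refine ⟨part1 h, fun P hP ne g₁ g₂ o1 o2 n1 n2 => ?_⟩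
  have : Fact (Nat.Prime 3) := ⟨Nat.prime_three⟩
  have n9 : ¬ 3 ^ (1 + 1) ∣ Nat.card (normalizer (P : Set G)) := fun k => by
    obtain ⟨K, hK⟩ := Sylow.exists_subgroup_card_pow_prime 3 k
    obtain ⟨g, hg⟩ := conj_of_card (n := 2) (K := M) (L := K.map (normalizer (P : Set G)).subtype) h.card
      ((card_map_of_injective (subtype_injective _)).trans hK) h.n27
    refine ne ((map_eq_bot_iff_of_injective (f := (MulAut.conj g⁻¹).toMonoidHom) P (MulAut.conj g⁻¹).injective).1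
      (part1 h _ (hP.map _) ?_))
    rintro m hm _ ⟨x, hx, rfl⟩
    obtain ⟨s, -, e⟩ := hg m hm
    refine ⟨g * m * g⁻¹ * x * (g * m * g⁻¹)⁻¹, ?_, ?_⟩
    · rw [← e]; exact (mem_normalizer_iff.1 s.2 x).1 hx
    · show g⁻¹ * (g * m * g⁻¹ * x * (g * m * g⁻¹)⁻¹) * g⁻¹⁻¹ = m * (g⁻¹ * x * g⁻¹⁻¹) * m⁻¹
      group
  obtain ⟨k, hk⟩ := conj_of_card (n := 1) (K := zpowers (⟨g₁, n1⟩ : normalizer (P : Set G)))
    (L := zpowers (⟨g₂, n2⟩ : normalizer (P : Set G))) (by rw [Nat.card_zpowers, orderOf_mk, o1]; rfl)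
    (by rw [Nat.card_zpowers, orderOf_mk, o2]; rfl) n9
  obtain ⟨i, hi⟩ := hk _ (mem_zpowers _)
  have e : g₂ ^ i = k * g₁ * (k : G)⁻¹ := by simpa using congrArg Subtype.val hi
  have g3 : g₂ ^ 3 = 1 := o2 ▸ pow_orderOf_eq_one g₂
  refine ⟨k, k.2, ?_⟩
  rw [← zpow_mod_orderOf, o2] at e
  rcases (show i % ((3 : ℕ) : ℤ) = 0 ∨ i % ((3 : ℕ) : ℤ) = 1 ∨ i % ((3 : ℕ) : ℤ) = 2 by omega) with r | r | r <;>
    rw [r] at e
  · rw [zpow_zero, eq_comm, conj_eq_one_iff] at e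
    simp [e] at o1
  · exact .inl (by rw [← e, zpow_one])
  · refine .inr (by rw [← e, zpow_two, eq_inv_iff_mul_eq_one, ← pow_three', g3])

end CL.L11
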