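/-
Project L11 (S3717), job F2: centralisers of elements of order three.
-/
import Cfsg.Agent.L11.Defs

set_option autoImplicit false
open Subgroup

namespace CL.L11

universe u

namespace F2x

variable {G : Type*} [Group G] {M : Subgroup G} {y t c z d : G}

theorem two3 {P : Subgroup G} (hP : IsPGroup 2 P) {x : G} (hx : x ∈ P) (h3 : x ^ 3 = 1) : x = 1 := by
  obtain ⟨k, hk⟩ := hP ⟨x, hx⟩
  have h2 : x ^ 2 ^ k = 1 := congrArg Subtype.val hk
  exact orderOf_eq_one_iff.1 (Nat.eq_one_of_dvd_coprimes (Nat.Coprime.pow_left k (by norm_num : Nat.Coprime 2 3))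
    (orderOf_dvd_of_pow_eq_one h2) (orderOf_dvd_of_pow_eq_one h3))

theorem cjc {h g x w : G} (e : h * g * h⁻¹ = w) (k : x * g = g * x) : h * x * h⁻¹ * w = w * (h * x * h⁻¹) := by
  rw [← e]
  calc h * x * h⁻¹ * (h * g * h⁻¹) = h * (x * g) * h⁻¹ := by group
    _ = _ := by rw [k]; group

theorem six (h : Cfg M y t c z d) {x : G} (k : x * y = y * x) : x ^ 6 = 1 := by
  rw [show 6 = 2 * 3 from rfl, pow_mul]
  refine h.cube _ ?_
  rcases h.cy x k with m | m
  · exact pow_mem m 2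
  · have := mul_mem m (h.tM _ m)
    rwa [show x * t * (t * (x * t) * t⁻¹) = x * (t * t) * x by group, h.tt, mul_one, ← pow_two] at this

theorem p1 (h : Cfg M y t c z d) (g s : G) (g3 : orderOf g = 3) (ss : s * s = 1) (s1 : s ≠ 1) (k : s * g = g * s) :
    ∃ h, h * g * h⁻¹ = y ∧ h * s * h⁻¹ = t := by
  obtain ⟨h0, e⟩ := h.conj3 g g3
  have u2 : h0 * s * h0⁻¹ * (h0 * s * h0⁻¹) = 1 := by rw [conj_mul, ss]; group
  rcases h.cy _ (cjc e k) with m | m
  · have := h.cube _ m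
    rw [pow_succ, pow_two, u2, one_mul] at this
    exact absurd (conj_eq_one_iff.1 this) s1
  · obtain ⟨u, hu⟩ : ∃ u, u = h0 * s * h0⁻¹ := ⟨_, rfl⟩
    rw [← hu] at m u2
    refine ⟨u * t * h0, ?_, ?_⟩
    · rw [show u * t * h0 * g * (u * t * h0)⁻¹ = u * t * (h0 * g * h0⁻¹) * (u * t)⁻¹ by group, e, h.comm _ m _ h.yM,
        mul_inv_cancel_right]
    · rw [show u * t * h0 * s * (u * t * h0)⁻¹ = u * t * (h0 * s * h0⁻¹) * (u * t)⁻¹ by group, ← hu, mul_inv_rev,
        h.t_inv, inv_eq_of_mul_eq_one_right u2]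
      have := h.cube _ m
      calc u * t * u * (t * u) = (u * t) ^ 3 * t⁻¹ := by rw [pow_succ, pow_two]; group
        _ = t := by rw [this, one_mul, h.t_inv]

theorem p2 (h : Cfg M y t c z d) (g : G) (g3 : orderOf g = 3) (P : Subgroup G) (hP : IsPGroup 2 P) (x : G)
    (hx : x ∈ P) (x' : G) (hx' : x' ∈ P) (x1 : x ≠ 1) (x1' : x' ≠ 1) (k : x * g = g * x) (k' : x' * g = g * x') :
    x = x' := by
  obtain ⟨h0, e⟩ := h.conj3 g g3
  have a : ∀ w ∈ P, h0 * w * h0⁻¹ ∈ M → w = 1 := fun w hw m => two3 hP hw (by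
    have := h.cube _ m
    rwa [conj_pow, conj_eq_one_iff] at this)
  have m := (h.cy _ (cjc e k)).resolve_left fun m => x1 (a x hx m)
  have m' := (h.cy _ (cjc e k')).resolve_left fun m => x1' (a x' hx' m)
  have := mul_mem m (inv_mem m')
  rw [show h0 * x * h0⁻¹ * t * (h0 * x' * h0⁻¹ * t)⁻¹ = h0 * (x * x'⁻¹) * h0⁻¹ by group] at this
  exact mul_inv_eq_one.1 (a _ (mul_mem hx (inv_mem hx')) this)

theorem p3 (h : Cfg M y t c z d) (g x : G) (g3 : orderOf g = 3) (k : x * g = g * x) : orderOf x ∣ 6 := by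
  obtain ⟨h0, e⟩ := h.conj3 g g3
  have := six h (cjc e k)
  rw [conj_pow, conj_eq_one_iff] at this
  exact orderOf_dvd_of_pow_eq_one this

theorem p4 (h : Cfg M y t c z d) : orderOf (y * t) = 6 ∧ centralizer ({y * t} : Set G) = zpowers (y * t) := by
  have cm : Commute y t := h.ty.symm
  have y3 := h.cube y h.yM
  have t2 : t ^ 2 = 1 := by rw [pow_two, h.tt]
  have e4 : (y * t) ^ 4 = y := by
    rw [cm.mul_pow, show 4 = 3 + 1 from rfl, pow_succ y, y3, show 3 + 1 = 2 * 2 from rfl, pow_mul, t2]; simp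
  have e3 : (y * t) ^ 3 = t := by rw [cm.mul_pow, y3, pow_succ t, t2]; simp
  refine ⟨by rw [cm.orderOf_mul_eq_mul_orderOf_of_coprime (by rw [h.y3, h.t2]; norm_num), h.y3, h.t2],
    le_antisymm (fun x hx => ?_) (zpowers_le.2 (mem_centralizer_singleton_iff.2 rfl))⟩
  have k : Commute x (y * t) := mem_centralizer_singleton_iff.1 hx
  have ky : Commute x y := e4 ▸ k.pow_right 4
  have kt : Commute x t := e3 ▸ k.pow_right 3
  have ly : zpowers y ≤ zpowers (y * t) :=
    zpowers_le.2 (by have := pow_mem (mem_zpowers (y * t)) 4; rwa [e4] at this)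
  have lt : t ∈ zpowers (y * t) := by have := pow_mem (mem_zpowers (y * t)) 3; rwa [e3] at this
  rcases h.cy x ky with m | m
  · exact ly (h.ct x m kt.symm)
  · exact (mul_mem_cancel_right lt).1 (ly (h.ct _ m (kt.mul_left (Commute.refl t)).symm))

end F2x

open F2x in
theorem f2Thm (hB : BasThm.{u}) : F2Thm.{u} := by
  intro G _ _ M y t c z d h
  obtain ⟨b1, b2, -, b4, b5, -⟩ := hB G t
  have t1 : t ≠ 1 := fun e => by
    have := h.t2
    rw [e, orderOf_one] at this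
    omega
  have tri : ∀ g : G, orderOf g = 3 → g * t = t * g → Tri (O2C t) t g := fun g g3 k =>
    ⟨b1, b5 h.tt, h.t2, b2, g3, k.symm, b4 g k, fun q hq e => (eq_or_ne q 1).imp_right fun q1 =>
      p2 h g g3 _ b1 q hq t (b5 h.tt) q1 t1 e k.symm⟩
  have zQ : z ∉ O2C t := fun m => by
    have k := mul_mem m (b4 y h.ty.symm _ (inv_mem m))
    rw [show z * (y * z⁻¹ * y⁻¹) = z * y * z⁻¹ * y⁻¹ by group, h.zy] at k
    have k2 := two3 b1 k (h.cube _ (mul_mem (inv_mem h.yM) (inv_mem h.yM)))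
    rw [← mul_inv_rev, inv_eq_one, ← pow_two] at k2
    have := orderOf_dvd_of_pow_eq_one k2
    rw [h.y3] at this
    omega
  refine ⟨p1 h, p2 h, p3 h, p4 h, ⟨tri y h.y3 h.ty.symm, h.zz, h.zt, h.zy, b4 z h.zt⟩, zQ, fun m => zQ ?_, tri,
    fun p hp => ⟨4, rfl, ?_⟩⟩
  · have k := ((hB G (t * z)).2.2.1 d t).1 m
    rw [← conj_mul, h.dtd, ← h.zd, mul_inv_cancel_right, mul_assoc t z z, h.zz, mul_one] at k
    exact (mul_mem_cancel_left (b5 h.tt)).1 k
  · have p0 := (orderOf_pos p).ne'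
    have k := p3 h _ p (orderOf_pow_orderOf_div p0 hp) (Commute.self_pow p _).eq
    have k2 : orderOf p = 3 ∨ orderOf p = 6 := by
      have := Nat.le_of_dvd (by norm_num) k
      interval_cases orderOf p <;> simp_all
    rw [orderOf_pow' p (by norm_num)]
    rcases k2 with e | e <;> rw [e] <;> rfl

end CL.L11
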