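/-
Project L11 (S3717), job FI (helper74): fixed and inverted elements of `z` on `Q`.
-/
import Cfsg.Agent.L11.Defs

set_option autoImplicit false
open Subgroup

namespace CL.L11

universe u

namespace FIx

theorem abs1 {H : Type*} [Group H] [Finite H] (σ τ : H →* H) (s3 : ∀ x, σ (σ (σ x)) = x) (t2 : ∀ x, τ (τ x) = x)
    (ts : ∀ x, τ (σ x) = σ (σ (τ x))) (fp : ∀ x, σ x = x → x = 1) (cm : ∀ x, x * σ x = σ x * x) :
    Nat.card H = Nat.card (τ.eqLocus (MonoidHom.id H)) ^ 2 ∧ ∀ x, τ x = x⁻¹ → ∃ v, x = v⁻¹ * τ v := by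
  set F := τ.eqLocus (MonoidHom.id H) with hF
  have mF : ∀ x, x ∈ F ↔ τ x = x := fun x => Iff.rfl
  have si : Function.Injective σ := fun a b h => by rw [← s3 a, h, s3]
  have fp2 : ∀ e, σ (σ e) = σ e → e = 1 := fun e h => fp e (si h)
  have h1 : Nat.card F * Nat.card F ≤ Nat.card H := by
    rw [← Nat.card_prod]
    refine Nat.card_le_card_of_injective (fun p : F × F => (p.1 : H) * σ p.2) ?_
    rintro ⟨a, b⟩ ⟨a', b'⟩ h
    have h' : (a : H) * σ b = a' * σ b' := h
    have e : ((a'⁻¹ * a : F) : H) = σ ((b' * b⁻¹ : F) : H) := by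
      rw [coe_mul, coe_mul, coe_inv, coe_inv, map_mul, map_inv, inv_mul_eq_iff_eq_mul, ← mul_assoc, ← h']
      group
    have k := (mF _).1 (a'⁻¹ * a).2
    rw [e, ts, (mF _).1 (b' * b⁻¹).2] at k
    have hb : b' = b := mul_inv_eq_one.1 (Subtype.ext (fp2 _ k))
    subst hb
    exact Prod.ext (Subtype.ext (mul_right_cancel h')) rfl
  have h2 : Nat.card {x // τ x = x⁻¹} ≤ Nat.card F := by
    refine Nat.card_le_card_of_injective
      (fun x : {x // τ x = x⁻¹} => (⟨σ x.1 * (σ (σ x.1))⁻¹, (mF _).2 ?_⟩ : F)) ?_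
    · have c : Commute (σ x.1) (σ (σ x.1)) := cm (σ x.1)
      rw [map_mul, map_inv, ts, ts, ts, s3, x.2, map_inv, map_inv, inv_inv]
      exact c.inv_right.eq.symm
    · intro x x' h
      have h' : σ x.1 * (σ (σ x.1))⁻¹ = σ x'.1 * (σ (σ x'.1))⁻¹ := congrArg Subtype.val h
      have e : σ (σ (x'.1⁻¹ * x.1)) = σ (x'.1⁻¹ * x.1) := by
        rw [map_mul, map_mul, map_inv, map_inv, eq_comm, inv_mul_eq_iff_eq_mul, ← mul_assoc, ← h']
        group
      exact Subtype.ext (inv_mul_eq_one.1 (fp2 _ e)).symm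
  let f : H ⧸ F → {x // τ x = x⁻¹} := fun c => ⟨c.out * (τ c.out)⁻¹, by
    rw [map_mul, map_inv, t2, mul_inv_rev, inv_inv]⟩
  have fi : Function.Injective f := fun c c' h => by
    have h' : c.out * (τ c.out)⁻¹ = c'.out * (τ c'.out)⁻¹ := congrArg Subtype.val h
    rw [← QuotientGroup.out_eq' c, ← QuotientGroup.out_eq' c', QuotientGroup.eq, mF, map_mul, map_inv,
      inv_mul_eq_iff_eq_mul, ← mul_assoc, ← inv_inv (τ c.out), ← mul_inv_rev, h']
    group
  have h3 := Nat.card_le_card_of_injective f fi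
  have h4 := card_eq_card_quotient_mul_card_subgroup F
  have h5 : Nat.card F ≤ Nat.card (H ⧸ F) :=
    Nat.le_of_mul_le_mul_right (h1.trans h4.le) (Nat.card_pos (α := F))
  refine ⟨by rw [h4, pow_two, le_antisymm (h3.trans h2) h5], fun x hx => ?_⟩
  obtain ⟨c, hc⟩ := (fi.bijective_of_nat_card_le (h2.trans h5)).2 ⟨x, hx⟩
  exact ⟨c.out⁻¹, by rw [inv_inv, map_inv]; exact (congrArg Subtype.val hc).symm⟩

theorem abs2 {K : Type*} [Group K] [Finite K] (T : K) (α β : K →* K) (o2 : orderOf T = 2)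
    (cT : ∀ x, x * T = T * x) (aT : α T = T) (bT : β T = T) (s3 : ∀ x, α (α (α x)) = x) (t2 : ∀ x, β (β x) = x)
    (ts : ∀ x, β (α x) = α (α (β x))) (fp : ∀ x, α x = x → x = 1 ∨ x = T)
    (cm : ∀ x, x * α x = α x * x ∨ x * α x = α x * x * T) :
    (Nat.card (β.eqLocus (MonoidHom.id K)) ^ 2 = 2 * Nat.card K ∨
      (2 * Nat.card (β.eqLocus (MonoidHom.id K)) ^ 2 = Nat.card K ∧ ∃ q, β q = q * T)) ∧
    ∀ q, (β q * q = 1 ∨ β q * q = T) → ∃ v, q = v⁻¹ * β v ∨ q = v⁻¹ * β v * T := by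
  have TT : T * T = 1 := by have := pow_orderOf_eq_one T; rwa [o2, pow_two] at this
  have T1 : T ≠ 1 := fun h => by rw [h, orderOf_one] at o2; exact absurd o2 (by norm_num)
  have mN : ∀ x, x ∈ zpowers T ↔ x = 1 ∨ x = T := fun x => by
    classical
    rw [mem_zpowers_iff_mem_range_orderOf, o2]
    simp [Finset.range_add_one, eq_comm, or_comm]
  haveI hN : (zpowers T).Normal := ⟨fun x hx g => by
    rcases (mN x).1 hx with rfl | rfl
    · simp
    · rw [cT g, mul_inv_cancel_right]; exact hx⟩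
  have eqN : ∀ x y : K, (QuotientGroup.mk x : K ⧸ zpowers T) = QuotientGroup.mk y ↔ y = x ∨ y = x * T := fun x y => by
    rw [QuotientGroup.eq, mN, inv_mul_eq_iff_eq_mul, inv_mul_eq_iff_eq_mul, mul_one]
  have le : ∀ γ : K →* K, γ T = T → zpowers T ≤ (zpowers T).comap γ := fun γ h =>
    (zpowers_le_of_mem (show γ T ∈ zpowers T by rw [h]; exact mem_zpowers T))
  set σ := QuotientGroup.map (zpowers T) (zpowers T) α (le α aT) with hσ
  set τ := QuotientGroup.map (zpowers T) (zpowers T) β (le β bT) with hτ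
  have eσ : ∀ x : K, σ (QuotientGroup.mk x) = QuotientGroup.mk (α x) := fun _ => rfl
  have eτ : ∀ x : K, τ (QuotientGroup.mk x) = QuotientGroup.mk (β x) := fun _ => rfl
  obtain ⟨k1, k2⟩ := abs1 σ τ
    (fun x => QuotientGroup.induction_on x fun x => by rw [eσ, eσ, eσ, s3])
    (fun x => QuotientGroup.induction_on x fun x => by rw [eτ, eτ, t2])
    (fun x => QuotientGroup.induction_on x fun x => by rw [eσ, eτ, eτ, eσ, eσ, ts])
    (fun x => QuotientGroup.induction_on x fun x h => by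
      rw [eσ, eq_comm, eqN] at h
      rcases h with h | h
      · exact (QuotientGroup.eq_one_iff x).2 ((mN x).2 (fp x h))
      · have e := s3 x
        rw [h, map_mul, h, aT, mul_assoc, TT, mul_one, h] at e
        exact absurd (mul_eq_left.1 e) T1)
    (fun x => QuotientGroup.induction_on x fun x => by
      rw [eσ, ← QuotientGroup.mk_mul, ← QuotientGroup.mk_mul, eq_comm, eqN]
      exact cm x)
  have cN : Nat.card (zpowers T) = 2 := by rw [Nat.card_zpowers, o2]
  have cK : Nat.card K = Nat.card (K ⧸ zpowers T) * 2 := by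
    rw [← cN]; exact card_eq_card_quotient_mul_card_subgroup _
  set F := τ.eqLocus (MonoidHom.id _) with hF
  set A := β.eqLocus (MonoidHom.id K) with hA
  have mA : ∀ x, x ∈ A ↔ β x = x := fun x => Iff.rfl
  set B := F.comap (QuotientGroup.mk' (zpowers T)) with hB
  have mB : ∀ x, x ∈ B ↔ β x = x ∨ β x = x * T := fun x => by
    rw [← eqN, ← eτ, eq_comm]; rfl
  have cB : Nat.card B = 2 * Nat.card F := by
    rw [← cN]; exact QuotientGroup.card_preimage_mk (zpowers T) (F : Set (K ⧸ zpowers T))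
  refine ⟨?_, fun q hq => ?_⟩
  · by_cases h : ∃ q, β q = q * T
    · refine Or.inr ⟨?_, h⟩
      obtain ⟨q, hq⟩ := h
      have AB : A ≤ B := fun x hx => (mB x).2 (Or.inl hx)
      have i2 : (A.subgroupOf B).index = 2 := index_eq_two_iff.2 ⟨⟨q, (mB q).2 (Or.inr hq)⟩, fun b => by
        change Xor (β (b * q) = b * q) (β b = b)
        rw [map_mul, hq]
        rcases (mB b).1 b.2 with e | e
        · refine Or.inr ⟨e, fun k => T1 ?_⟩
          rw [e, ← mul_assoc] at k
          exact mul_eq_left.1 k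
        · refine Or.inl ⟨?_, fun k => T1 ?_⟩
          · rw [e, mul_assoc, ← mul_assoc T, ← cT q, mul_assoc q, TT, mul_one]
          · rw [e] at k
            exact mul_eq_left.1 k⟩
      have c1 := (A.subgroupOf B).card_mul_index
      rw [i2, Nat.card_congr (subgroupOfEquivOfLe AB).toEquiv, cB] at c1
      have c2 : Nat.card A = Nat.card F := by omega
      rw [c2, cK, k1, mul_comm]
    · refine Or.inl ?_
      have AB : A = B := Subgroup.ext fun x => by
        rw [mA, mB]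
        exact ⟨Or.inl, fun k => k.resolve_right fun e => h ⟨x, e⟩⟩
      rw [AB, cB, cK, k1]
      ring
  · obtain ⟨v, hv⟩ := k2 (QuotientGroup.mk q) (by
      rw [eτ, ← QuotientGroup.mk_inv, eq_comm, eqN]
      rcases hq with e | e
      · exact Or.inl (eq_inv_of_mul_eq_one_left e)
      · exact Or.inr (by rw [cT, ← e, mul_inv_cancel_right]))
    induction v using QuotientGroup.induction_on with
    | H v =>
      rw [eτ, ← QuotientGroup.mk_inv, ← QuotientGroup.mk_mul, eq_comm, eqN] at hv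
      exact ⟨v, hv⟩

/-- conjugation by an element that normalises `Q` -/
def cj {G : Type*} [Group G] (Q : Subgroup G) (g : G) (h : ∀ q ∈ Q, g * q * g⁻¹ ∈ Q) : Q →* Q where
  toFun q := ⟨g * q * g⁻¹, h q q.2⟩
  map_one' := Subtype.ext (by change g * 1 * g⁻¹ = 1; group)
  map_mul' p q := Subtype.ext (by
    change g * ((p : G) * q) * g⁻¹ = g * p * g⁻¹ * (g * q * g⁻¹)
    group)

end FIx

theorem fiThm (hN : NThm.{u}) : FIThm.{u} := by
  intro G _ _ Q t y z h
  have y3 : y * y * y = 1 := by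
    have := pow_orderOf_eq_one y
    rwa [h.y3, pow_succ, pow_two] at this
  have yi : y⁻¹ = y * y := inv_eq_of_mul_eq_one_right (by rw [← mul_assoc, y3])
  obtain ⟨k1, k2⟩ := FIx.abs2 (⟨t, h.tQ⟩ : Q) (FIx.cj Q y h.nor) (FIx.cj Q z h.zn)
    (by rw [← orderOf_coe]; exact h.t2) (fun x => Subtype.ext (h.cen x x.2))
    (Subtype.ext (by change y * t * y⁻¹ = t; rw [← h.ty, mul_inv_cancel_right]))
    (Subtype.ext (by change z * t * z⁻¹ = t; rw [h.zt, mul_inv_cancel_right]))
    (fun x => Subtype.ext (by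
      change y * (y * (y * (x : G) * y⁻¹) * y⁻¹) * y⁻¹ = x
      calc _ = (y * y * y) * x * (y * y * y)⁻¹ := by group
        _ = x := by rw [y3]; group))
    (fun x => Subtype.ext (by
      change z * (z * (x : G) * z⁻¹) * z⁻¹ = x
      calc _ = (z * z) * x * (z * z)⁻¹ := by group
        _ = x := by rw [h.z2]; group))
    (fun x => Subtype.ext (by
      change z * (y * (x : G) * y⁻¹) * z⁻¹ = y * (y * (z * x * z⁻¹) * y⁻¹) * y⁻¹
      calc _ = (z * y * z⁻¹) * (z * x * z⁻¹) * (z * y * z⁻¹)⁻¹ := by group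
        _ = (y * y) * (z * x * z⁻¹) * (y * y)⁻¹ := by rw [h.zy, yi]
        _ = _ := by group))
    (fun x hx => (h.fix x x.2 (mul_inv_eq_iff_eq_mul.1 (congrArg Subtype.val hx)).symm).imp Subtype.ext Subtype.ext)
    (fun x => (hN G Q t y h.toTri x x.2).2.1.imp Subtype.ext Subtype.ext)
  have eA : (FIx.cj Q z h.zn).eqLocus (MonoidHom.id Q) = (Q ⊓ centralizer ({z} : Set G)).subgroupOf Q :=
    Subgroup.ext fun x => by
      rw [mem_subgroupOf, mem_inf, mem_centralizer_singleton_iff]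
      exact ⟨fun e => ⟨x.2, (mul_inv_eq_iff_eq_mul.1 (congrArg Subtype.val e)).symm⟩,
        fun e => Subtype.ext (mul_inv_eq_iff_eq_mul.2 e.2.symm)⟩
  rw [eA, Nat.card_congr (subgroupOfEquivOfLe inf_le_left).toEquiv] at k1
  refine ⟨k1.imp id fun e => ⟨e.1, ?_⟩, fun q hq e => ?_⟩
  · obtain ⟨q, hq⟩ := e.2
    exact ⟨q, q.2, congrArg Subtype.val hq⟩
  · obtain ⟨v, hv⟩ := k2 ⟨q, hq⟩ (e.imp Subtype.ext Subtype.ext)
    exact ⟨v, v.2, hv.imp (congrArg Subtype.val) (congrArg Subtype.val)⟩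

end CL.L11
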