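/-
Project L11 (S3717): the case `C(t) = 2⁵ . A₅` does not occur.
-/
import Cfsg.Agent.L11.Defs

set_option autoImplicit false
open Subgroup

namespace CL.L11

universe u

namespace K1

set_option maxRecDepth 100000 in
theorem a5 : ∀ u : alternatingGroup (Fin 5), u * u = 1 → u ≠ 1 →
    (Finset.univ.filter fun x : alternatingGroup (Fin 5) => u * x = x * u).card = 4 ∧
    ∃ w : alternatingGroup (Fin 5), w * w * w = 1 ∧ w ≠ 1 ∧
      ∀ x : alternatingGroup (Fin 5), u * x = x * u → u * (w * x * w⁻¹) = (w * x * w⁻¹) * u := by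
  decide +kernel

theorem a5' (V : Subgroup (alternatingGroup (Fin 5))) (h4 : Nat.card V = 4) (h2 : ∀ v ∈ V, v * v = 1) :
    ∃ w : alternatingGroup (Fin 5), orderOf w = 3 ∧ ∀ x ∈ V, w * x * w⁻¹ ∈ V := by
  classical
  have hne : V ≠ ⊥ := by
    intro h; rw [h, card_bot] at h4; omega
  obtain ⟨⟨u, hu⟩, hu1⟩ := (Subgroup.ne_bot_iff_exists_ne_one).mp hne
  have hu1' : u ≠ 1 := fun h => hu1 (Subtype.ext h)
  obtain ⟨hc, w, hw3, hw1, hw⟩ := a5 u (h2 u hu) hu1'
  have hcomm : ∀ x ∈ V, u * x = x * u := by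
    intro x hx
    have e1 : (u * x)⁻¹ = u * x := inv_eq_of_mul_eq_one_right (h2 _ (V.mul_mem hu hx))
    have e2 : u⁻¹ = u := inv_eq_of_mul_eq_one_right (h2 _ hu)
    have e3 : x⁻¹ = x := inv_eq_of_mul_eq_one_right (h2 _ hx)
    rw [← e1, mul_inv_rev, e2, e3]
  have hle : V ≤ centralizer {u} := fun x hx => mem_centralizer_singleton_iff.mpr (hcomm x hx).symm
  have hcc : Nat.card (centralizer ({u} : Set (alternatingGroup (Fin 5)))) = 4 := by
    rw [← hc, ← Fintype.card_subtype, ← Nat.card_eq_fintype_card]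
    refine Nat.card_congr (Equiv.subtypeEquivRight fun x => ?_)
    rw [mem_centralizer_singleton_iff, eq_comm]
  have heq : V = centralizer {u} := Subgroup.eq_of_le_of_card_ge hle (by omega)
  refine ⟨w, ?_, fun x hx => ?_⟩
  · haveI : Fact (Nat.Prime 3) := ⟨by norm_num⟩
    exact orderOf_eq_prime (by rw [pow_succ, pow_two]; exact hw3) hw1
  · rw [heq]
    exact mem_centralizer_singleton_iff.mpr (hw x (hcomm x hx)).symm

theorem comm_of_sq {G : Type*} [Group G] {Q : Subgroup G} (h2 : ∀ v ∈ Q, v * v = 1) {u x : G} (hu : u ∈ Q)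
    (hx : x ∈ Q) : u * x = x * u := by
  have e1 : (u * x)⁻¹ = u * x := inv_eq_of_mul_eq_one_right (h2 _ (Q.mul_mem hu hx))
  have e2 : u⁻¹ = u := inv_eq_of_mul_eq_one_right (h2 _ hu)
  have e3 : x⁻¹ = x := inv_eq_of_mul_eq_one_right (h2 _ hx)
  rw [← e1, mul_inv_rev, e2, e3]

/-- conjugation carries a centralizer to the centralizer of the conjugate -/
def cjc {G : Type*} [Group G] {h a t : G} (e : h * a * h⁻¹ = t) :
    centralizer ({a} : Set G) →* centralizer ({t} : Set G) where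
  toFun x := ⟨h * x * h⁻¹, mem_centralizer_singleton_iff.mpr (by
    have := mem_centralizer_singleton_iff.mp x.2
    rw [← e]
    calc h * x * h⁻¹ * (h * a * h⁻¹) = h * (x * a) * h⁻¹ := by group
      _ = h * a * h⁻¹ * (h * x * h⁻¹) := by rw [this]; group)⟩
  map_one' := Subtype.ext (by simp)
  map_mul' x y := Subtype.ext (by simp)

theorem cjc_surj {G : Type*} [Group G] {h a t : G} (e : h * a * h⁻¹ = t) : Function.Surjective (cjc e) := by
  intro x
  have e' : h⁻¹ * t * h⁻¹⁻¹ = a := by rw [← e]; group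
  refine ⟨cjc e' x, Subtype.ext ?_⟩
  show h * (h⁻¹ * x * h⁻¹⁻¹) * h⁻¹ = x
  group

end K1

theorem k1Thm (hB : BasThm.{u}) (hF1 : F1Thm.{u}) (hF2 : F2Thm.{u}) (hS : StrThm.{u}) (hP : PairThm.{u})
    (h0 : TA0Thm.{u}) : K1Thm.{u} := by
  intro G _ _ M y t c z d a g C hA hal hta hza h32
  obtain ⟨F1, -, -, -, hTri, hzQ, -, -, Flast⟩ := hF2 G M y t c z d C
  obtain ⟨h, hg, ha⟩ := F1 g a hal.g3 hal.a2 hal.a1 hal.ga.symm
  have Q2 : ∀ q ∈ O2C t, q * q = 1 := (hS G M y t c z d C hA).2.1 h32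
  obtain ⟨-, Pc, Pcj, Pn, -, Pcard, -⟩ := hB G a
  have memP : ∀ x, x ∈ O2C a ↔ h * x * h⁻¹ ∈ O2C t := fun x => by rw [Pcj h x, ha]
  have P2 : ∀ q ∈ O2C a, q * q = 1 := by
    intro q hq
    have := Q2 _ ((memP q).mp hq)
    calc q * q = h⁻¹ * (h * q * h⁻¹ * (h * q * h⁻¹)) * h := by group
      _ = 1 := by rw [this]; group
  have P32 : Nat.card (O2C a) = 32 := by rw [← Pcard h, ha, h32]
  obtain ⟨-, hBle, hA8, -⟩ := h0 G M y t c z d C hA
  have hA8 := hA8 h32
  have PB : O2C a = centralizer ({t} : Set G) ⊓ centralizer ({z} : Set G) := by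
    refine Subgroup.eq_of_le_of_card_ge (fun p hp => ⟨?_, ?_⟩) (by omega)
    · exact mem_centralizer_singleton_iff.mpr (K1.comm_of_sq P2 hp hta)
    · exact mem_centralizer_singleton_iff.mpr (K1.comm_of_sq P2 hp hza)
  have AP : O2C t ⊓ centralizer ({z} : Set G) = O2C t ⊓ O2C a := by
    ext x
    rw [PB]
    constructor
    · rintro ⟨h1, h2⟩
      exact ⟨h1, mem_centralizer_singleton_iff.mpr (hTri.cen x h1), h2⟩
    · rintro ⟨h1, -, h2⟩
      exact ⟨h1, h2⟩
  have QC : O2C t ≤ centralizer ({a} : Set G) := fun q hq =>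
    mem_centralizer_singleton_iff.mpr (K1.comm_of_sq Q2 hq hal.aQ)
  obtain ⟨⟨f, fs, fk⟩, -⟩ := id hA
  let ψ := f.comp (K1.cjc ha)
  have ψs : Function.Surjective ψ := fs.comp (K1.cjc_surj ha)
  have ψk : ∀ x, ψ x = 1 ↔ (x : G) ∈ O2C a := fun x => by
    rw [memP]; exact fk _
  let χ := ψ.comp (inclusion QC)
  have χk : χ.ker = (O2C t ⊓ O2C a).subgroupOf (O2C t) := by
    ext x
    rw [MonoidHom.mem_ker, mem_subgroupOf]
    exact (ψk _).trans ⟨fun hx => ⟨x.2, hx⟩, fun hx => hx.2⟩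
  have hk8 : Nat.card χ.ker = 8 := by
    rw [χk, Nat.card_congr (subgroupOfEquivOfLe inf_le_left).toEquiv, ← AP, hA8]
  have hV : Nat.card χ.range = 4 := by
    have := χ.ker.index_mul_card
    rw [Subgroup.index_ker, hk8, h32] at this
    omega
  obtain ⟨w, hw3, hw⟩ := K1.a5' χ.range hV (by
    rintro _ ⟨q, rfl⟩
    rw [← map_mul, show q * q = 1 from Subtype.ext (Q2 q q.2), map_one])
  obtain ⟨p, rfl⟩ := ψs w
  have h3p : 3 ∣ orderOf (p : G) := by
    rw [Subgroup.orderOf_coe, ← hw3]; exact orderOf_map_dvd ψ p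
  obtain ⟨k, hk, hk3⟩ := Flast p h3p
  have hψk : ψ (p ^ k) = ψ p := by
    rw [map_pow, ← pow_mod_orderOf, hw3, hk, pow_one]
  set e : G := (p : G) ^ k with he
  have eC : e ∈ centralizer ({a} : Set G) := (p ^ k).2
  have ea : e * a = a * e := mem_centralizer_singleton_iff.mp eC
  have ea' : e⁻¹ * a = a * e⁻¹ := mem_centralizer_singleton_iff.mp (inv_mem eC)
  have key : ∀ q ∈ O2C t, q ∉ O2C a → e * q * e⁻¹ ∈ O2C t := by
    intro q hq hqP
    obtain ⟨q', hq'⟩ := hw _ ⟨⟨q, hq⟩, rfl⟩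
    have h1 : ψ ((inclusion QC q')⁻¹ * (p ^ k * inclusion QC ⟨q, hq⟩ * (p ^ k)⁻¹)) = 1 := by
      rw [map_mul, map_mul, map_mul, map_inv, map_inv, hψk]
      exact inv_mul_eq_one.mpr hq'
    have h2 : (q' : G)⁻¹ * (e * q * e⁻¹) ∈ O2C a := (ψk _).mp h1
    set r := (q' : G)⁻¹ * (e * q * e⁻¹) with hr
    have hs : e * q * e⁻¹ = q' * r := by rw [hr]; group
    have hss : (q' : G) * r * (q' * r) = 1 := by
      rw [← hs]
      calc e * q * e⁻¹ * (e * q * e⁻¹) = e * (q * q) * e⁻¹ := by group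
        _ = 1 := by rw [Q2 q hq]; group
    have hc : (q' : G) * r = r * q' := by
      have e1 : ((q' : G) * r)⁻¹ = q' * r := inv_eq_of_mul_eq_one_right hss
      have e2 : (q' : G)⁻¹ = q' := inv_eq_of_mul_eq_one_right (Q2 _ q'.2)
      have e3 : r⁻¹ = r := inv_eq_of_mul_eq_one_right (P2 _ h2)
      rw [← e1, mul_inv_rev, e2, e3]
    by_cases hrQ : r ∈ O2C t
    · rw [hs]; exact mul_mem q'.2 hrQ
    · exfalso
      have h8 := (hP G M y t c z d C hA t r (IsConj.refl t) (K1.comm_of_sq P2 h2 hta) (P2 r h2) hrQ).2.2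
      have hEq : O2C t ⊓ O2C a = O2C t ⊓ centralizer ({r} : Set G) := by
        refine Subgroup.eq_of_le_of_card_ge (fun x hx => ⟨hx.1, ?_⟩) (by rw [h8, AP])
        exact mem_centralizer_singleton_iff.mpr (K1.comm_of_sq P2 hx.2 h2)
      have hq'P : (q' : G) ∈ O2C t ⊓ O2C a := by
        rw [hEq]; exact ⟨q'.2, mem_centralizer_singleton_iff.mpr hc⟩
      have h5 : e * q * e⁻¹ ∈ O2C a := by rw [hs]; exact mul_mem hq'P.2 h2
      have h6 := Pn e⁻¹ ea' _ h5
      apply hqP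
      convert h6 using 1
      group
  obtain ⟨q0, hq0, hq0P⟩ : ∃ q0 ∈ O2C t, q0 ∉ O2C a := by
    by_contra hcon
    push Not at hcon
    have : O2C t ⊓ O2C a = O2C t := inf_eq_left.mpr hcon
    rw [AP, this] at hA8
    omega
  have eN : e ∈ normalizer (O2C t : Set G) := by
    refine Subgroup.mem_normalizer_fintype fun q hq => ?_
    by_cases hqP : q ∈ O2C a
    · have h1 := key (q * q0) (mul_mem hq hq0) fun hh => hq0P ((mul_mem_cancel_left hqP).mp hh)
      have h2 := key q0 hq0 hq0P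
      have := mul_mem h1 (inv_mem h2)
      rwa [show e * (q * q0) * e⁻¹ * (e * q0 * e⁻¹)⁻¹ = e * q * e⁻¹ by group] at this
    · exact key q hq hqP
  have yN : y ∈ normalizer (O2C t : Set G) := Subgroup.mem_normalizer_fintype hTri.nor
  have hne : O2C t ≠ ⊥ := by
    intro hh; rw [hh, card_bot] at h32; omega
  obtain ⟨n, hn, hny⟩ := (hF1 G M y t c z d C).2 (O2C t) hTri.pg hne e y hk3 hTri.y3 eN yN
  have hnQ : ∀ x, x ∈ O2C t ↔ n * x * n⁻¹ ∈ O2C t := mem_normalizer_iff.mp hn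
  have hcm : Commute (n * a * n⁻¹) (n * e * n⁻¹) := by
    show n * a * n⁻¹ * (n * e * n⁻¹) = n * e * n⁻¹ * (n * a * n⁻¹)
    calc n * a * n⁻¹ * (n * e * n⁻¹) = n * (a * e) * n⁻¹ := by group
      _ = n * e * n⁻¹ * (n * a * n⁻¹) := by rw [← ea]; group
  have hcy : Commute (n * a * n⁻¹) y := by
    rcases hny with h1 | h1
    · rwa [h1] at hcm
    · rw [h1] at hcm; simpa using hcm.inv_right
  rcases hTri.fix _ ((hnQ a).mp hal.aQ) hcy.eq with h1 | h1
  · apply hal.a1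
    calc a = n⁻¹ * (n * a * n⁻¹) * n := by group
      _ = 1 := by rw [h1]; group
  · have := (Pcj n z).mp hza
    rw [h1] at this
    exact hzQ ((hnQ z).mpr this)

end CL.L11
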