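/-
Project L11: the case `C(t) = Q . A₅` with `|Q| = 32` is impossible (backup file).
-/
import Cfsg.Agent.L11.Defs

set_option autoImplicit false
open Subgroup

namespace CL.L11

universe u

namespace K1bJ

set_option synthInstance.maxSize 2000 in
set_option synthInstance.maxHeartbeats 200000 in
theorem a5p : ∀ u : Equiv.Perm (Fin 5), u * u = 1 → u ≠ 1 → Equiv.Perm.sign u = 1 →
    ∀ v : Equiv.Perm (Fin 5), v * u = u * v → v ≠ 1 → v ≠ u → Equiv.Perm.sign v = 1 →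
    (∃ r : Equiv.Perm (Fin 5), r * u = v * r ∧ r * v = u * v * r ∧ Equiv.Perm.sign r = 1 ∧ r * r * r = 1) ∧
    ∀ w : Equiv.Perm (Fin 5), w * u = u * w → Equiv.Perm.sign w = 1 → w = 1 ∨ w = u ∨ w = v ∨ w = u * v := by
  decide +kernel

theorem a5 (u v : alternatingGroup (Fin 5)) (u2 : u * u = 1) (u1 : u ≠ 1) (c : v * u = u * v) (v1 : v ≠ 1)
    (vu : v ≠ u) : (∃ r, r * u * r⁻¹ = v ∧ r * v * r⁻¹ = u * v ∧ r ^ 3 = 1) ∧
    ∀ w, w * u = u * w → w = 1 ∨ w = u ∨ w = v ∨ w = u * v := by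
  obtain ⟨⟨r, r1, r2, r3, r4⟩, h⟩ := a5p u (congrArg Subtype.val u2) (fun e => u1 (Subtype.ext e)) u.2
    v (congrArg Subtype.val c) (fun e => v1 (Subtype.ext e)) (fun e => vu (Subtype.ext e)) v.2
  refine ⟨⟨⟨r, r3⟩, ?_, ?_, ?_⟩, fun w hw => ?_⟩
  · rw [mul_inv_eq_iff_eq_mul]; exact Subtype.ext r1
  · rw [mul_inv_eq_iff_eq_mul]; exact Subtype.ext r2
  · rw [pow_three']; exact Subtype.ext r4
  · rcases h w (congrArg Subtype.val hw) w.2 with e | e | e | e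
    · exact .inl (Subtype.ext e)
    · exact .inr (.inl (Subtype.ext e))
    · exact .inr (.inr (.inl (Subtype.ext e)))
    · exact .inr (.inr (.inr (Subtype.ext e)))

variable {G : Type u} [Group G]

theorem cm {Q : Subgroup G} (sq : ∀ q ∈ Q, q * q = 1) : ∀ a ∈ Q, ∀ b ∈ Q, a * b = b * a := fun a ha b hb => by
  rw [← inv_eq_of_mul_eq_one_right (sq _ (mul_mem hb ha)), mul_inv_rev, inv_eq_of_mul_eq_one_right (sq a ha),
    inv_eq_of_mul_eq_one_right (sq b hb)]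

theorem two [Finite G] {Q P : Subgroup G} (hQ : Nat.card Q = 32) (hA : Nat.card ↥(Q ⊓ P) = 8) :
    ∃ q1 ∈ Q, ∃ q2 ∈ Q, q1 ∉ P ∧ q2 ∉ P ∧ q1⁻¹ * q2 ∉ P := by
  have e1 : (Q : Set G).ncard = 32 := hQ
  have e2 : ((Q ⊓ P : Subgroup G) : Set G).ncard = 8 := hA
  obtain ⟨q1, h1, n1⟩ : ∃ q1 ∈ Q, q1 ∉ P := by
    by_contra hn
    push Not at hn
    rw [inf_eq_left.2 (show Q ≤ P from hn)] at hA
    omega
  refine ⟨q1, h1, ?_⟩
  by_contra hn
  push Not at hn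
  have sub : (Q : Set G) ⊆ ((Q ⊓ P : Subgroup G) : Set G) ∪ (fun x => q1 * x) '' ((Q ⊓ P : Subgroup G) : Set G) := by
    intro q hq
    by_cases hp : q ∈ P
    · exact .inl ⟨hq, hp⟩
    · exact .inr ⟨q1⁻¹ * q, ⟨Q.mul_mem (Q.inv_mem h1) hq, hn q hq n1 hp⟩, by simp⟩
  have l1 := Set.ncard_le_ncard sub (Set.toFinite _)
  have l2 := Set.ncard_union_le ((Q ⊓ P : Subgroup G) : Set G) ((fun x => q1 * x) '' ((Q ⊓ P : Subgroup G) : Set G))
  have l3 := Set.ncard_image_le (f := fun x => q1 * x) (s := ((Q ⊓ P : Subgroup G) : Set G)) (Set.toFinite _)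
  omega

end K1bJ

open K1bJ in
theorem k1bThm (hB : BasThm.{u}) (hF1 : F1Thm.{u}) (hF2 : F2Thm.{u}) (hS : StrThm.{u}) (hP : PairThm.{u})
    (h0 : TA0Thm.{u}) : K1Thm.{u} := by
  intro G _ _ M y t c z d a g C ta al tP zP c32
  obtain ⟨f1, -, -, -, T, zQ, -, -, f9⟩ := hF2 G M y t c z d C
  obtain ⟨h, hg, ha⟩ := f1 g a al.g3 al.a2 al.a1 al.ga.symm
  have sqQ : ∀ q ∈ O2C t, q * q = 1 := (hS G M y t c z d C ta).2.1 c32
  obtain ⟨-, b2, b3, b4, -, b6, -⟩ := hB G a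
  obtain ⟨t1, t2, -, t4, -, -, -⟩ := hB G t
  have tr : ∀ x, x ∈ O2C a ↔ h * x * h⁻¹ ∈ O2C t := fun x => by rw [b3 h x, ha]
  have cP : Nat.card (O2C a) = 32 := by rw [← b6 h, ha, c32]
  have sqP : ∀ q ∈ O2C a, q * q = 1 := fun q hq => by
    have := sqQ _ ((tr q).1 hq)
    calc q * q = h⁻¹ * (h * q * h⁻¹ * (h * q * h⁻¹)) * h := by group
      _ = 1 := by rw [this]; group
  obtain ⟨-, k2, k3, -⟩ := h0 G M y t c z d C ta
  have k8 := k3 c32
  have PB : O2C a ≤ centralizer ({t} : Set G) ⊓ centralizer ({z} : Set G) := fun p hp =>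
    ⟨mem_centralizer_singleton_iff.2 (cm sqP p hp t tP), mem_centralizer_singleton_iff.2 (cm sqP p hp z zP)⟩
  have PB' : O2C a = centralizer ({t} : Set G) ⊓ centralizer ({z} : Set G) :=
    eq_of_le_of_card_ge PB (by omega)
  have QA : O2C t ⊓ O2C a = O2C t ⊓ centralizer ({z} : Set G) := by
    rw [PB', ← inf_assoc, inf_eq_left.2 (show O2C t ≤ centralizer ({t} : Set G) from
      fun q hq => mem_centralizer_singleton_iff.2 (t2 q hq))]
  have cA : Nat.card ↥(O2C t ⊓ O2C a) = 8 := by rw [QA, k8]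
  -- involutions of `Q P`
  have inv : ∀ q ∈ O2C t, ∀ p ∈ O2C a, q * p * (q * p) = 1 → q * p ∈ O2C t ∨ q * p ∈ O2C a := by
    intro q hq p hp e
    by_cases pQ : p ∈ O2C t
    · exact .inl (mul_mem hq pQ)
    have cq : q * p = p * q := by
      rw [← inv_eq_of_mul_eq_one_right e, mul_inv_rev, inv_eq_of_mul_eq_one_right (sqP p hp),
        inv_eq_of_mul_eq_one_right (sqQ q hq)]
    have k := (hP G M y t c z d C ta t p (IsConj.refl t) (cm sqP p hp t tP) (sqP p hp) pQ).2.2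
    have le : O2C t ⊓ O2C a ≤ O2C t ⊓ centralizer ({p} : Set G) := fun x hx =>
      ⟨hx.1, mem_centralizer_singleton_iff.2 (cm sqP x hx.2 p hp)⟩
    have ee := eq_of_le_of_card_ge le (by omega)
    have : q ∈ O2C t ⊓ O2C a := ee ▸ ⟨hq, mem_centralizer_singleton_iff.2 cq⟩
    exact .inr (mul_mem this.2 hp)
  obtain ⟨⟨φ, su, ke⟩, -⟩ := ta
  have mv : ∀ x : G, x * a = a * x → h * x * h⁻¹ ∈ centralizer ({t} : Set G) := fun x hx => by
    rw [mem_centralizer_singleton_iff, ← ha]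
    calc _ = h * (x * a) * h⁻¹ := by group
      _ = _ := by rw [hx]; group
  let ψ : centralizer ({a} : Set G) →* alternatingGroup (Fin 5) :=
    φ.comp
      { toFun := fun x => ⟨h * x * h⁻¹, mv x (mem_centralizer_singleton_iff.1 x.2)⟩
        map_one' := Subtype.ext (by simp)
        map_mul' := fun x x' => Subtype.ext (by simp only [coe_mul]; group) }
  have kψ : ∀ x, ψ x = 1 ↔ (x : G) ∈ O2C a := fun x => by rw [tr]; exact ke _
  have sψ : ∀ r, ∃ x, ψ x = r := fun r => by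
    obtain ⟨w, hw⟩ := su r
    refine ⟨⟨h⁻¹ * w * h, mem_centralizer_singleton_iff.2 ?_⟩, ?_⟩
    · have e : a = h⁻¹ * t * h := by rw [← ha]; group
      rw [e]
      calc _ = h⁻¹ * (w * t) * h := by group
        _ = _ := by rw [mem_centralizer_singleton_iff.1 w.2]; group
    · rw [← hw]
      exact congrArg φ (Subtype.ext (by simp only [MonoidHom.coe_mk, OneHom.coe_mk]; group))
  have Qa : ∀ q ∈ O2C t, q ∈ centralizer ({a} : Set G) := fun q hq =>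
    mem_centralizer_singleton_iff.2 (cm sqQ q hq a al.aQ)
  obtain ⟨q1, h1, q2, h2, n1, n2, n12⟩ := two c32 cA
  have cψ : ∀ q (hq : q ∈ O2C t) q' (hq' : q' ∈ O2C t),
      ψ ⟨q, Qa q hq⟩ * ψ ⟨q', Qa q' hq'⟩ = ψ ⟨q', Qa q' hq'⟩ * ψ ⟨q, Qa q hq⟩ := fun q hq q' hq' => by
    rw [← map_mul, ← map_mul]; exact congrArg ψ (Subtype.ext (cm sqQ q hq q' hq'))
  obtain ⟨⟨r, r1, r2, r3⟩, cl⟩ := a5 (ψ ⟨q1, Qa q1 h1⟩) (ψ ⟨q2, Qa q2 h2⟩)
    (by rw [← map_mul, kψ]; simp only [MulMemClass.mk_mul_mk, sqQ q1 h1, one_mem])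
    (fun e => n1 ((kψ _).1 e)) (cψ q2 h2 q1 h1) (fun e => n2 ((kψ _).1 e))
    (fun e => n12 ((kψ (⟨q1, Qa q1 h1⟩⁻¹ * ⟨q2, Qa q2 h2⟩)).1 (by rw [map_mul, map_inv, e, inv_mul_cancel])))
  have uu : ψ ⟨q1, Qa q1 h1⟩ ≠ ψ ⟨q2, Qa q2 h2⟩ := fun e =>
    n12 ((kψ (⟨q1, Qa q1 h1⟩⁻¹ * ⟨q2, Qa q2 h2⟩)).1 (by rw [map_mul, map_inv, e, inv_mul_cancel]))
  have rn : r ≠ 1 := fun e => uu (by rw [← r1, e]; group)
  have o3 : orderOf r = 3 := orderOf_eq_prime r3 rn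
  obtain ⟨p, hp⟩ := sψ r
  obtain ⟨k, k1, ko⟩ := f9 (p : G) (by rw [orderOf_coe, ← o3, ← hp]; exact orderOf_map_dvd ψ p)
  have pk : ψ (p ^ k) = r := by rw [map_pow, hp, pow_eq_pow_mod k r3, k1, pow_one]
  rw [← coe_pow] at ko
  generalize p ^ k = w at ko pk
  have wa : (w : G) * a = a * w := mem_centralizer_singleton_iff.1 w.2
  have im : ∀ q (hq : q ∈ O2C t), ∃ q', ∃ hq' : q' ∈ O2C t, r * ψ ⟨q, Qa q hq⟩ * r⁻¹ = ψ ⟨q', Qa q' hq'⟩ := by
    intro q hq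
    have m12 : ψ ⟨q1 * q2, Qa _ (mul_mem h1 h2)⟩ = ψ ⟨q1, Qa q1 h1⟩ * ψ ⟨q2, Qa q2 h2⟩ := by
      rw [← map_mul]; rfl
    rcases cl _ (cψ q hq q1 h1) with e | e | e | e
    · exact ⟨q, hq, by rw [e]; group⟩
    · exact ⟨q2, h2, by rw [e, r1]⟩
    · exact ⟨_, mul_mem h1 h2, by rw [e, r2, m12]⟩
    · refine ⟨q2 * (q1 * q2), mul_mem h2 (mul_mem h1 h2), ?_⟩
      rw [e, ← conj_mul, r1, r2, ← m12, ← map_mul]; rfl
  have out : ∀ q ∈ O2C t, q ∉ O2C a → (w : G) * q * (w : G)⁻¹ ∈ O2C t := by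
    intro q hq nq
    obtain ⟨q', hq', e⟩ := im q hq
    have m : q'⁻¹ * ((w : G) * q * (w : G)⁻¹) ∈ O2C a :=
      (kψ (⟨q', Qa q' hq'⟩⁻¹ * (w * ⟨q, Qa q hq⟩ * w⁻¹))).1 (by
        rw [map_mul, map_mul, map_mul, map_inv, map_inv, pk, e, inv_mul_cancel])
    have i := inv q' hq' _ m (by
      rw [mul_inv_cancel_left, conj_mul, sqQ q hq]; group)
    rw [mul_inv_cancel_left] at i
    refine i.resolve_right fun i => nq ?_
    have := b4 (w : G)⁻¹ (show Commute (w : G) a from wa).inv_left.eq _ i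
    rwa [show (w : G)⁻¹ * (w * q * (w : G)⁻¹) * (w : G)⁻¹⁻¹ = q by group] at this
  have all : ∀ q ∈ O2C t, (w : G) * q * (w : G)⁻¹ ∈ O2C t := by
    intro q hq
    by_cases nq : q ∈ O2C a
    · have i1 := out q1 h1 n1
      have i2 := out (q1 * q) (mul_mem h1 hq) fun e => n1 (by simpa using mul_mem e (inv_mem nq))
      have := mul_mem (inv_mem i1) i2
      rwa [show ((w : G) * q1 * (w : G)⁻¹)⁻¹ * (w * (q1 * q) * (w : G)⁻¹) = w * q * (w : G)⁻¹ by group] at this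
    · exact out q hq nq
  have nz : ∀ x : G, (∀ q ∈ O2C t, x * q * x⁻¹ ∈ O2C t) → x ∈ normalizer (O2C t : Set G) := fun x hx =>
    mem_normalizer_fintype hx
  obtain ⟨n, hn, e⟩ := (hF1 G M y t c z d C).2 (O2C t) t1 (fun e => by rw [e, card_bot] at c32; omega) w y ko C.y3
    (nz _ all) (nz _ (t4 y C.ty.symm))
  have an : n * a * n⁻¹ ∈ O2C t := (mem_normalizer_iff.1 hn a).1 al.aQ
  have cy : Commute (n * a * n⁻¹) (n * w * n⁻¹) := by
    show _ * _ = _ * _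
    rw [conj_mul, conj_mul, wa]
  have cy' : n * a * n⁻¹ * y = y * (n * a * n⁻¹) := by
    rcases e with e | e
    · rw [e] at cy; exact cy.eq
    · rw [e] at cy; exact (Commute.inv_right_iff.1 cy).eq
  rcases T.fix _ an cy' with e1 | e1
  · exact al.a1 (by simpa using e1)
  · have := (b3 n z).1 zP
    rw [e1] at this
    exact zQ ((mem_normalizer_iff.1 hn z).2 this)

end CL.L11
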