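/-
Project L11 (S3717): the case `C(t) = Q . A₅` with `Q` of order at least 512.
-/
import Cfsg.Agent.L11.Defs

set_option autoImplicit false
open Subgroup

namespace CL.L11

universe u

namespace K2x

variable {G : Type u} [Group G]

theorem card_le_two [Finite G] {U V : Subgroup G} {u0 : G} (h : ∀ u ∈ U, u ∈ V ∨ u * u0 ∈ V) :
    Nat.card U ≤ 2 * Nat.card V := by
  classical
  have := Nat.card_le_card_of_injective (fun u : U => if k : (u : G) ∈ V then (Sum.inl ⟨u, k⟩ : V ⊕ V) else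
    Sum.inr ⟨u * u0, (h u u.2).resolve_left k⟩) fun a b e => by
      dsimp only at e
      split_ifs at e
      · exact Subtype.ext (Subtype.mk.inj (Sum.inl.inj e))
      · exact Subtype.ext (mul_right_cancel (Subtype.mk.inj (Sum.inr.inj e)))
  rwa [Nat.card_sum, ← two_mul] at this

theorem split {P U : Subgroup G} {a e : G} (a2 : a * a = 1) (ac : ∀ p ∈ P, p * a = a * p)
    (hc : ∀ p ∈ P, ∀ q ∈ P, p * q = q * p ∨ p * q = q * p * a) (hU : U ≤ P) (he : e ∈ P) :
    ∃ u0 ∈ U, ∀ u ∈ U, u ∈ U ⊓ centralizer ({e} : Set G) ∨ u * u0 ∈ U ⊓ centralizer ({e} : Set G) := by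
  by_cases h : ∀ u ∈ U, u * e = e * u
  · exact ⟨1, one_mem _, fun u hu => Or.inl ⟨hu, mem_centralizer_singleton_iff.2 (h u hu)⟩⟩
  push Not at h
  obtain ⟨v, hv, h⟩ := h
  have h1 := (hc v (hU hv) e he).resolve_left h
  refine ⟨v, hv, fun u hu => (hc u (hU hu) e he).imp (fun k => ⟨hu, mem_centralizer_singleton_iff.2 k⟩)
    fun k => ⟨mul_mem hu hv, mem_centralizer_singleton_iff.2 ?_⟩⟩
  calc u * v * e = u * (v * e) := mul_assoc _ _ _
    _ = u * e * (v * a) := by rw [h1]; group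
    _ = e * u * (a * (a * v)) := by rw [k, ac v (hU hv)]; group
    _ = _ := by rw [← mul_assoc a, a2, one_mul, mul_assoc]

theorem comm_of {x u v : G} (h1 : x * (u * v) = u * v * x) (h2 : x * v = v * x) : x * u = u * x :=
  mul_right_cancel (b := v) (by rw [mul_assoc, h1, mul_assoc, ← h2, mul_assoc])

end K2x

open K2x in
theorem k2Thm (hB : BasThm.{u}) (hF2 : F2Thm.{u}) (hFI : FIThm.{u}) (hS : StrThm.{u}) (h0 : TA0Thm.{u})
    (hV : NVThm.{u}) : K2Thm.{u} := by
  intro G _ _ M y t c z d a g hC hT hA tP zP h512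
  obtain ⟨f1, -, -, -, f5, -⟩ := hF2 G M y t c z d hC
  obtain ⟨h, -, hh⟩ := f1 g a hA.g3 hA.a2 hA.a1 hA.ga.symm
  obtain ⟨-, ac, b3, -, -, b6, -⟩ := hB G a
  have m1 : ∀ x, x ∈ O2C a ↔ h * x * h⁻¹ ∈ O2C t := fun x => by rw [← hh]; exact b3 h x
  have cP : Nat.card (O2C a) = Nat.card (O2C t) := by rw [← hh]; exact (b6 h).symm
  have hc : ∀ p ∈ O2C a, ∀ q ∈ O2C a, p * q = q * p ∨ p * q = q * p * a := fun p hp q hq => by
    refine (hT.2.2.1 _ ((m1 p).1 hp) _ ((m1 q).1 hq)).imp (fun k => ?_) fun k => ?_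
    · calc p * q = h⁻¹ * (h * p * h⁻¹ * (h * q * h⁻¹)) * h := by group
        _ = _ := by rw [k]; group
    · calc p * q = h⁻¹ * (h * p * h⁻¹ * (h * q * h⁻¹)) * h := by group
        _ = _ := by rw [k, ← hh]; group
  have ta : t ≠ a := fun e => hC.z_ne (by
    have h1 := hC.dtd
    rw [e, ← hA.ad, mul_inv_cancel_right] at h1
    exact (mul_eq_left.1 h1.symm))
  obtain ⟨p1, hp1, s1⟩ := split hA.a2 ac hc le_rfl tP
  obtain ⟨p2, hp2, s2⟩ := split hA.a2 ac hc (inf_le_left (b := centralizer ({t} : Set G))) zP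
  have c1 := card_le_two s1
  have c2 := card_le_two s2
  have l1 : O2C a ⊓ centralizer ({t} : Set G) ⊓ centralizer ({z} : Set G) ≤
      centralizer ({t} : Set G) ⊓ centralizer ({z} : Set G) := inf_le_inf_right _ inf_le_right
  have c3 := card_le_of_le l1
  have c4 := (h0 G M y t c z d hC hT).2.1
  have c5 : Nat.card ↥(O2C t ⊓ centralizer ({z} : Set G)) = 32 ∧ Nat.card (O2C t) = 512 := by
    have k : Nat.card (O2C t) ≤ 16 * Nat.card ↥(O2C t ⊓ centralizer ({z} : Set G)) := by omega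
    have k2 := (hFI G _ t y z f5).1
    generalize Nat.card ↥(O2C t ⊓ centralizer ({z} : Set G)) = α at k k2
    generalize Nat.card (O2C t) = n at k k2 h512
    rcases k2 with k2 | ⟨k2, -⟩
    · have k3 : α ≤ 32 := by nlinarith
      have k4 : 32 ≤ α := by omega
      obtain rfl := le_antisymm k3 k4
      omega
    · have k3 : α ≤ 8 := by nlinarith
      omega
  have e1 := eq_of_le_of_card_ge l1 (by omega)
  have BP : centralizer ({t} : Set G) ⊓ centralizer ({z} : Set G) ≤ O2C a := by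
    rw [← e1]; exact inf_le_left.trans inf_le_left
  have AP : O2C t ⊓ centralizer ({z} : Set G) ≤ O2C a := fun q hq =>
    BP ⟨mem_centralizer_singleton_iff.2 (f5.cen q hq.1), hq.2⟩
  have AB : ∀ q ∈ O2C t ⊓ centralizer ({z} : Set G), ∀ w ∈ centralizer ({t} : Set G) ⊓ centralizer ({z} : Set G),
      q * w = w * q := fun q hq w hw => by
    rcases hV G M y t c z d hC hT w (mem_centralizer_singleton_iff.1 hw.1) (mem_centralizer_singleton_iff.1 hw.2) q hq.1
      (mem_centralizer_singleton_iff.1 hq.2) with k | k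
    · exact (mul_inv_eq_iff_eq_mul.1 k).symm
    · rcases hc w (BP hw) q (AP hq) with k' | k'
      · exact k'.symm
      · rw [k', mul_assoc q, ac w (BP hw), ← mul_assoc, mul_inv_cancel_right] at k
        exact absurd (mul_left_cancel k).symm ta
  obtain ⟨_, -, s3⟩ := split hA.a2 ac hc AP hp1
  obtain ⟨_, -, s4⟩ := split hA.a2 ac hc ((inf_le_left (b := centralizer ({p1} : Set G))).trans AP) hp2.1
  have c6 := card_le_two s3
  have c7 := card_le_two s4
  have cen : ∀ x ∈ O2C t ⊓ centralizer ({z} : Set G) ⊓ centralizer ({p1} : Set G) ⊓ centralizer ({p2} : Set G),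
      ∀ u ∈ O2C a, x * u = u * x := fun x hx u hu => by
    have k : ∀ v ∈ O2C a ⊓ centralizer ({t} : Set G), x * v = v * x := fun v hv =>
      (s2 v hv).elim (fun k => AB x hx.1.1 v (l1 k))
        fun k => comm_of (AB x hx.1.1 _ (l1 k)) (mem_centralizer_singleton_iff.1 hx.2)
    exact (s1 u hu).elim (k u) fun k' => comm_of (k _ k') (mem_centralizer_singleton_iff.1 hx.1.2)
  have c8 := Nat.card_le_card_of_injective (fun x : ↥(O2C t ⊓ centralizer ({z} : Set G) ⊓ centralizer ({p1} : Set G) ⊓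
      centralizer ({p2} : Set G)) => (⟨h * x * h⁻¹, (m1 x).1 (AP x.2.1.1), fun q hq => by
        have k := cen x x.2 (h⁻¹ * q * h) ((m1 _).2 (by
          rw [show h * (h⁻¹ * q * h) * h⁻¹ = q by group]; exact hq))
        calc q * (h * x * h⁻¹) = h * (h⁻¹ * q * h * x) * h⁻¹ := by group
          _ = _ := by rw [← k]; group⟩ : ↥(O2C t ⊓ centralizer (O2C t : Set G)))) fun x x' e =>
    Subtype.ext (mul_left_cancel (mul_right_cancel (congrArg Subtype.val e)))
  have c9 := (hS G M y t c z d hC hT).2.2 c5.2 (by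
    by_contra! k
    have k1 : ∀ p ∈ O2C a, ∀ q ∈ O2C a, p * q = q * p := fun p hp q hq => by
      calc p * q = h⁻¹ * (h * p * h⁻¹ * (h * q * h⁻¹)) * h := by group
        _ = _ := by rw [k _ ((m1 p).1 hp) _ ((m1 q).1 hq)]; group
    have := card_le_of_le (show O2C a ≤ centralizer ({t} : Set G) ⊓ centralizer ({z} : Set G) from fun p hp =>
      ⟨mem_centralizer_singleton_iff.2 (k1 p hp t tP), mem_centralizer_singleton_iff.2 (k1 p hp z zP)⟩)
    omega)
  omega

end CL.L11
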