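/-
Project L11 (S3717): a four-group of `A₅` acts quadratically on `Q / ⟨t⟩`.
-/
import Cfsg.Agent.L11.Defs

set_option autoImplicit false
open Subgroup

namespace CL.L11

universe u

namespace NV

theorem a5a : ∀ a : Equiv.Perm (Fin 5), a * a = 1 → a ≠ 1 → Equiv.Perm.sign a = 1 → ∃ g : Equiv.Perm (Fin 5),
    g * a = Equiv.swap 0 1 * Equiv.swap 2 3 * g := by decide +kernel

theorem a5b : ∀ b : Equiv.Perm (Fin 5), Equiv.swap 0 1 * Equiv.swap 2 3 * b = b * (Equiv.swap 0 1 * Equiv.swap 2 3) →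
    Equiv.Perm.sign b = 1 → b * b = 1 ∧ b * (Equiv.swap 0 1 * Equiv.swap 1 2) ≠ 1 ∧
      (b * (Equiv.swap 0 1 * Equiv.swap 1 2)) ^ 3 = 1 := by decide +kernel

theorem a5 (a : alternatingGroup (Fin 5)) (a1 : a ≠ 1) (a2 : a * a = 1) : ∃ c : alternatingGroup (Fin 5),
    ∀ b, a * b = b * a → b * b = 1 ∧ b * c ≠ 1 ∧ (b * c) ^ 3 = 1 := by
  obtain ⟨g, e⟩ := a5a a (congrArg Subtype.val a2) (fun h => a1 (Subtype.ext h)) a.2
  have hs : Equiv.Perm.sign (Equiv.swap (0 : Fin 5) 1 * Equiv.swap 1 2) = 1 := by decide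
  have key := a5b
  generalize Equiv.swap (0 : Fin 5) 1 * Equiv.swap 1 2 = c at hs key
  generalize Equiv.swap (0 : Fin 5) 1 * Equiv.swap 2 3 = a0 at e key
  obtain rfl : a0 = g * a * g⁻¹ := by rw [e, mul_inv_cancel_right]
  refine ⟨⟨g⁻¹ * c * g, (alternatingGroup.normal.conj_mem' c hs g)⟩, fun b hb => ?_⟩
  have hb' : (a : Equiv.Perm (Fin 5)) * b = b * a := congrArg Subtype.val hb
  obtain ⟨k1, k2, k3⟩ := key (g * b * g⁻¹) (by
    calc g * a * g⁻¹ * (g * b * g⁻¹) = g * (a * b) * g⁻¹ := by group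
      _ = g * b * g⁻¹ * (g * a * g⁻¹) := by rw [hb']; group) (alternatingGroup.normal.conj_mem b b.2 g)
  have e1 : g * b * g⁻¹ * c = g * (b * (g⁻¹ * c * g)) * g⁻¹ := by group
  rw [e1] at k2 k3
  rw [conj_mul, conj_eq_one_iff] at k1
  rw [conj_pow, conj_eq_one_iff] at k3
  exact ⟨Subtype.ext k1, fun h => k2 (conj_eq_one_iff.2 (congrArg Subtype.val h)), Subtype.ext k3⟩

theorem der {E : Type*} [Ring E] {v Y : E} (hv : v * v = 1) (hY : 1 + Y + Y * Y = 0)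
    (h : 1 + v * Y + v * Y * (v * Y) = 0) : v * Y - Y * v = v - 1 := by
  have h3 : Y * Y * Y = 1 := by
    rw [← sub_eq_zero, show Y * Y * Y - 1 = (Y - 1) * (1 + Y + Y * Y) by noncomm_ring, hY, mul_zero]
  have h4 : Y * Y * v * (1 + v * Y + v * Y * (v * Y)) =
      Y * Y * v + Y * Y * (v * v) * Y + Y * Y * (v * v) * Y * (v * Y) := by noncomm_ring
  rw [h, mul_zero, hv, mul_one, h3] at h4
  rw [← sub_eq_zero, show v * Y - Y * v - (v - 1) = (Y * Y * v + 1 + 1 * (v * Y)) - (1 + Y + Y * Y) * v by noncomm_ring,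
    ← h4, hY, zero_mul, sub_zero]

theorem fin {E : Type*} [Ring E] {z w Y : E} (hz : z * Y - Y * z = z - 1) (hw : w * Y - Y * w = w - 1)
    (h : w * z * Y - Y * (w * z) = w * z - 1) : (w - 1) * (z - 1) = 0 := by
  rw [show (w - 1) * (z - 1) = (w * (z - 1) + (w - 1) * z) - (w * z - 1) by noncomm_ring, ← hz, ← hw, ← h]
  noncomm_ring

theorem core {K : Type*} [Group K] (V : Subgroup K) [V.Normal] (cm : ∀ a ∈ V, ∀ b ∈ V, a * b = b * a) {z w c : K}
    (h : ∀ b, b = 1 ∨ b = z ∨ b = w ∨ b = w * z → b * b ∈ V ∧ ∃ q ∈ V, ∀ x ∈ V, nm (b * c * q) x = 1) {v : K}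
    (hv : v ∈ V) : w * (v⁻¹ * (z * v * z⁻¹)) * w⁻¹ = v⁻¹ * (z * v * z⁻¹) := by
  letI : CommGroup V := { (inferInstance : Group V) with mul_comm := fun a b => Subtype.ext (cm a a.2 b b.2) }
  let ρ : K → AddMonoid.End (Additive V) := fun g => MonoidHom.toAdditive (MulAut.conjNormal g : MulAut V).toMonoidHom
  have ext : ∀ f f' : AddMonoid.End (Additive V), (∀ x : V, ((Additive.toMul (f (Additive.ofMul x)) : V) : K) =
      (Additive.toMul (f' (Additive.ofMul x)) : V)) → f = f' := fun f f' e =>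
    AddMonoidHom.ext fun x => Subtype.ext (e x)
  have rm : ∀ g g', ρ (g * g') = ρ g * ρ g' := fun g g' => ext _ _ fun x => by
    show g * g' * x * (g * g')⁻¹ = g * (g' * x * g'⁻¹) * g⁻¹
    group
  have r1 : ∀ q ∈ V, ρ q = 1 := fun q hq => ext _ _ fun x => by
    show q * x * q⁻¹ = x
    rw [cm q hq x x.2, mul_inv_cancel_right]
  have key : ∀ b, b = 1 ∨ b = z ∨ b = w ∨ b = w * z →
      ρ b * ρ b = 1 ∧ 1 + ρ b * ρ c + ρ b * ρ c * (ρ b * ρ c) = 0 := fun b hb => by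
    obtain ⟨h1, q, hq, h2⟩ := h b hb
    refine ⟨by rw [← rm, r1 _ h1], ?_⟩
    rw [show ρ b * ρ c = ρ (b * c * q) by rw [rm, rm, r1 q hq, mul_one], ← rm, ← pow_two]
    exact ext _ _ fun x => h2 x x.2
  have k1 := (key 1 (Or.inl rfl)).2
  rw [r1 1 (one_mem _), one_mul] at k1
  have k2 := key z (Or.inr (Or.inl rfl))
  have k3 := key w (Or.inr (Or.inr (Or.inl rfl)))
  have k4 := key (w * z) (Or.inr (Or.inr (Or.inr rfl)))
  rw [rm] at k4
  have e := congrArg (fun f : AddMonoid.End (Additive V) => ((Additive.toMul (f (Additive.ofMul ⟨v, hv⟩)) : V) : K))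
    (fin (der k2.1 k1 k2.2) (der k3.1 k1 k3.2) (der k4.1 k1 k4.2))
  have e' : w * (z * v * z⁻¹ / v) * w⁻¹ / (z * v * z⁻¹ / v) = 1 := e
  rwa [div_eq_one, div_eq_mul_inv, cm _ ((inferInstance : V.Normal).conj_mem v hv z) _ (inv_mem hv)] at e'

theorem core2 {C : Type*} [Group C] (Q : Subgroup C) [Q.Normal] {t z w c : C} (tt : t * t = 1)
    (tc : ∀ g, g * t = t * g) (cm : ∀ p ∈ Q, ∀ q ∈ Q, p * q = q * p ∨ p * q = q * p * t)
    (h : ∀ b, b = 1 ∨ b = z ∨ b = w ∨ b = w * z →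
      b * b ∈ Q ∧ ∃ q ∈ Q, ∀ x ∈ Q, nm (b * c * q) x = 1 ∨ nm (b * c * q) x = t) {v q : C} (hv : v ∈ Q)
    (e : q = v⁻¹ * (z * v * z⁻¹) ∨ q = v⁻¹ * (z * v * z⁻¹) * t) : w * q * w⁻¹ = q ∨ w * q * w⁻¹ = q * t := by
  have ti : t⁻¹ = t := inv_eq_of_mul_eq_one_right tt
  let T : Subgroup C :=
    { carrier := {x | x = 1 ∨ x = t}
      one_mem' := Or.inl rfl
      mul_mem' := by rintro a b (rfl | rfl) (rfl | rfl) <;> simp [tt]
      inv_mem' := by rintro a (rfl | rfl) <;> simp [ti] }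
  haveI : T.Normal := ⟨by
    rintro a (rfl | rfl) g
    · exact Or.inl (by group)
    · exact Or.inr (by rw [tc g, mul_inv_cancel_right])⟩
  let π := QuotientGroup.mk' T
  have πt : π t = 1 := (QuotientGroup.eq_one_iff t).2 (Or.inr rfl)
  haveI : (Q.map π).Normal := Normal.map inferInstance π (QuotientGroup.mk'_surjective T)
  have πn : ∀ g x : C, nm (π g) (π x) = π (nm g x) := fun g x => by
    simp only [nm, map_mul, map_inv, map_pow]
  have k := core (Q.map π) (z := π z) (w := π w) (c := π c) (by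
    rintro _ ⟨a, ha, rfl⟩ _ ⟨b, hb, rfl⟩
    rcases cm a ha b hb with e | e <;> rw [← map_mul, e] <;> simp only [map_mul, πt, mul_one]) (fun b hb => by
    obtain ⟨b, hb', rfl⟩ : ∃ b', (b' = 1 ∨ b' = z ∨ b' = w ∨ b' = w * z) ∧ b = π b' := by
      rcases hb with rfl | rfl | rfl | rfl
      · exact ⟨1, Or.inl rfl, rfl⟩
      · exact ⟨z, Or.inr (Or.inl rfl), rfl⟩
      · exact ⟨w, Or.inr (Or.inr (Or.inl rfl)), rfl⟩
      · exact ⟨w * z, Or.inr (Or.inr (Or.inr rfl)), rfl⟩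
    obtain ⟨h1, p, hp, h2⟩ := h b hb'
    refine ⟨⟨b * b, h1, rfl⟩, π p, ⟨p, hp, rfl⟩, ?_⟩
    rintro _ ⟨x, hx, rfl⟩
    rw [← map_mul, ← map_mul, πn]
    rcases h2 x hx with e | e <;> rw [e]
    · exact map_one π
    · exact πt) (mem_map_of_mem π hv)
  have k2 : π (q⁻¹ * (w * q * w⁻¹)) = 1 := by
    have : π q = (π v)⁻¹ * (π z * π v * (π z)⁻¹) := by
      rcases e with rfl | rfl <;> simp only [map_mul, map_inv, πt, mul_one]
    simp only [map_mul, map_inv]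
    rw [this, k, inv_mul_cancel]
  rcases (QuotientGroup.eq_one_iff _).1 k2 with e | e
  · exact Or.inl (inv_mul_eq_one.1 e).symm
  · exact Or.inr (inv_mul_eq_iff_eq_mul.1 e)

end NV

theorem nvThm (hB : BasThm.{u}) (hF2 : F2Thm.{u}) (hN : NThm.{u}) (hFI : FIThm.{u}) : NVThm.{u} := by
  intro G _ _ M y t c z d h ⟨⟨φ, φs, φk⟩, sq, cm, _⟩ w wt wz q hq qz
  obtain ⟨-, b1, -, b3, -⟩ := hB G t
  obtain ⟨-, -, -, -, tz, zQ, -, tri, lift⟩ := hF2 G M y t c z d h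
  have mC : ∀ {x : G}, x ∈ centralizer ({t} : Set G) ↔ x * t = t * x := mem_centralizer_singleton_iff
  obtain ⟨v, hv, e⟩ := (hFI G (O2C t) t y z tz).2 q hq (by
    rw [← qz, mul_inv_cancel_right]; exact sq q hq)
  haveI : ((O2C t).subgroupOf (centralizer ({t} : Set G))).Normal :=
    ⟨fun x hx g => b3 g (mC.1 g.2) x hx⟩
  let z' : centralizer ({t} : Set G) := ⟨z, mC.2 h.zt⟩
  let w' : centralizer ({t} : Set G) := ⟨w, mC.2 wt⟩
  have zz : z' * z' = 1 := Subtype.ext h.zz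
  have zw : z' * w' = w' * z' := Subtype.ext wz.symm
  obtain ⟨c0, hc⟩ := NV.a5 (φ z') (fun e => zQ ((φk z').1 e)) (by rw [← map_mul, zz, map_one])
  obtain ⟨c', rfl⟩ := φs c0
  have := NV.core2 ((O2C t).subgroupOf (centralizer ({t} : Set G))) (t := ⟨t, mC.2 rfl⟩) (z := z') (w := w') (c := c')
    (Subtype.ext h.tt) (fun g => Subtype.ext (mC.1 g.2))
    (fun a ha b hb => (cm a ha b hb).imp Subtype.ext Subtype.ext) (fun b hb => ?_) (v := ⟨v, mC.2 (b1 v hv)⟩)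
    (q := ⟨q, mC.2 (b1 q hq)⟩) hv (e.imp Subtype.ext Subtype.ext)
  · exact this.imp (congrArg Subtype.val) (congrArg Subtype.val)
  have hz : z' * b = b * z' := by
    rcases hb with rfl | rfl | rfl | rfl
    · rw [mul_one, one_mul]
    · rfl
    · exact zw
    · rw [← mul_assoc, zw]
  obtain ⟨k1, k2, k3⟩ := hc (φ b) (by rw [← map_mul, hz, map_mul])
  rw [← map_mul] at k1 k2 k3
  refine ⟨(φk _).1 k1, ?_⟩
  generalize b * c' = g at k2 k3
  have o3 : orderOf (φ g) = 3 := orderOf_eq_prime k3 k2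
  obtain ⟨k, hk, ok⟩ := lift (g : G) (by rw [orderOf_coe, ← o3]; exact orderOf_map_dvd φ g)
  refine ⟨g⁻¹ * g ^ k, (φk (g⁻¹ * g ^ k)).1 (by
    rw [map_mul, map_pow, ← pow_mod_orderOf, o3, hk, pow_one, map_inv, inv_mul_cancel]), fun x hx => ?_⟩
  rw [mul_inv_cancel_left]
  exact (hN G (O2C t) t ((g : G) ^ k) (tri _ ok (mC.1 (g ^ k).2)) x hx).1.imp Subtype.ext Subtype.ext

end CL.L11
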