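/-
Project L11 (S3717): the norm map of an element of order three on a 2-group.
-/
import Cfsg.Agent.L11.Defs

set_option autoImplicit false
open Subgroup

namespace CL.L11

universe u

namespace NmX

variable {G : Type u} [Group G] {Q : Subgroup G} {t y : G}

theorem tt (h : Tri Q t y) : t * t = 1 := by
  have := pow_orderOf_eq_one t; rwa [h.t2, pow_two] at this

theorem yy (h : Tri Q t y) : y * y * y = 1 := by
  have := pow_orderOf_eq_one y; rwa [h.y3, pow_succ, pow_two] at this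

/-- the subgroup `⟨t⟩` of `Q` -/
def T (h : Tri Q t y) : Subgroup Q where
  carrier := {x | (x : G) = 1 ∨ (x : G) = t}
  one_mem' := Or.inl rfl
  mul_mem' := fun {a b} ha hb => by
    change ((a : G) * b = 1 ∨ (a : G) * b = t)
    rcases ha with ha | ha <;> rcases hb with hb | hb <;> rw [ha, hb] <;> simp [tt h]
  inv_mem' := fun {a} ha => by
    rcases ha with ha | ha
    · exact Or.inl (by simp [ha])
    · exact Or.inr (by rw [coe_inv, ha]; exact inv_eq_of_mul_eq_one_right (tt h))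

theorem mem_T (h : Tri Q t y) {x : Q} : x ∈ T h ↔ (x : G) = 1 ∨ (x : G) = t := Iff.rfl

theorem T_normal (h : Tri Q t y) : (T h).Normal := ⟨fun a ha g => by
  rcases ha with ha | ha
  · exact Or.inl (by simp [ha])
  · exact Or.inr (by rw [coe_mul, coe_mul, coe_inv, ha, h.cen _ g.2, mul_inv_cancel_right])⟩

/-- conjugation by `y` -/
def s0 (h : Tri Q t y) : Q →* Q := MonoidHom.mk' (fun x => ⟨y * x * y⁻¹, h.nor _ x.2⟩) fun a b =>
  Subtype.ext (by simp only [coe_mul]; group)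

theorem s0_coe (h : Tri Q t y) (x : Q) : (s0 h x : G) = y * x * y⁻¹ := rfl

theorem yty (h : Tri Q t y) : y * t * y⁻¹ = t := by rw [← h.ty, mul_inv_cancel_right]

theorem norm [Finite G] (h : Tri Q t y) {u : G} (hu : u ∈ Q) : nm y u = 1 ∨ nm y u = t := by
  have := T_normal h
  have hle : T h ≤ (T h).comap (s0 h) := fun a ha => by
    rw [mem_comap, mem_T, s0_coe]
    rcases ha with ha | ha
    · exact Or.inl (by simp [ha])
    · exact Or.inr (by rw [ha, yty h])
  let σ : Q ⧸ T h →* Q ⧸ T h := QuotientGroup.map _ _ (s0 h) hle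
  have hσ : ∀ x : Q, σ (x : Q ⧸ T h) = (s0 h x : Q ⧸ T h) := fun _ => rfl
  have h3 : ∀ x : G, y * (y * (y * x * y⁻¹) * y⁻¹) * y⁻¹ = x := fun x => by
    rw [show y * (y * (y * x * y⁻¹) * y⁻¹) * y⁻¹ = (y * y * y) * x * (y * y * y)⁻¹ by group, yy h]; simp
  have hf : MonoidHom.FixedPointFree σ := fun g hg => by
    obtain ⟨x, rfl⟩ := QuotientGroup.mk_surjective g
    rw [hσ, eq_comm, QuotientGroup.eq, mem_T, coe_mul, coe_inv, s0_coe] at hg
    rw [QuotientGroup.eq_one_iff, mem_T]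
    rcases hg with hg | hg
    · refine h.fix _ x.2 ?_
      calc (x : G) * y = x * ((x : G)⁻¹ * (y * x * y⁻¹)) * y := by rw [hg, mul_one]
        _ = y * x := by group
    · exfalso
      have e : y * x * y⁻¹ = x * t := by rw [← hg]; group
      have e2 : ∀ a : G, y * (a * t) * y⁻¹ = y * a * y⁻¹ * t := fun a => by
        conv_rhs => rw [← yty h]
        group
      have e3 := h3 x
      rw [e, e2, e, mul_assoc _ t t, tt h, mul_one, e, mul_eq_left] at e3
      have := h.t2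
      rw [e3, orderOf_one] at this
      exact absurd this (by norm_num)
  have hn : (σ : Q ⧸ T h → Q ⧸ T h)^[3] = id := by
    funext g
    obtain ⟨x, rfl⟩ := QuotientGroup.mk_surjective g
    change σ (σ (σ x)) = x
    rw [hσ, hσ, hσ]
    exact congrArg _ (Subtype.ext (h3 x))
  have hp := hf.prod_pow_eq_one hn (⟨u, hu⟩ : Q)
  have hq : (((⟨u, hu⟩ : Q) * s0 h ⟨u, hu⟩ * s0 h (s0 h ⟨u, hu⟩) : Q) : Q ⧸ T h) = 1 := by
    rw [← hp, QuotientGroup.mk_mul, QuotientGroup.mk_mul, ← hσ, ← hσ, ← hσ]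
    simp [List.range_succ, mul_assoc]
  rw [QuotientGroup.eq_one_iff, mem_T, coe_mul, coe_mul, s0_coe, s0_coe, s0_coe] at hq
  rwa [show nm y u = u * (y * u * y⁻¹) * (y * (y * u * y⁻¹) * y⁻¹) by rw [nm, pow_two]; group]

end NmX

open NmX in
theorem nThm : NThm.{u} := by
  intro G _ _ Q t y h u hu
  have h1 := norm h hu
  have h2 := norm h (inv_mem hu)
  have ht := tt h
  have hy := yy h
  obtain ⟨v, hv⟩ : ∃ v, v = y * u * y⁻¹ := ⟨_, rfl⟩
  obtain ⟨w, hw⟩ : ∃ w, w = y * v * y⁻¹ := ⟨_, rfl⟩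
  have hwu : y * w * y⁻¹ = u := by
    rw [hw, hv, show y * (y * (y * u * y⁻¹) * y⁻¹) * y⁻¹ = (y * y * y) * u * (y * y * y)⁻¹ by group, hy]; simp
  have hwt : w * t = t * w := h.cen _ (hw ▸ h.nor _ (hv ▸ h.nor _ hu))
  have e1 : nm y u = u * v * w := by rw [hw, hv, nm, pow_two]; group
  have e2 : nm y u⁻¹ = (w * (v * u))⁻¹⁻¹⁻¹ := by rw [hw, hv, nm, pow_two]; group
  rw [inv_inv] at e2
  have ti : t⁻¹ = t := inv_eq_of_mul_eq_one_right ht
  have hwt' : w⁻¹ * t = t * w⁻¹ := (Commute.inv_left hwt).eq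
  have a1 : u * v = w⁻¹ ∨ u * v = w⁻¹ * t := by
    rw [e1] at h1
    rcases h1 with h1 | h1
    · exact Or.inl (eq_inv_of_mul_eq_one_left h1)
    · exact Or.inr (by rw [hwt', ← h1, mul_inv_cancel_right])
  have a2 : v * u = w⁻¹ ∨ v * u = w⁻¹ * t := by
    rw [e2] at h2
    rcases h2 with h2 | h2
    · exact Or.inl (eq_inv_of_mul_eq_one_right (inv_eq_one.1 h2))
    · exact Or.inr (by rw [← ti, ← h2, inv_inv, inv_mul_cancel_left])
  rw [← hv]
  refine ⟨h1, ?_, fun uu => ?_, fun z hz zu => ?_⟩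
  · rcases a1 with a1 | a1 <;> rcases a2 with a2 | a2
    · exact Or.inl (a1.trans a2.symm)
    · exact Or.inr (by rw [a1, a2, mul_assoc, ht, mul_one])
    · exact Or.inr (by rw [a1, a2])
    · exact Or.inl (a1.trans a2.symm)
  · have vv : v * v = 1 := by rw [hv, show y * u * y⁻¹ * (y * u * y⁻¹) = y * (u * u) * y⁻¹ by group, uu]; simp
    have ww : w * w = 1 := by rw [hw, show y * v * y⁻¹ * (y * v * y⁻¹) = y * (v * v) * y⁻¹ by group, vv]; simp
    have wi : w⁻¹ = w := inv_eq_of_mul_eq_one_right ww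
    have s : u * v * (u * v) = 1 := by
      rcases a1 with a1 | a1
      · rw [a1, wi, ww]
      · rw [a1, wi, mul_assoc, ← mul_assoc t, ← hwt, mul_assoc, ht, mul_one, ww]
    rw [eq_inv_of_mul_eq_one_left s, mul_inv_rev, inv_eq_of_mul_eq_one_right uu, inv_eq_of_mul_eq_one_right vv]
  · have yi : y⁻¹ = y * y := inv_eq_of_mul_eq_one_left hy
    have cz : ∀ a : G, z * (y * a * y⁻¹) * z⁻¹ = y * (y * (z * a * z⁻¹) * y⁻¹) * y⁻¹ := fun a => by
      rw [show z * (y * a * y⁻¹) * z⁻¹ = (z * y * z⁻¹) * (z * a * z⁻¹) * (z * y * z⁻¹)⁻¹ by group, hz.zy,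
        show y * (y * (z * a * z⁻¹) * y⁻¹) * y⁻¹ = (y * y) * (z * a * z⁻¹) * (y * y)⁻¹ by group, ← yi]
    have zuz : z * u * z⁻¹ = u := by rw [zu, mul_inv_cancel_right]
    have zv : z * v * z⁻¹ = w := by rw [hw, hv, cz, zuz]
    have zw : z * w * z⁻¹ = v := by rw [hw, cz, zv, hwu, ← hv]
    have zn : z * nm y u * z⁻¹ = nm y u := by
      rcases h1 with h1 | h1
      · simp [h1]
      · rw [h1, hz.zt, mul_inv_cancel_right]
    have c1 : Commute v w := by
      rw [e1, show z * (u * v * w) * z⁻¹ = (z * u * z⁻¹) * ((z * v * z⁻¹) * (z * w * z⁻¹)) by group, zuz, zv, zw,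
        mul_assoc, mul_right_inj] at zn
      exact zn.symm
    have cj : ∀ a b : G, Commute a b → Commute (y * a * y⁻¹) (y * b * y⁻¹) := fun a b e => e.conj y
    have c2 : Commute w u := by have := cj _ _ c1; rwa [← hw, hwu] at this
    have c3 : Commute u v := by have := cj _ _ c2; rwa [hwu, ← hv] at this
    have e3 : nm y (u * u) = u ^ 2 * v ^ 2 * w ^ 2 := by
      rw [hw, hv, nm]; simp only [pow_two]; group
    rw [e3, ← c3.mul_pow, ← (c2.symm.mul_left c1).mul_pow, ← e1, pow_two]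
    rcases h1 with h1 | h1
    · rw [h1, mul_one]
    · rw [h1, ht]

end CL.L11
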