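/-
Project L11: commuting pairs of involutions in the case `C(t) = Q . A₅`.
-/
import Cfsg.Agent.L11.Defs

set_option autoImplicit false
open Subgroup

namespace CL.L11

universe u

namespace Pair

theorem a5 (a b : alternatingGroup (Fin 5)) (a2 : a * a = 1) (a1 : a ≠ 1) (b2 : b * b = 1) (b1 : b ≠ 1) :
    ∃ k, k * a * k⁻¹ = b := by
  have h : ∀ a : Equiv.Perm (Fin 5), a * a = 1 → a ≠ 1 → Equiv.Perm.sign a = 1 →
      ∃ k : Equiv.Perm (Fin 5), k * a = Equiv.swap 0 1 * Equiv.swap 2 3 * k ∧ Equiv.Perm.sign k = 1 := by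
    decide +kernel
  obtain ⟨k, k1, k2⟩ := h a (congrArg Subtype.val a2) (fun e => a1 (Subtype.ext e)) a.2
  obtain ⟨l, l1, l2⟩ := h b (congrArg Subtype.val b2) (fun e => b1 (Subtype.ext e)) b.2
  refine ⟨(⟨l, l2⟩ : alternatingGroup (Fin 5))⁻¹ * ⟨k, k2⟩, Subtype.ext ?_⟩
  calc l⁻¹ * k * a * (l⁻¹ * k)⁻¹ = l⁻¹ * (k * a * k⁻¹ * l) := by group
    _ = b := by rw [k1, mul_inv_cancel_right, ← l1, inv_mul_cancel_left]

variable {G : Type u} [Group G] {Q : Subgroup G} {y t z : G} (T : TriZ Q t y z)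
  (F : ∀ q ∈ Q, (z * q * z⁻¹ * q = 1 ∨ z * q * z⁻¹ * q = t) →
    ∃ v ∈ Q, q = v⁻¹ * (z * v * z⁻¹) ∨ q = v⁻¹ * (z * v * z⁻¹) * t)
include T F

theorem elem {q : G} (hq : q ∈ Q) (c : q * z = z * q) (h : q * q = 1 ∨ q * q = t) : q * q = 1 := by
  have e : z * q * z⁻¹ = q := by rw [← c, mul_inv_cancel_right]
  have tt : t * t = 1 := by rw [← pow_two, ← T.t2, pow_orderOf_eq_one]
  obtain ⟨v, hv, k⟩ := F q hq (by rwa [e])
  have e1 : z * (v⁻¹ * (z * v * z⁻¹)) * z⁻¹ * (v⁻¹ * (z * v * z⁻¹)) = 1 := by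
    calc _ = z * v⁻¹ * z⁻¹ * (z * z * v * (z * z)⁻¹) * v⁻¹ * (z * v * z⁻¹) := by group
      _ = 1 := by rw [T.z2]; group
  have m := mul_mem (inv_mem hv) (T.zn v hv)
  generalize v⁻¹ * (z * v * z⁻¹) = w at k e1 m
  rcases k with rfl | rfl
  · rwa [e] at e1
  · have e2 : z * w * z⁻¹ = w := by
      rw [← mul_left_inj t, ← e]
      calc _ = z * w * (z⁻¹ * (t * z) * z⁻¹) := by group
        _ = _ := by rw [← T.zt]; group
    rw [e2] at e1
    calc w * t * (w * t) = w * (t * w) * t := by group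
      _ = w * w * (t * t) := by rw [← T.cen w m]; group
      _ = 1 := by rw [e1, tt, one_mul]

theorem core {q : G} (hq : q ∈ Q) (h : q * z * (q * z) = 1) :
    ∃ v ∈ Q, v * (q * z) * v⁻¹ = z ∨ v * (q * z) * v⁻¹ = t * z := by
  obtain ⟨v, hv, k⟩ := F q hq (.inl (by
    calc _ = q⁻¹ * (q * z * (q * z)) * (z * z)⁻¹ * q := by group
      _ = 1 := by rw [h, T.z2]; group))
  refine ⟨v, hv, k.imp (fun k => by rw [k]; group) fun k => ?_⟩
  calc _ = z * (v * (z⁻¹ * (t * z))) * v⁻¹ := by rw [k]; group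
    _ = _ := by rw [← T.zt, inv_mul_cancel_left, T.cen v hv]; group

end Pair

theorem pairThm (hB : BasThm.{u}) (hF2 : F2Thm.{u}) (hFI : FIThm.{u}) : PairThm.{u} := by
  intro G _ _ M y t c z d C A s s' hs c1 s2 hn
  obtain ⟨-, -, -, -, T, zQ, -⟩ := hF2 G M y t c z d C
  have F := (hFI G _ t y z T).2
  obtain ⟨⟨φ, sur, ker⟩, sq, -⟩ := A
  obtain ⟨h, h1, h2⟩ : ∃ h, h * s * h⁻¹ = t ∧ (h * s' * h⁻¹ = z ∨ h * s' * h⁻¹ = t * z) := by
    obtain ⟨g, rfl⟩ := isConj_iff.1 hs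
    obtain ⟨u, rfl⟩ : ∃ u, s' = g * u * g⁻¹ := ⟨g⁻¹ * s' * g, by group⟩
    rw [← (hB G t).2.2.1] at hn
    rw [conj_mul, conj_mul, mul_left_inj, mul_right_inj] at c1
    rw [conj_mul, conj_eq_one_iff] at s2
    let u' : centralizer ({t} : Set G) := ⟨u, mem_centralizer_singleton_iff.2 c1⟩
    let z' : centralizer ({t} : Set G) := ⟨z, mem_centralizer_singleton_iff.2 T.zt⟩
    obtain ⟨k, hk⟩ := Pair.a5 (φ u') (φ z') (by rw [← map_mul, show u' * u' = 1 from Subtype.ext s2, map_one])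
      (fun e => hn ((ker u').1 e)) (by rw [← map_mul, show z' * z' = 1 from Subtype.ext T.z2, map_one])
      fun e => zQ ((ker z').1 e)
    obtain ⟨k, rfl⟩ := sur k
    have hq : (k : G) * u * (k : G)⁻¹ * z⁻¹ ∈ O2C t := (ker (k * u' * k⁻¹ * z'⁻¹)).1 (by
      rw [map_mul, map_mul, map_mul, map_inv, map_inv, hk, mul_inv_cancel])
    obtain ⟨v, hv, e⟩ := Pair.core T F hq (by rw [inv_mul_cancel_right, conj_mul, s2, mul_one, mul_inv_cancel])
    refine ⟨v * k * g⁻¹, ?_, ?_⟩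
    · calc _ = v * (k * t * (k : G)⁻¹) * v⁻¹ := by group
        _ = t := by rw [mem_centralizer_singleton_iff.1 k.2, mul_inv_cancel_right, T.cen v hv, mul_inv_cancel_right]
    · rwa [show v * k * g⁻¹ * (g * u * g⁻¹) * (v * k * g⁻¹)⁻¹ = v * (k * u * (k : G)⁻¹ * z⁻¹ * z) * v⁻¹ by group]
  have key : ∀ x, (x ∈ O2C s ∧ x * s' = s' * x) ↔ (h * x * h⁻¹ ∈ O2C t ∧ h * x * h⁻¹ * z = z * (h * x * h⁻¹)) := fun x => by
    rw [(hB G s).2.2.1 h x, h1]
    refine and_congr_right fun m => ?_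
    rw [show x * s' = s' * x ↔ h * x * h⁻¹ * (h * s' * h⁻¹) = h * s' * h⁻¹ * (h * x * h⁻¹) by
      rw [conj_mul, conj_mul, mul_left_inj, mul_right_inj]]
    rcases h2 with e | e <;> rw [e]
    rw [← mul_assoc, T.cen _ m, mul_assoc t, mul_assoc t, mul_right_inj]
  refine ⟨⟨h, h1, h2⟩, fun q hq cq => ?_, Nat.card_congr ((MulAut.conj h).toEquiv.subtypeEquiv fun x => ?_)⟩
  · obtain ⟨a, b⟩ := (key q).1 ⟨hq, cq⟩
    have := Pair.elem T F a b (sq _ a)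
    rwa [conj_mul, conj_eq_one_iff] at this
  · rw [mem_inf, mem_inf, mem_centralizer_singleton_iff, mem_centralizer_singleton_iff]
    exact key x

end CL.L11
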