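/-
Project L11 (S3717): the configuration `3² : SD₁₆` from the hypotheses.
-/
import Cfsg.Agent.L11.Defs

set_option autoImplicit false
open Subgroup

namespace CL.L11

universe u

namespace SETx

abbrev V := ZMod 3 × ZMod 3

/-- the linear map with matrix `A` -/
def ap (A : V × V) (v : V) : V := (A.1.1 * v.1 + A.2.1 * v.2, A.1.2 * v.1 + A.2.2 * v.2)

theorem ap_add (A : V × V) (v w : V) : ap A (v + w) = ap A v + ap A w := by
  ext <;> simp only [ap, Prod.fst_add, Prod.snd_add] <;> ring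

theorem l1 : ∀ C : V × V, (∀ v, (ap C)^[8] v = v) → (∃ v, (ap C)^[4] v ≠ v) →
    (∀ v, (ap C)^[4] v = -v) ∧ ∀ y, y ≠ 0 → ∀ m, m ≠ 0 → ∃ i : Fin 8, (ap C)^[i] y = m := by decide +kernel

set_option synthInstance.maxSize 1024 in
theorem l2 : ∀ T : V × V, (∀ v, ap T (ap T v) = v) → (∃ v, ap T v ≠ v) → (∃ v, ap T v ≠ -v) →
    ∃ y, y ≠ 0 ∧ ap T y = y ∧ (∀ m, ap T m = m → m = 0 ∨ m = y ∨ m = y + y) ∧
      ∀ X : V × V, ap X y = y → (∀ v, ap X v = 0 → v = 0) →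
        (∀ v, (ap X)^[3] v = v) ∨ ∀ v, (ap X ∘ ap T)^[3] v = v := by decide +kernel

theorem dec : ∀ v : V, v = v.1.val • ((1, 0) : V) + v.2.val • ((0, 1) : V) := by decide +kernel

variable {G : Type*} [Group G] {M : Subgroup G}

/-- coordinates on `M` -/
structure Crd (M : Subgroup G) (ι : V → G) : Prop where
  add : ∀ v w, ι (v + w) = ι v * ι w
  inj : Function.Injective ι
  mem : ∀ m, m ∈ M ↔ ∃ v, ι v = m

theorem exists_crd [Finite G] (h9 : Nat.card M = 9) (h3 : ∀ m ∈ M, m ^ 3 = 1) (hc : ∀ m ∈ M, ∀ n ∈ M, m * n = n * m) :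
    ∃ ι, Crd M ι := by
  have o : ∀ u ∈ M, Nat.card (zpowers u) ≤ 3 := fun u hu =>
    Nat.card_zpowers u ▸ Nat.le_of_dvd three_pos (orderOf_dvd_of_pow_eq_one (h3 u hu))
  have ex : ∀ u ∈ M, ∃ v ∈ M, v ∉ zpowers u := fun u hu => SetLike.not_le_iff_exists.1 fun k => by
    have := (Subgroup.card_le_of_le k).trans (o u hu)
    omega
  obtain ⟨a, ha, a1⟩ := ex 1 M.one_mem
  obtain ⟨b, hb, b1⟩ := ex a ha
  have pw : ∀ u ∈ M, ∀ i j : ZMod 3, u ^ (i + j).val = u ^ i.val * u ^ j.val := fun u hu i j => by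
    rw [ZMod.val_add, ← pow_add, ← pow_eq_pow_mod _ (h3 u hu)]
  let f : Multiplicative V →* M := MonoidHom.mk' (fun v => ⟨a ^ v.toAdd.1.val * b ^ v.toAdd.2.val,
    mul_mem (pow_mem ha _) (pow_mem hb _)⟩) fun v w => Subtype.ext (by
      change a ^ (v.toAdd.1 + w.toAdd.1).val * b ^ (v.toAdd.2 + w.toAdd.2).val = _ * _ * (_ * _)
      rw [pw a ha, pw b hb, mul_assoc, mul_assoc, ← mul_assoc (a ^ w.toAdd.1.val), ← mul_assoc (b ^ v.toAdd.2.val),
        hc _ (pow_mem ha _) _ (pow_mem hb _)])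
  have z : ∀ u ∈ M, ∀ i : ZMod 3, i ≠ 0 → (u ^ i.val) ^ i.val = u := fun u hu i hi => by
    rw [← pow_mul, pow_eq_pow_mod _ (h3 u hu), (show ∀ i : ZMod 3, i ≠ 0 → i.val * i.val % 3 = 1 by decide) i hi, pow_one]
  have hi : Function.Injective f := (injective_iff_map_eq_one f).2 fun v e => by
    have e' : a ^ v.toAdd.1.val * b ^ v.toAdd.2.val = 1 := congrArg Subtype.val e
    have h2 : v.toAdd.2 = 0 := by_contra fun k => b1 (by
      rw [← z b hb _ k, eq_inv_of_mul_eq_one_right e']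
      exact pow_mem (inv_mem (pow_mem (mem_zpowers a) _)) _)
    rw [h2, ZMod.val_zero, pow_zero, mul_one] at e'
    have h1 : v.toAdd.1 = 0 := by_contra fun k => a1 (by
      rw [← z a ha _ k, e', one_pow]
      exact one_mem _)
    exact Prod.ext h1 h2
  have hs := ((Nat.bijective_iff_injective_and_card f).2 ⟨hi, by rw [h9]; simp⟩).2
  exact ⟨fun v => f (.ofAdd v), fun v w => congrArg Subtype.val (f.map_mul (.ofAdd v) (.ofAdd w)),
    fun v w e => hi (Subtype.ext e), fun m => ⟨fun hm => let ⟨v, e⟩ := hs ⟨m, hm⟩; ⟨v.toAdd, congrArg Subtype.val e⟩,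
      by rintro ⟨v, rfl⟩; exact Subtype.property _⟩⟩

namespace Crd

variable {ι : V → G} (h : Crd M ι)
include h

theorem zero : ι 0 = 1 := mul_eq_left.1 ((h.add 0 0).symm.trans (congrArg ι (add_zero 0)))

theorem neg (v : V) : ι (-v) = (ι v)⁻¹ := eq_inv_of_mul_eq_one_left (by rw [← h.add, neg_add_cancel, h.zero])

theorem mat {n : G} (hn : ∀ m ∈ M, n * m * n⁻¹ ∈ M) : ∃ A, ∀ v, n * ι v * n⁻¹ = ι (ap A v) := by
  obtain ⟨p, hp⟩ := (h.mem _).1 (hn _ ((h.mem _).2 ⟨(1, 0), rfl⟩))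
  obtain ⟨q, hq⟩ := (h.mem _).1 (hn _ ((h.mem _).2 ⟨(0, 1), rfl⟩))
  have ad : ∀ v w, n * ι v * n⁻¹ = ι (ap (p, q) v) → n * ι w * n⁻¹ = ι (ap (p, q) w) →
      n * ι (v + w) * n⁻¹ = ι (ap (p, q) (v + w)) := fun v w e1 e2 => by
    rw [ap_add, h.add, h.add, ← e1, ← e2]; group
  have ns : ∀ v, n * ι v * n⁻¹ = ι (ap (p, q) v) → ∀ k : ℕ, n * ι (k • v) * n⁻¹ = ι (ap (p, q) (k • v)) := fun v e k => by
    induction k with
    | zero => rw [zero_smul, show ap (p, q) 0 = 0 by simp [ap], h.zero, mul_one, mul_inv_cancel]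
    | succ k ih => rw [succ_nsmul]; exact ad _ _ ih e
  refine ⟨(p, q), fun v => ?_⟩
  rw [dec v]
  exact ad _ _ (ns _ (by rw [← hp]; simp [ap]) _) (ns _ (by rw [← hq]; simp [ap]) _)

omit h in
theorem it {n : G} {f : V → V} (e : ∀ v, n * ι v * n⁻¹ = ι (f v)) (k : ℕ) (v : V) :
    n ^ k * ι v * (n ^ k)⁻¹ = ι (f^[k] v) := by
  induction k with
  | zero => simp
  | succ k ih => rw [Function.iterate_succ_apply', ← e, ← ih, pow_succ']; group

theorem cent {n : G} {f : V → V} (e : ∀ v, n * ι v * n⁻¹ = ι (f v)) (k : ∀ v, f v = v) : ∀ m ∈ M, n * m = m * n :=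
  fun m hm => by
    obtain ⟨v, rfl⟩ := (h.mem m).1 hm
    rw [← mul_inv_eq_iff_eq_mul, e, k]

end Crd

end SETx

open SETx

theorem setThm : SetThm.{u} := by
  intro G _ _ M h9 h3 hC N hN hcN hS
  subst hN
  have : Fact (Nat.Prime 3) := ⟨Nat.prime_three⟩
  have cM : ∀ x, (∀ m ∈ (M : Subgroup G), x * m = m * x) → x ∈ (M : Subgroup G) := fun x k =>
    hC.le fun m hm => (k m hm).symm
  have hc : ∀ m ∈ (M : Subgroup G), ∀ n ∈ (M : Subgroup G), m * n = n * m := fun m hm n hn => hC.ge hn m hm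
  obtain ⟨ι, h⟩ := exists_crd h9 h3 hc
  obtain ⟨S⟩ : Nonempty (Sylow 2 (normalizer ((M : Subgroup G) : Set G))) := inferInstance
  obtain ⟨-, ⟨c, cN⟩, -, ⟨t, tN⟩, -, c8, t2, tc⟩ := hS S
  rw [← orderOf_coe] at c8 t2
  replace tc : t * c * t⁻¹ = c ^ 3 := congrArg Subtype.val tc
  change orderOf c = 8 at c8
  change orderOf t = 2 at t2
  have nm : ∀ {n}, n ∈ normalizer ((M : Subgroup G) : Set G) → ∀ m ∈ (M : Subgroup G), n * m * n⁻¹ ∈ (M : Subgroup G) :=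
    fun hn m hm => (mem_normalizer_iff.1 hn m).1 hm
  have two : ∀ x ∈ (M : Subgroup G), x * x = 1 → x = 1 := fun x hx e => by
    rw [← h3 x hx, pow_succ, pow_two, e, one_mul]
  have three : ∀ x ∈ normalizer ((M : Subgroup G) : Set G), x ^ 3 ∈ (M : Subgroup G) → x ∈ (M : Subgroup G) :=
    fun x hx e => by
      have k : IsPGroup 3 (zpowers x) := by
        rintro ⟨_, i, rfl⟩
        refine ⟨2, Subtype.ext ?_⟩
        change (x ^ i) ^ 3 ^ 2 = 1
        rw [← zpow_natCast, ← zpow_mul, mul_comm, zpow_mul, zpow_natCast, pow_two, pow_mul, h3 _ e, one_zpow]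
      exact ((k.inf_normalizer_sylow M).le ⟨mem_zpowers x, hx⟩).2
  have c1 : c ^ 8 = 1 := c8 ▸ pow_orderOf_eq_one c
  have tt : t * t = 1 := by rw [← pow_two, ← t2, pow_orderOf_eq_one]
  have zz : c ^ 4 * c ^ 4 = 1 := by rw [← pow_add, c1]
  have cn : ∀ k, 0 < k → k < 8 → c ^ k ≠ 1 := fun k h1 h2 => pow_ne_one_of_lt_orderOf h1.ne' (c8 ▸ h2)
  obtain ⟨C, hCm⟩ := h.mat (nm cN)
  obtain ⟨T, hT⟩ := h.mat (nm tN)
  obtain ⟨z1, rg⟩ := l1 C (fun v => h.inj (by rw [← Crd.it hCm, c1]; simp)) (by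
    by_contra! k
    exact cn 4 (by norm_num) (by norm_num) (two _ (cM _ (h.cent (Crd.it hCm 4) k)) zz))
  have zt : c ^ 4 * t * (c ^ 4 * t) = 1 := by
    calc c ^ 4 * t * (c ^ 4 * t) = c ^ 4 * (t * c * t⁻¹) ^ 4 * (t * t) := by rw [conj_pow]; group
      _ = 1 := by rw [tc, tt, ← pow_mul, ← pow_add, mul_one, show 4 + 3 * 4 = 8 * 2 by norm_num, pow_mul, c1, one_pow]
  obtain ⟨y, y0, ty, ct, cy⟩ := l2 T (fun v => h.inj (by
      rw [← hT, ← hT]
      calc t * (t * ι v * t⁻¹) * t⁻¹ = (t * t) * ι v * (t * t)⁻¹ := by group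
        _ = ι v := by rw [tt]; simp)) (by
    by_contra! k
    have := two _ (cM _ (h.cent hT k)) tt
    rw [this, orderOf_one] at t2
    omega) (by
    by_contra! k
    have e := two _ (cM (c ^ 4 * t) (h.cent (f := fun v => (ap C)^[4] (ap T v)) (fun v => by
      rw [← Crd.it hCm, ← hT]; group) fun v => by rw [z1, k, neg_neg])) zt
    rw [eq_inv_of_mul_eq_one_right e] at tc
    refine cn 2 (by norm_num) (by norm_num) (mul_left_cancel (a := c) ?_)
    rw [← pow_succ', ← tc]; group)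
  have yM := (h.mem _).2 ⟨y, rfl⟩
  have y1 : ι y ≠ 1 := fun e => y0 (h.inj (e.trans h.zero.symm))
  have reg : ∀ m ∈ (M : Subgroup G), m ≠ 1 → ∃ i : ℕ, c ^ i * ι y * (c ^ i)⁻¹ = m := fun m hm m1 => by
    obtain ⟨v, rfl⟩ := (h.mem m).1 hm
    obtain ⟨i, e⟩ := rg y y0 v fun k => m1 (k ▸ h.zero)
    exact ⟨i, by rw [Crd.it hCm, e]⟩
  refine ⟨ι y, t, c, _, _, h9, fun k => ?_, h3, hc, yM, orderOf_eq_prime (h3 _ yM) y1, t2, c8, tc, rfl, rfl, nm cN, nm tN,
    fun m hm => ?_, reg, by rw [← mul_inv_eq_iff_eq_mul, hT, ty], fun m hm e => ?_, fun x e => ?_, cM, fun g hg => ?_⟩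
  · have := M.not_dvd_index
    rw [← (M : Subgroup G).card_mul_index, h9] at k
    exact this (Nat.dvd_of_mul_dvd_mul_left (by norm_num : 0 < 9) k)
  · obtain ⟨v, rfl⟩ := (h.mem m).1 hm
    rw [Crd.it hCm, z1, h.neg]
  · obtain ⟨v, rfl⟩ := (h.mem m).1 hm
    rcases ct v (h.inj (by rw [← hT, e, mul_inv_cancel_right])) with rfl | rfl | rfl
    · exact h.zero ▸ one_mem _
    · exact mem_zpowers _
    · exact h.add y y ▸ mul_mem (mem_zpowers _) (mem_zpowers _)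
  · have xN := hcN _ yM y1 (mem_centralizer_singleton_iff.2 e)
    obtain ⟨X, hX⟩ := h.mat (nm xN)
    refine (cy X (h.inj (by rw [← hX, e, mul_inv_cancel_right])) fun v k => h.inj ?_).imp
      (fun k => three x xN (cM _ (h.cent (Crd.it hX 3) k))) fun k => three _ (mul_mem xN tN) (cM _ (h.cent
        (Crd.it (f := ap X ∘ ap T) (fun v => by rw [Function.comp, ← hX, ← hT]; group) 3) k))
    have := hX v
    rw [k, h.zero, mul_inv_eq_one, mul_eq_left] at this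
    rw [this, h.zero]
  · obtain ⟨a, ha⟩ := CL.Grp.exists_conj_le_sylow M (U := zpowers g)
      (IsPGroup.of_card (n := 1) (by rw [Nat.card_zpowers, hg, pow_one]))
    obtain ⟨i, e⟩ := reg _ (ha (CL.Grp.conj_mem_conj_smul a (mem_zpowers g))) fun k => by
      rw [mul_inv_eq_one, mul_eq_left] at k
      rw [k, orderOf_one] at hg
      omega
    refine ⟨(c ^ i)⁻¹ * a, ?_⟩
    rw [mul_inv_rev, inv_inv, mul_assoc, mul_assoc, ← mul_assoc g, ← mul_assoc a, ← mul_assoc a, ← e]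
    group

end CL.L11
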