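/-
Project L11 (helper98): a central extension of `A₅` or `L₂(7)` by `Z₂` with a non-central involution splits.
-/
import Cfsg.Agent.L11.Defs
import Cfsg.Agent.S0206
import Cfsg.Agent.Cls.SmallIso
import Cfsg.Agent.Cls.SL2Quat
import Cfsg.Agent.Grp.Gaschutz

set_option autoImplicit false
open Subgroup

namespace CL.L11

universe u

namespace SPLx

open scoped MatrixGroups

/-- one class of involutions and a dihedral subgroup of odd index -/
def Gd (L : Type*) [Group L] : Prop := (∀ a b : L, orderOf a = 2 → orderOf b = 2 → IsConj a b) ∧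
  ∃ (u v : L) (k : ℕ), orderOf u = 2 ∧ orderOf v = 2 ∧ orderOf ((u * v) ^ 2 ^ k) = 2 ∧
    ¬ 2 ∣ (closure ({u, v} : Set L)).index

theorem ord_pow {G : Type*} [Group G] {s : G} {k : ℕ} (h : orderOf (s ^ 2 ^ k) = 2) : orderOf s = 2 ^ (k + 1) :=
  orderOf_eq_prime_pow (fun e => by rw [e, orderOf_one] at h; exact absurd h (by decide))
    (by have := pow_orderOf_eq_one (s ^ 2 ^ k); rwa [h, ← pow_mul, ← pow_succ] at this)

theorem card_cl {G : Type*} [Group G] [Finite G] {x y : G} {k : ℕ} (hx : orderOf x = 2) (hy : orderOf y = 2)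
    (h : orderOf ((x * y) ^ 2 ^ k) = 2) : Nat.card (closure ({x, y} : Set G)) = 2 * 2 ^ (k + 1) := by
  have ne : x ≠ y := fun e => by
    have := pow_orderOf_eq_one y
    rw [hy, pow_two] at this
    rw [e, this, one_pow, orderOf_one] at h
    exact absurd h (by decide)
  obtain ⟨e⟩ := Cfsg.Agent.S0206.result x y hx hy ne
  rw [Nat.card_congr e.toEquiv, DihedralGroup.nat_card, ord_pow h]

theorem split {C L : Type*} [Group C] [Finite C] [Group L] (φ : C →* L) {t z : C} (g : Gd L)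
    (hs : Function.Surjective φ) (hk : ∀ x, φ x = 1 ↔ (x = 1 ∨ x = t)) (ht : orderOf t = 2) (zz : z * z = 1)
    (z1 : φ z ≠ 1) : Nonempty (C ≃* Multiplicative (ZMod 2) × L) := by
  have : Finite L := Finite.of_surjective φ hs
  obtain ⟨cj, u, v, k, hu, hv, huv, odd⟩ := g
  have tt : t * t = 1 := by have := pow_orderOf_eq_one t; rwa [ht, pow_two] at this
  have t1 : t ≠ 1 := fun e => by rw [e, orderOf_one] at ht; exact absurd ht (by decide)
  have ft : φ t = 1 := (hk t).2 (.inr rfl)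
  have cen : ∀ c : C, Commute c t := fun c => by
    rcases (hk (c * t * c⁻¹)).1 (by simp [ft]) with e | e
    · exact absurd (by simpa using e) t1
    · exact mul_inv_eq_iff_eq_mul.1 e
  have hK : φ.ker = zpowers t := le_antisymm
    (fun x hx => ((hk x).1 hx).elim (fun e => e ▸ one_mem _) fun e => e ▸ mem_zpowers t) (zpowers_le.2 ft)
  have cK : Nat.card φ.ker = 2 := by rw [hK, Nat.card_zpowers, ht]
  have oz : orderOf (φ z) = 2 := orderOf_eq_prime (by rw [pow_two, ← map_mul, zz, map_one]) z1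
  have inv : ∀ w, orderOf (φ w) = 2 → orderOf w = 2 := fun w hw => by
    refine orderOf_eq_prime ?_ fun e => by rw [e, map_one, orderOf_one] at hw; exact absurd hw (by decide)
    obtain ⟨c, hc⟩ := isConj_iff.1 (cj _ _ oz hw)
    obtain ⟨c, rfl⟩ := hs c
    have s : c * z * c⁻¹ * (c * z * c⁻¹) = 1 := by rw [conj_mul, zz]; group
    rcases (hk ((c * z * c⁻¹)⁻¹ * w)).1 (by rw [map_mul, map_inv, map_mul, map_mul, map_inv, hc, inv_mul_cancel])
      with e | e
    · rw [← inv_mul_eq_one.1 e, pow_two, s]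
    · rw [inv_mul_eq_iff_eq_mul.1 e, (cen _).mul_pow, pow_two, pow_two, s, tt, mul_one]
  obtain ⟨x, rfl⟩ := hs u
  obtain ⟨y, rfl⟩ := hs v
  have mA : (closure ({x, y} : Set C)).map φ = closure {φ x, φ y} := by rw [MonoidHom.map_closure, Set.image_pair]
  have bij := (Nat.bijective_iff_surjective_and_card _).2 ⟨φ.subgroupMap_surjective (closure ({x, y} : Set C)), by
    rw [mA, card_cl hu hv huv, card_cl (inv x hu) (inv y hv) (inv _ (by rwa [map_pow, map_mul]))]⟩
  have hAK : closure ({x, y} : Set C) ⊓ φ.ker = ⊥ := (eq_bot_iff_forall _).2 fun w hw =>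
    congrArg Subtype.val ((injective_iff_map_eq_one _).1 bij.1 ⟨w, hw.1⟩ (Subtype.ext hw.2))
  have : IsMulCommutative φ.ker := by rw [hK]; infer_instance
  obtain ⟨H, hH⟩ := CL.Grp.gaschutz_exists φ.ker ((closure {φ x, φ y}).comap φ)
    (by rw [cK, index_comap_of_surjective _ hs]; exact (Nat.Prime.coprime_iff_not_dvd Nat.prime_two).2 odd)
    (closure {x, y}) hAK (by rw [← mA, comap_map_eq, sup_comm])
  have iH : H.index = 2 := hH.index_eq_card.trans cK
  have : H.Normal := normal_of_index_eq_two iH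
  let e : C ⧸ H ≃* Multiplicative (ZMod 2) := mulEquivOfPrimeCardEq (p := 2) iH (by simp)
  refine ⟨MulEquiv.ofBijective ((e.toMonoidHom.comp (QuotientGroup.mk' H)).prod φ)
    ((Nat.bijective_iff_injective_and_card _).2 ⟨(injective_iff_map_eq_one _).2 fun w hw => ?_, ?_⟩)⟩
  · have h1 : e (w : C ⧸ H) = 1 := congrArg Prod.fst hw
    have h2 : φ w = 1 := congrArg Prod.snd hw
    rw [map_eq_one_iff _ e.injective, QuotientGroup.eq_one_iff] at h1
    exact disjoint_def.1 hH.disjoint h2 h1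
  · rw [← φ.ker.card_mul_index, cK, index_ker, MonoidHom.range_eq_top.2 hs, card_top, Nat.card_prod]
    simp

theorem gd_psl {F : Type*} [Field F] [Fintype F] (h2 : (2 : F) ≠ 0) (a b : SL(2, F)) (k n : ℕ) (ha : a * a = -1)
    (hb : b * b = -1) (hab : (a * b) ^ 2 ^ k * (a * b) ^ 2 ^ k = -1)
    (hn : Fintype.card F * (Fintype.card F ^ 2 - 1) = 2 * 2 ^ (k + 1) * n * 2) (odd : ¬ 2 ∣ n) : Gd PSL(2, F) := by
  have o : ∀ g : SL(2, F), g * g = -1 → orderOf (g : PSL(2, F)) = 2 := fun g hg =>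
    orderOf_eq_prime (CL.SL2.psl_pow_eq_one_iff.2 (.inr (by rw [pow_two, hg]))) fun e => by
      refine CL.SL2.ne_neg_self_sl h2 1 (Eq.trans ?_ hg)
      rcases CL.SL2.psl_mk_eq_one_iff.1 e with rfl | rfl <;> simp
  have o3 : orderOf (((a : PSL(2, F)) * b) ^ 2 ^ k) = 2 := o _ hab
  refine ⟨fun _ _ => CL.SL2.psl_isConj_of_orderOf_two h2, a, b, k, o a ha, o b hb, o3, ?_⟩
  have h1 := CL.SL2.card_psl_mul (F := F)
  rw [← (closure ({(a : PSL(2, F)), (b : PSL(2, F))} : Set PSL(2, F))).card_mul_index, card_cl (o a ha) (o b hb) o3,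
    CL.SL2.gcd_two_of_ne h2, hn] at h1
  rwa [Nat.eq_of_mul_eq_mul_left (by positivity) (Nat.eq_of_mul_eq_mul_right two_pos h1)]

instance : Fact (Nat.Prime 5) := ⟨by norm_num⟩
instance : Fact (Nat.Prime 7) := ⟨by norm_num⟩

theorem gd5 : Gd PSL(2, ZMod 5) :=
  gd_psl (by decide) ⟨!![0, 1; 4, 0], by decide⟩ ⟨!![2, 0; 0, 3], by decide⟩ 0 15 (by decide) (by decide) (by decide)
    (by simp) (by decide)

theorem gd7 : Gd PSL(2, ZMod 7) :=
  gd_psl (by decide) ⟨!![0, 1; 6, 0], by decide⟩ ⟨!![3, 1; 4, 4], by decide⟩ 1 21 (by decide) (by decide) (by decide)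
    (by simp) (by decide)

end SPLx

open SPLx

theorem splThm : SplThm.{u} := fun C _ _ L _ φ t z hL hs hk ht zz z1 => by
  have key : ∀ (M : Type) [Group M], Gd M → Nonempty (L ≃* M) → Nonempty (C ≃* Multiplicative (ZMod 2) × L) :=
    fun M _ g ⟨e⟩ => by
      obtain ⟨f⟩ := split (e.toMonoidHom.comp φ) g (e.surjective.comp hs)
        (fun x => (map_eq_one_iff _ e.injective).trans (hk x)) ht zz fun h => z1 ((map_eq_one_iff _ e.injective).1 h)
      exact ⟨f.trans ((MulEquiv.refl _).prodCongr e.symm)⟩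
  rcases hL with ⟨⟨e⟩⟩ | h
  · obtain ⟨f⟩ := CL.Cls.nonempty_PSL2_five (F := ZMod 5) (by simp)
    exact key _ gd5 ⟨e.trans f.symm⟩
  · exact key _ gd7 h

end CL.L11
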