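/-
Project L11 (S3717): the structure of `O₂(C(t))` in the case `C(t) = Q . A₅`.
-/
import Cfsg.Agent.L11.Defs

set_option autoImplicit false
open Subgroup

namespace CL.L11

universe u

namespace Str

variable {G : Type*} [Group G] [Finite G]

theorem ncard_pre (K : Subgroup G) (a : G) :
    ({w | a * w ∈ K} : Set G).ncard = Nat.card K := by
  have h : ({w | a * w ∈ K} : Set G) = (fun x => a⁻¹ * x) '' (K : Set G) := by
    ext w
    constructor
    · intro hw
      exact ⟨a * w, hw, by simp⟩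
    · rintro ⟨x, hx, rfl⟩
      simpa using hx
  rw [h, Set.ncard_image_of_injective _ (mul_right_injective a⁻¹), ← Nat.card_coe_set_eq]
  rfl

theorem ex4 (K Q : Subgroup G) (h : 4 * Nat.card K < Nat.card Q) (a b c d : G) :
    ∃ w ∈ Q, a * w ∉ K ∧ b * w ∉ K ∧ c * w ∉ K ∧ d * w ∉ K := by
  by_contra hn
  have hs : (Q : Set G) ⊆ (({w | a * w ∈ K} ∪ {w | b * w ∈ K}) ∪ {w | c * w ∈ K}) ∪
      {w | d * w ∈ K} := by
    intro w hw
    by_contra hw'
    apply hn
    refine ⟨w, hw, fun h1 => hw' ?_, fun h1 => hw' ?_, fun h1 => hw' ?_, fun h1 => hw' ?_⟩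
    · exact Or.inl (Or.inl (Or.inl h1))
    · exact Or.inl (Or.inl (Or.inr h1))
    · exact Or.inl (Or.inr h1)
    · exact Or.inr h1
  have h1 := Set.ncard_le_ncard hs (Set.toFinite _)
  have h2 := Set.ncard_union_le (({w | a * w ∈ K} ∪ {w | b * w ∈ K}) ∪ {w | c * w ∈ K} : Set G)
    {w | d * w ∈ K}
  have h3 := Set.ncard_union_le ({w | a * w ∈ K} ∪ {w | b * w ∈ K} : Set G) {w | c * w ∈ K}
  have h4 := Set.ncard_union_le ({w | a * w ∈ K} : Set G) {w | b * w ∈ K}
  rw [ncard_pre] at h2 h3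
  rw [ncard_pre, ncard_pre] at h4
  have h5 : (Q : Set G).ncard = Nat.card Q := by rw [← Nat.card_coe_set_eq]; rfl
  omega

/-- the data used -/
structure D (Q : Subgroup G) (t : G) : Prop where
  pg : IsPGroup 2 Q
  tQ : t ∈ Q
  tt : t * t = 1
  t1 : t ≠ 1
  cen : ∀ q ∈ Q, q * t = t * q
  sq : ∀ q ∈ Q, q * q = 1 ∨ q * q = t
  com : ∀ p ∈ Q, ∀ q ∈ Q, p * q = q * p ∨ p * q = q * p * t
  inv : ∀ g, g * t = t * g → ∀ x ∈ Q, g * x * g⁻¹ ∈ Q
  cnt : ∀ X : Set G, (∀ q ∈ X, q ∈ Q ∧ q ≠ 1 ∧ q ≠ t) →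
    (∀ q ∈ X, ∀ h, h * t = t * h → h * q * h⁻¹ ∈ X) → 15 ∣ Nat.card X

variable {Q : Subgroup G} {t : G}

omit [Finite G] in
theorem conj_t {g : G} (hg : g * t = t * g) : g * t * g⁻¹ = t := by rw [hg]; group

theorem size (h : D Q t) (U : Subgroup G) (hU : U ≤ Q) (ht : t ∈ U)
    (hi : ∀ g, g * t = t * g → ∀ x ∈ U, g * x * g⁻¹ ∈ U) :
    Nat.card U = 2 ∨ Nat.card U = 32 ∨ 512 ≤ Nat.card U := by
  have h15 := h.cnt ((U : Set G) \ {1, t}) (by
    intro q hq
    refine ⟨hU hq.1, fun e => hq.2 (Or.inl e), fun e => hq.2 (Or.inr e)⟩) (by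
    intro q hq g hg
    refine ⟨hi g hg q hq.1, ?_⟩
    rintro (e | e)
    · apply hq.2
      left
      calc q = g⁻¹ * (g * q * g⁻¹) * g := by group
        _ = 1 := by rw [e]; group
    · apply hq.2
      right
      have e' : g * q * g⁻¹ = g * t * g⁻¹ := by rw [conj_t hg]; exact e
      exact mul_left_cancel (mul_right_cancel e'))
  have hsub : ({1, t} : Set G) ⊆ (U : Set G) := by
    rintro x (rfl | rfl)
    · exact U.one_mem
    · exact ht
  have h2 : ({1, t} : Set G).ncard = 2 := Set.ncard_pair h.t1.symm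
  have h5 : (U : Set G).ncard = Nat.card U := by rw [← Nat.card_coe_set_eq]; rfl
  have hle := Set.ncard_le_ncard hsub (Set.toFinite _)
  rw [Nat.card_coe_set_eq, Set.ncard_diff hsub (Set.toFinite _), h2, h5] at h15
  rw [h2, h5] at hle
  obtain ⟨j, hj⟩ := IsPGroup.iff_card.mp (h.pg.to_le hU)
  rw [hj] at h15 hle ⊢
  by_cases hj9 : 9 ≤ j
  · right; right
    calc 512 = 2 ^ 9 := by norm_num
      _ ≤ 2 ^ j := Nat.pow_le_pow_right (by norm_num) hj9
  · have : j ≤ 8 := by omega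
    interval_cases j <;> omega

theorem lemB (h : D Q t) (Z : Subgroup G) (hc : 4 * Nat.card Z < Nat.card Q)
    (hs : ∀ q ∈ Q, q ∉ Z → q * q = t) : False := by
  have anti : ∀ p ∈ Q, ∀ q ∈ Q, p ∉ Z → q ∉ Z → p * q ∉ Z → p * q = q * p * t := by
    intro p hp q hq hp' hq' hpq
    rcases h.com p hp q hq with e | e
    · exfalso
      apply h.t1
      calc t = p * q * (p * q) := (hs _ (Q.mul_mem hp hq) hpq).symm
        _ = p * (q * p) * q := by group
        _ = (p * p) * (q * q) := by rw [← e]; group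
        _ = 1 := by rw [hs p hp hp', hs q hq hq', h.tt]
    · exact e
  obtain ⟨u, hu, hu1, -⟩ := ex4 Z Q hc 1 1 1 1
  obtain ⟨v, hv, hv1, hv2, -⟩ := ex4 Z Q hc 1 u 1 1
  obtain ⟨w, hw, hw1, hw2, hw3, hw4⟩ := ex4 Z Q hc 1 u v (u * v)
  rw [one_mul] at hu1 hv1 hw1
  have e1 := anti u hu v hv hu1 hv1 hv2
  have e2 := anti u hu w hw hu1 hw1 hw2
  have e3 := anti u hu (v * w) (Q.mul_mem hv hw) hu1 hw3 (by rwa [← mul_assoc])
  have e4 : u * (v * w) = v * w * u := by
    calc u * (v * w) = (u * v) * w := by group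
      _ = v * u * (t * w) := by rw [e1]; group
      _ = v * (u * w) * t := by rw [← h.cen w hw]; group
      _ = v * w * u * (t * t) := by rw [e2]; group
      _ = v * w * u := by rw [h.tt, mul_one]
  rw [e4] at e3
  exact h.t1 (left_eq_mul.mp e3)

theorem lemC (h : D Q t) (Z : Subgroup G) (hZ : Z ≤ Q) (hcen : ∀ x ∈ Z, ∀ q ∈ Q, q * x = x * q)
    (he : ∀ x ∈ Z, x * x = 1) (hc : Nat.card Q = 16 * Nat.card Z) : ∀ q ∈ Q, q * q = 1 := by
  set S : Set G := {q | q ∈ Q ∧ q * q = t} with hS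
  have h15 : 15 ∣ Nat.card S := h.cnt S (by
    rintro q ⟨hq, hq2⟩
    refine ⟨hq, ?_, ?_⟩
    · rintro rfl
      exact h.t1 (by rw [← hq2, one_mul])
    · rintro rfl
      exact h.t1 (by rw [← hq2, h.tt])) (by
    rintro q ⟨hq, hq2⟩ g hg
    refine ⟨h.inv g hg q hq, ?_⟩
    calc g * q * g⁻¹ * (g * q * g⁻¹) = g * (q * q) * g⁻¹ := by group
      _ = t := by rw [hq2, conj_t hg])
  have hpre : S = (QuotientGroup.mk : G → G ⧸ Z) ⁻¹' (QuotientGroup.mk '' S) := by
    apply Set.Subset.antisymm (Set.subset_preimage_image _ _)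
    rintro x ⟨s, ⟨hs, hs2⟩, hsx⟩
    have hz : s⁻¹ * x ∈ Z := QuotientGroup.eq.mp hsx
    have hx : x = s * (s⁻¹ * x) := by group
    generalize s⁻¹ * x = k at hz hx
    subst hx
    refine ⟨Q.mul_mem hs (hZ hz), ?_⟩
    calc s * k * (s * k) = s * (k * s) * k := by group
      _ = (s * s) * (k * k) := by rw [← hcen k hz s hs]; group
      _ = t := by rw [hs2, he k hz, mul_one]
  have hd : Nat.card Z ∣ Nat.card S := by
    rw [hpre, QuotientGroup.card_preimage_mk]
    exact Dvd.intro _ rfl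
  obtain ⟨j, hj⟩ := IsPGroup.iff_card.mp (h.pg.to_le hZ)
  have hcop : Nat.Coprime 15 (Nat.card Z) := by
    rw [hj]
    exact Nat.Coprime.pow_right _ (by norm_num)
  have hdd : 15 * Nat.card Z ∣ Nat.card S := hcop.mul_dvd_of_dvd_of_dvd h15 hd
  have hsub : S ⊆ (Q : Set G) \ Z := by
    rintro q ⟨hq, hq2⟩
    exact ⟨hq, fun hz => h.t1 (by rw [← hq2, he q hz])⟩
  have h5 : (Q : Set G).ncard = Nat.card Q := by rw [← Nat.card_coe_set_eq]; rfl
  have h6 : (Z : Set G).ncard = Nat.card Z := by rw [← Nat.card_coe_set_eq]; rfl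
  have hdiff : ((Q : Set G) \ Z).ncard = 15 * Nat.card Z := by
    rw [Set.ncard_diff (show (Z : Set G) ⊆ Q from hZ) (Set.toFinite _), h5, h6]
    omega
  rw [Nat.card_coe_set_eq] at hdd
  have hpos : 0 < Nat.card Z := Nat.card_pos
  by_cases h0 : S.ncard = 0
  · intro q hq
    rcases h.sq q hq with e | e
    · exact e
    · exfalso
      have : S = ∅ := (Set.ncard_eq_zero (Set.toFinite _)).mp h0
      have hq' : q ∈ S := ⟨hq, e⟩
      rw [this] at hq'
      exact hq'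
  · exfalso
    have hge := Nat.le_of_dvd (Nat.pos_of_ne_zero h0) hdd
    have heq : S = (Q : Set G) \ Z :=
      Set.eq_of_subset_of_ncard_le hsub (by omega) (Set.toFinite _)
    refine lemB h Z (by omega) fun q hq hq' => ?_
    have : q ∈ S := by rw [heq]; exact ⟨hq, hq'⟩
    exact this.2

theorem big (h : D Q t) (hc : Nat.card Q = 512) (hn : ∃ p ∈ Q, ∃ q ∈ Q, p * q ≠ q * p) :
    Nat.card ↥(Q ⊓ centralizer (Q : Set G)) < 8 := by
  obtain ⟨p, hp, q, hq, hpq⟩ := hn
  by_contra h8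
  set Z := Q ⊓ centralizer (Q : Set G) with hZ
  have hcen : ∀ x ∈ Z, ∀ r ∈ Q, r * x = x * r := fun x hx r hr =>
    mem_centralizer_iff.mp hx.2 r hr
  have htZ : t ∈ Z := ⟨h.tQ, mem_centralizer_iff.mpr fun r hr => h.cen r hr⟩
  have hiZ : ∀ g, g * t = t * g → ∀ x ∈ Z, g * x * g⁻¹ ∈ Z := by
    intro g hg x hx
    refine ⟨h.inv g hg x hx.1, mem_centralizer_iff.mpr fun r hr => ?_⟩
    have hg' : g⁻¹ * t = t * g⁻¹ := (Commute.inv_left hg).eq
    have h1 := hcen x hx _ (h.inv g⁻¹ hg' r hr)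
    calc r * (g * x * g⁻¹) = g * (g⁻¹ * r * g⁻¹⁻¹ * x) * g⁻¹ := by group
      _ = g * x * g⁻¹ * r := by rw [h1]; group
  have hZ32 : Nat.card Z = 32 := by
    rcases size h Z inf_le_left htZ hiZ with e | e | e
    · omega
    · exact e
    · exfalso
      have : Z = Q := Subgroup.eq_of_le_of_card_ge inf_le_left (by omega)
      exact hpq (hcen q (this ▸ hq) p hp)
  let K : Subgroup G :=
    { carrier := {x | x ∈ Z ∧ x * x = 1}
      one_mem' := ⟨Z.one_mem, one_mul 1⟩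
      mul_mem' := by
        rintro a b ⟨ha, ha2⟩ ⟨hb, hb2⟩
        refine ⟨Z.mul_mem ha hb, ?_⟩
        calc a * b * (a * b) = a * (b * a) * b := by group
          _ = (a * a) * (b * b) := by rw [hcen a ha b hb.1]; group
          _ = 1 := by rw [ha2, hb2, one_mul]
      inv_mem' := by
        rintro a ⟨ha, ha2⟩
        exact ⟨Z.inv_mem ha, by rw [← mul_inv_rev, ha2, inv_one]⟩ }
  have hKZ : K ≤ Z := fun x hx => hx.1
  have hK : K = Z := by
    have hle : Nat.card K ≤ Nat.card Z := Subgroup.card_le_of_le hKZ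
    rcases size h K (hKZ.trans inf_le_left) ⟨htZ, h.tt⟩ (by
      rintro g hg x ⟨hx, hx2⟩
      refine ⟨hiZ g hg x hx, ?_⟩
      calc g * x * g⁻¹ * (g * x * g⁻¹) = g * (x * x) * g⁻¹ := by group
        _ = 1 := by rw [hx2]; group) with e | e | e
    · exfalso
      obtain ⟨s, hs, hs1, -⟩ := ex4 K Z (by omega) 1 1 1 1
      obtain ⟨w, hw, hw1, hw2, -⟩ := ex4 K Z (by omega) 1 s 1 1
      rw [one_mul] at hs1 hw1
      have hs2 : s * s = t := (h.sq s hs.1).resolve_left fun e => hs1 ⟨hs, e⟩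
      have hw3 : w * w = t := (h.sq w hw.1).resolve_left fun e => hw1 ⟨hw, e⟩
      refine hw2 ⟨Z.mul_mem hs hw, ?_⟩
      calc s * w * (s * w) = s * (w * s) * w := by group
        _ = (s * s) * (w * w) := by rw [hcen s hs w hw.1]; group
        _ = 1 := by rw [hs2, hw3, h.tt]
    · exact Subgroup.eq_of_le_of_card_ge hKZ (by omega)
    · omega
  have he : ∀ x ∈ Z, x * x = 1 := fun x hx => by
    have : x ∈ K := hK ▸ hx
    exact this.2
  have hall := lemC h Z inf_le_left hcen he (by omega)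
  apply hpq
  calc p * q = (p * q)⁻¹ := (inv_eq_of_mul_eq_one_right (hall _ (Q.mul_mem hp hq))).symm
    _ = q * p := by
      rw [mul_inv_rev, inv_eq_of_mul_eq_one_right (hall p hp), inv_eq_of_mul_eq_one_right (hall q hq)]

end Str

theorem strThm (hB : BasThm.{u}) (hC : CntThm.{u}) : StrThm.{u} := by
  intro G _ _ M y t c z d h hA
  classical
  obtain ⟨b1, b2, -, b4, b5, -, -⟩ := hB G t
  have t1 : t ≠ 1 := by
    rintro rfl
    have := h.t2
    rw [orderOf_one] at this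
    omega
  have hD : Str.D (O2C t) t :=
    ⟨b1, b5 h.tt, h.tt, t1, b2, hA.2.1, hA.2.2.1, b4, hC G M y t c z d h hA⟩
  refine ⟨?_, fun h32 => ?_, Str.big hD⟩
  · rcases Str.size hD (O2C t) le_rfl hD.tQ hD.inv with e | e
    · exfalso
      obtain ⟨q, hq, hq1, hqt⟩ := hA.2.2.2
      have hz : zpowers t = O2C t :=
        Subgroup.eq_of_le_of_card_ge (zpowers_le.mpr hD.tQ) (by rw [Nat.card_zpowers, h.t2, e])
      rw [← hz] at hq
      replace hq := mem_zpowers_iff_mem_range_orderOf.mp hq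
      rw [h.t2] at hq
      simp only [Finset.mem_image, Finset.mem_range] at hq
      obtain ⟨i, hi, rfl⟩ := hq
      interval_cases i
      · exact hq1 (pow_zero t)
      · exact hqt (pow_one t)
    · exact e
  · refine Str.lemC hD (zpowers t) (zpowers_le.mpr hD.tQ) ?_ ?_ (by rw [Nat.card_zpowers, h.t2, h32])
    · rintro x ⟨n, rfl⟩ q hq
      exact (Commute.zpow_right (hD.cen q hq) n).eq
    · rintro x ⟨n, rfl⟩
      have : Commute t t := Commute.refl t
      show t ^ n * t ^ n = 1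
      rw [← this.mul_zpow, h.tt, one_zpow]

end CL.L11
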