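/-
Extraspecial 2-groups are of symplectic type.
-/
import Cfsg.Agent.L11.Defs
import Cfsg.Agent.Grp.PGroupCyc

set_option autoImplicit false
open Subgroup

namespace CL.L11

theorem symp_of_extra {Q : Type*} [Group Q] [Finite Q] (hE : Cfsg.IsExtraspecial 2 Q) :
    Cfsg.IsOfSymplecticType Q := by
  classical
  have : Fact (Nat.Prime 2) := ⟨Nat.prime_two⟩
  obtain ⟨⟨hp, hfr, hcm⟩, hZ⟩ := hE
  obtain ⟨t, ht1, htu⟩ := (Nat.card_eq_two_iff' (1 : center Q)).1 hZ
  have hz : ∀ x ∈ center Q, x = 1 ∨ x = (t : Q) := fun x hx => by
    by_cases h : x = 1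
    · exact Or.inl h
    · exact Or.inr (congrArg Subtype.val (htu ⟨x, hx⟩ fun e => h (congrArg Subtype.val e)))
  have tc : ∀ x : Q, x * t = t * x := fun x => mem_center_iff.1 t.2 x
  have t1 : (t : Q) ≠ 1 := fun e => ht1 (Subtype.ext e)
  have tt : (t : Q) * t = 1 := by
    rcases hz _ (mul_mem t.2 t.2) with h | h
    · exact h
    · exact absurd (mul_eq_left.1 h) t1
  have sq : ∀ x : Q, x * x = 1 ∨ x * x = t := fun x =>
    hz _ (hfr ▸ (pow_two x ▸ CL.Grp.pow_mem_frattini hp x))
  have cm : ∀ x y : Q, x * y ≠ y * x → x * y = y * x * t := fun x y h => by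
    have h1 : x * y * x⁻¹ * y⁻¹ ∈ center Q := by
      rw [← hcm]
      exact commutator_mem_commutator (mem_top x) (mem_top y)
    rcases hz _ h1 with h2 | h2
    · exact absurd (by rw [← mul_inv_eq_one, mul_inv_rev, ← mul_assoc]; exact h2) h
    · calc x * y = (x * y * x⁻¹ * y⁻¹) * (y * x) := by group
        _ = y * x * t := by rw [h2, ← tc]
  refine ⟨hp, fun A hA hc => ?_⟩
  have key : ∀ a ∈ A, ∀ u : Q, u * u = t → a * u = u * a := by
    intro a ha u hu
    by_contra hau
    let f : Q →* Q := MonoidHom.mk' (fun x => if x * u = u * x then x else x * u) (by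
      intro x y
      by_cases hx : x * u = u * x <;> by_cases hy : y * u = u * y
      · have : x * y * u = u * (x * y) := by rw [mul_assoc, hy, ← mul_assoc, hx, mul_assoc]
        simp only [hx, hy, this, if_true]
      · have : ¬ x * y * u = u * (x * y) := fun e => hy (by
          rw [← mul_assoc, ← hx, mul_assoc, mul_assoc] at e
          exact mul_left_cancel e)
        rw [if_neg this, if_pos hx, if_neg hy, mul_assoc]
      · have : ¬ x * y * u = u * (x * y) := fun e => hx (by
          rw [mul_assoc, hy, ← mul_assoc, ← mul_assoc] at e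
          exact mul_right_cancel e)
        rw [if_neg this, if_neg hx, if_pos hy, mul_assoc, hy, mul_assoc]
      · have h1 := cm x u hx
        have h2 := cm y u hy
        have : x * y * u = u * (x * y) := by
          calc x * y * u = x * (u * y * t) := by rw [mul_assoc, h2]
            _ = (x * u) * y * t := by group
            _ = u * x * (t * y) * t := by rw [h1]; group
            _ = u * x * y * (t * t) := by rw [← tc y]; group
            _ = u * (x * y) := by rw [tt]; group
        rw [if_pos this, if_neg hx, if_neg hy]
        calc x * y = x * y * (t * t) := by rw [tt, mul_one]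
          _ = x * (y * (u * u)) * t := by rw [hu]; group
          _ = x * ((y * u) * u) * t := by group
          _ = x * (u * y * (t * u)) * t := by rw [h2]; group
          _ = x * u * (y * u) * (t * t) := by rw [← tc u]; group
          _ = x * u * (y * u) := by rw [tt, mul_one])
    have hf : Function.Injective f := (injective_iff_map_eq_one f).2 fun x hx => by
      by_cases h : x * u = u * x
      · simpa [f, h] using hx
      · exfalso
        have h1 : x * u = 1 := by simpa [f, h] using hx
        exact h (by rw [h1, eq_inv_of_mul_eq_one_left h1, mul_inv_cancel])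
    let e : Q ≃* Q := MulEquiv.ofBijective f (Finite.injective_iff_bijective.1 hf)
    have h1 : e a ∈ A := characteristic_iff_map_le.1 hA e ⟨a, ha, rfl⟩
    have h2 : e a = a * u := by simp [e, f, hau]
    rw [h2] at h1
    have h3 : u ∈ A := (mul_mem_cancel_left ha).1 h1
    exact hau (congrArg Subtype.val (hc.is_comm.comm ⟨a, ha⟩ ⟨u, h3⟩))
  have inv : ∀ a ∈ A, a * a = 1 → a ∈ center Q := by
    intro a ha h2
    rw [mem_center_iff]
    intro b
    by_contra hb
    have hb' : a * b ≠ b * a := fun e => hb e.symm
    rcases sq b with h | h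
    · have h1 := cm a b hb'
      have h3 : a * b * (a * b) = t := by
        calc a * b * (a * b) = b * a * t * (a * b) := by rw [h1]
          _ = b * a * (t * a) * b := by group
          _ = b * (a * a) * (t * b) := by rw [← tc a]; group
          _ = t := by rw [h2, ← tc b, mul_one, ← mul_assoc, h, one_mul]
      have h4 := key a ha _ h3
      rw [mul_assoc] at h4
      exact hb' (mul_left_cancel h4)
    · exact hb' (key a ha b h)
  by_contra hnc
  have h1 := CL.Grp.sq_le_card_omegaOne_of_not_isCyclic (hp.to_subgroup A) hc hnc
  have h2 : Cfsg.omegaOne 2 A ≤ center Q :=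
    (closure_le _).2 fun x hx => inv x hx.1 (pow_two x ▸ hx.2)
  have := card_le_of_le h2
  omega

end CL.L11
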