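/-
Project L11: the case `C(t) = Q . A₅`, first consequences.
-/
import Cfsg.Agent.L11.Defs

set_option autoImplicit false
open Subgroup

namespace CL.L11

universe u

namespace TA0J

theorem a5 : ∀ s : alternatingGroup (Fin 5), s * s = 1 → s ≠ 1 → ∀ x, x * s = s * x → x * x = 1 := by
  decide +kernel

theorem le4 (H : Subgroup (alternatingGroup (Fin 5))) (h : ∀ x ∈ H, x * x = 1) : Nat.card H ≤ 4 := by
  obtain ⟨k, hk⟩ := IsPGroup.iff_card.1 (show IsPGroup 2 H from fun x => ⟨1, Subtype.ext (by simpa [sq] using h x x.2)⟩)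
  have h1 := card_subgroup_dvd_card H
  have h2 := nat_card_alternatingGroup (α := Fin 5)
  rw [h2, hk] at h1
  rw [hk]
  by_contra h3
  have h4 : 3 ≤ k := by
    by_contra h5
    exact h3 (Nat.pow_le_pow_right (by norm_num) (show k ≤ 2 by omega))
  exact absurd ((pow_dvd_pow 2 h4).trans h1) (by simp [Nat.factorial])

variable {G : Type u} [Group G]

theorem nflip {Q : Subgroup G} {t y z q : G} (h : TriZ Q t y z) (sq : ∀ q ∈ Q, q * q = 1) (hq : q ∈ Q)
    (hn : nm y q = 1 ∨ nm y q = t) : z * q * z⁻¹ ≠ q * t := fun e => by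
  have y3 : y ^ 3 = 1 := h.y3 ▸ pow_orderOf_eq_one y
  have tt := sq t h.tQ
  have h1 := h.nor q hq
  have h2 : y ^ 2 * q * (y ^ 2)⁻¹ ∈ Q := by
    have := h.nor _ h1
    rwa [show y * (y * q * y⁻¹) * y⁻¹ = y ^ 2 * q * (y ^ 2)⁻¹ by rw [pow_two]; group] at this
  have cm : ∀ a ∈ Q, ∀ b ∈ Q, a * b = b * a := fun a ha b hb => by
    rw [← inv_eq_of_mul_eq_one_right (sq _ (mul_mem hb ha)), mul_inv_rev, inv_eq_of_mul_eq_one_right (sq a ha),
      inv_eq_of_mul_eq_one_right (sq b hb)]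
  have y2 : y⁻¹ = y ^ 2 := inv_eq_of_mul_eq_one_right (by rw [← pow_succ', y3])
  have k1 : y = z * y ^ 2 * z⁻¹ := by rw [← y2, ← conj_inv, h.zy, inv_inv]
  have k2 : y ^ 2 = z * y * z⁻¹ := by rw [h.zy, y2]
  have e1 : nm y (z * q * z⁻¹) = z * nm y q * z⁻¹ := by
    rw [nm, nm, mul_assoc q, cm _ h1 _ h2]
    calc _ = z * q * z⁻¹ * (z * y ^ 2 * z⁻¹ * (z * q * z⁻¹) * (z * y ^ 2 * z⁻¹)⁻¹) *
          (z * y * z⁻¹ * (z * q * z⁻¹) * (z * y * z⁻¹)⁻¹) := by rw [← k1, ← k2]
      _ = _ := by group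
  have c1 : y * t * y⁻¹ = t := by rw [← h.ty, mul_inv_cancel_right]
  have c2 : y ^ 2 * t * (y ^ 2)⁻¹ = t := by rw [← ((show Commute t y from h.ty).pow_right 2).eq, mul_inv_cancel_right]
  have e2 : nm y (q * t) = nm y q * t := by
    rw [nm, nm, ← conj_mul, ← conj_mul, c1, c2, mul_assoc q t, ← mul_assoc t, ← h.cen _ h1, mul_assoc _ t t, tt, mul_one,
      ← mul_assoc]
  have e3 : z * nm y q * z⁻¹ = nm y q := by
    rcases hn with k | k <;> rw [k]
    · simp
    · rw [h.zt, mul_inv_cancel_right]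
  rw [e, e2, e3] at e1
  have := h.t2
  rw [mul_eq_left.1 e1, orderOf_one] at this
  exact absurd this (by decide)

end TA0J

open TA0J in
theorem ta0Thm (hB : BasThm.{u}) (hF2 : F2Thm.{u}) (hN : NThm.{u}) (hFI : FIThm.{u}) (hS : StrThm.{u}) :
    TA0Thm.{u} := by
  intro G _ _ M y t c z d h hT
  obtain ⟨⟨φ, -, hφ⟩, -⟩ := id hT
  obtain ⟨-, -, -, -, tz, zQ, -⟩ := hF2 G M y t c z d h
  obtain ⟨s1, s2, -⟩ := hS G M y t c z d h hT
  set Q := O2C t
  set A := Q ⊓ centralizer ({z} : Set G) with hA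
  set B := centralizer ({t} : Set G) ⊓ centralizer ({z} : Set G)
  have AB : A ≤ B := inf_le_inf_right _ fun q hq => mem_centralizer_singleton_iff.2 (tz.cen q hq)
  let z' : centralizer ({t} : Set G) := ⟨z, mem_centralizer_singleton_iff.2 h.zt⟩
  let ψ : B →* alternatingGroup (Fin 5) := φ.comp (inclusion inf_le_left)
  have k1 : ∀ b : B, ψ b * ψ b = 1 := fun b => a5 (φ z') (by rw [← map_mul, show z' * z' = 1 from Subtype.ext h.zz, map_one])
    (fun e => zQ ((hφ z').1 e)) _ (by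
      rw [MonoidHom.comp_apply, ← map_mul, ← map_mul]
      exact congrArg φ (Subtype.ext (mem_centralizer_singleton_iff.1 b.2.2)))
  have k2 : ψ.ker = A.subgroupOf B := Subgroup.ext fun b => (hφ _).trans ⟨fun k => ⟨k, b.2.2⟩, fun k => k.1⟩
  have k3 : Nat.card B ≤ 4 * Nat.card A := by
    rw [← ψ.ker.index_mul_card, index_ker, k2, Nat.card_congr (subgroupOfEquivOfLe AB).toEquiv]
    exact Nat.mul_le_mul_right _ (le4 ψ.range (by rintro _ ⟨b, rfl⟩; exact k1 b))
  have k4 : Nat.card Q = 32 → Nat.card A = 8 := fun e => by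
    rcases (hFI G Q t y z tz).1 with k | ⟨-, q, hq, k⟩
    · rw [e] at k
      exact Nat.pow_left_injective two_ne_zero k
    · exact absurd k (nflip tz (s2 e) hq (hN G Q t y tz.toTri q hq).1)
  have k5 : 8 ≤ Nat.card A := by
    rcases s1 with e | e
    · exact (k4 e).ge
    · by_contra h1
      have h2 : Nat.card A ^ 2 ≤ 7 ^ 2 := Nat.pow_le_pow_left (by omega) 2
      rcases (hFI G Q t y z tz).1 with k | ⟨k, -⟩ <;> rw [← hA] at k <;> omega
  refine ⟨fun b => ?_, k3, k4, ?_⟩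
  · obtain ⟨k, hk⟩ := tz.pg ⟨b * b, (hφ (inclusion inf_le_left (b * b))).1 ((map_mul ψ b b).trans (k1 b))⟩
    exact ⟨k + 1, Subtype.ext (by rw [pow_succ', pow_mul, sq]; exact (congrArg Subtype.val hk :))⟩
  by_contra! hn
  set A' := O2C (t * z) ⊓ centralizer ({z} : Set G)
  have AB' : A' ≤ B := fun q hq => ⟨mem_centralizer_singleton_iff.2 (mul_right_cancel (b := z) (by
    rw [mul_assoc, (hB G (t * z)).2.1 q hq.1, mul_assoc, mul_assoc, mem_centralizer_singleton_iff.1 hq.2])), hq.2⟩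
  have k6 : Nat.card A ≤ Nat.card A' := Nat.card_le_card_of_injective
    (fun x => ⟨d * x * d⁻¹, h.dtd ▸ ((hB G t).2.2.1 d x).1 x.2.1, mem_centralizer_singleton_iff.2
      (((show Commute d z from h.zd.symm).mul_left (mem_centralizer_singleton_iff.1 x.2.2)).mul_left
        (show Commute d z from h.zd.symm).inv_left).eq⟩)
    fun x x' e => Subtype.ext (by simpa using congrArg Subtype.val e)
  have k7 : Nat.card A * Nat.card A' ≤ Nat.card B := by
    rw [← Nat.card_prod]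
    exact Nat.card_le_card_of_injective (fun p => ⟨p.1 * p.2, mul_mem (AB p.1.2) (AB' p.2.2)⟩) fun p p' e =>
      mul_injective_of_disjoint (H₁ := A) (H₂ := A') (disjoint_def.2 fun k k' => hn _ k.1 k'.1) (congrArg Subtype.val e)
  nlinarith

end CL.L11
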