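/-
Project L11 (S3717): in the case `C(t) = Q . A₅`, both `t` and `z` lie in `O₂(C(a))`.
-/
import Cfsg.Agent.L11.Defs

set_option autoImplicit false
open Subgroup

namespace CL.L11

universe u

theorem ta2Thm (hB : BasThm.{u}) (hF2 : F2Thm.{u}) (hP : PairThm.{u}) : TA2Thm.{u} := by
  intro G _ _ M y t c z d a g h hT A
  obtain ⟨f1, -, -, -, -, -, ntz, -⟩ := hF2 G M y t c z d h
  have cj : ∀ (k : G) {s x : G}, x ∈ O2C s → k * x * k⁻¹ ∈ O2C (k * s * k⁻¹) := fun k s x => ((hB G s).2.2.1 k x).1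
  have at' : Commute a t := (hB G t).2.1 a A.aQ
  have ac : Commute a (c ^ 2) := h.td ▸ at'.mul_right A.ad
  have zc : c ^ 2 * c ^ 2 = z := by rw [h.hz, ← pow_add]
  have az : Commute a z := zc ▸ ac.mul_right ac
  have aa : a ∈ O2C a := (hB G a).2.2.2.2.1 A.a2
  have ng := (hB G a).2.2.2.1 g A.ga
  by_cases hz : z ∈ O2C a
  · exact ⟨(mul_mem_cancel_right aa).1 (A.gz ▸ ng z hz), hz⟩
  exfalso
  have ht : t ∉ O2C a := fun ht => hz ((mul_mem_cancel_left ht).1 (A.gt ▸ ng t ht))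
  obtain ⟨k, -, hk⟩ := f1 g a A.g3 A.a2 A.a1 A.ga.symm
  obtain ⟨⟨m, ma, mt⟩, -⟩ := hP G M y t c z d h hT a t (isConj_iff.2 ⟨k, hk⟩).symm at'.eq.symm h.tt ht
  have h1 := cj m A.aQ
  rw [ma] at h1
  replace mt := mt.resolve_right fun e => ntz (e ▸ h1)
  rw [mt] at h1
  have h2 : c ^ 2 ∈ O2C z := h.td ▸ mul_mem h1 (h.hd ▸ (hB G z).2.2.2.1 c h.zc.symm t h1)
  have h3 : a ∉ O2C z := fun ha => ntz (by
    have := cj m (cj g ha)
    rwa [A.gz, A.ga, mul_inv_cancel_right, ma, show m * (t * a) * m⁻¹ = m * t * m⁻¹ * (m * a * m⁻¹) by group, mt, ma,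
      h.zt] at this)
  exact h.z_ne (zc ▸ (hP G M y t c z d h hT z a (isConj_iff.2 ⟨m, mt⟩) az.eq A.a2 h3).2.1 _ h2 ac.eq.symm)

end CL.L11
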