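/-
Project L11 (S3717): the case `C(t) = (Q × R) . S₃`.
-/
import Cfsg.Agent.L11.Defs

set_option autoImplicit false
open Subgroup

namespace CL.L11

universe u

namespace TBR

variable {G : Type u} [Group G]

set_option synthInstance.maxSize 2048 in
theorem s3 : ∀ a b c : Equiv.Perm (Fin 3), a ≠ 1 → a ^ 3 = 1 → b * a * b⁻¹ = a⁻¹ → c * b = b * c →
    c = 1 ∨ c * b = 1 := by decide +kernel

theorem triv {x : G} {n : ℕ} (h : orderOf x ∣ n) (k : (orderOf x).Coprime n) : x = 1 :=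
  orderOf_eq_one_iff.1 (Nat.Coprime.eq_one_of_dvd k h)

theorem triv2 {x : G} (h : ∃ k, x ^ 2 ^ k = 1) (k : (orderOf x).Coprime 6) : x = 1 :=
  h.elim fun _ e => triv (orderOf_dvd_of_pow_eq_one e) ((k.coprime_dvd_right (by norm_num : 2 ∣ 6)).pow_right _)

theorem two_mul {x w : G} (c : Commute x w) (h : ∃ k, x ^ 2 ^ k = 1) (h' : ∃ k, w ^ 2 ^ k = 1) :
    ∃ k, (x * w) ^ 2 ^ k = 1 := by
  obtain ⟨k, h⟩ := h
  obtain ⟨l, h'⟩ := h'
  exact ⟨k + l, by rw [c.mul_pow, pow_add, pow_mul, h, one_pow, mul_comm (2 ^ k), pow_mul, h', one_pow, one_mul]⟩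

theorem two_of {P : Subgroup G} (hP : IsPGroup 2 P) {q : G} (hq : q ∈ P) : ∃ k, q ^ 2 ^ k = 1 :=
  (hP ⟨q, hq⟩).imp fun _ e => congrArg Subtype.val e

variable {M : Subgroup G} {y t c z d : G} (h : Cfg M y t c z d) (hP : IsPGroup 2 (O2C t))
  {R : Subgroup G} {φ : centralizer ({t} : Set G) →* Equiv.Perm (Fin 3)} (cop : (Nat.card R).Coprime 6)
  (qr : ∀ q ∈ O2C t, ∀ r ∈ R, q * r = r * q) (ker : ∀ x, φ x = 1 ↔ ∃ q ∈ O2C t, ∃ r ∈ R, (x : G) = q * r)

include cop in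
theorem odd {r : G} (hr : r ∈ R) : (orderOf r).Coprime 6 := cop.coprime_dvd_left (R.orderOf_dvd_natCard hr)

include h hP cop qr ker in
theorem dich {x : G} (x1 : x * t = t * x) (x2 : x * z = z * x) :
    ∃ q ∈ O2C t, ∃ r ∈ R, x = q * r ∨ x * z = q * r := by
  have my : y ∈ centralizer ({t} : Set G) := mem_centralizer_singleton_iff.2 h.ty.symm
  have mz : z ∈ centralizer ({t} : Set G) := mem_centralizer_singleton_iff.2 h.zt
  have mx : x ∈ centralizer ({t} : Set G) := mem_centralizer_singleton_iff.2 x1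
  have y3 : y ^ 3 = 1 := h.y3 ▸ pow_orderOf_eq_one y
  rcases s3 (φ ⟨y, my⟩) (φ ⟨z, mz⟩) (φ ⟨x, mx⟩) (fun e => by
      obtain ⟨q, hq, r, hr, e⟩ := (ker _).1 e
      obtain ⟨k, hk⟩ := two_of hP hq
      have e1 : y ^ (2 ^ k * orderOf r) = 1 := by
        rw [show y = q * r from e, Commute.mul_pow (qr q hq r hr), pow_mul, hk, one_pow, mul_comm (2 ^ k), pow_mul,
          pow_orderOf_eq_one, one_pow, one_mul]
      have := triv (orderOf_dvd_of_pow_eq_one e1) (by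
        rw [h.y3]
        exact Nat.Coprime.mul_right (Nat.Coprime.pow_right _ (by norm_num))
          ((odd cop hr).coprime_dvd_right (by norm_num : 3 ∣ 6)).symm)
      simpa [this] using h.y3)
    (by rw [← map_pow, ← map_one φ]; exact congrArg φ (Subtype.ext y3))
    (by rw [← map_inv, ← map_inv, ← map_mul, ← map_mul]; exact congrArg φ (Subtype.ext h.zy))
    (by rw [← map_mul, ← map_mul]; exact congrArg φ (Subtype.ext x2)) with e | e
  · obtain ⟨q, hq, r, hr, e⟩ := (ker _).1 e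
    exact ⟨q, hq, r, hr, .inl e⟩
  · rw [← map_mul] at e
    obtain ⟨q, hq, r, hr, e⟩ := (ker _).1 e
    exact ⟨q, hq, r, hr, .inr e⟩

include hP cop qr in
theorem two_mem {q r : G} (hq : q ∈ O2C t) (hr : r ∈ R) (k : ∃ k, (q * r) ^ 2 ^ k = 1) : q * r ∈ O2C t := by
  have c : Commute q⁻¹ (q * r) := ((Commute.refl q).mul_right (qr q hq r hr)).inv_left
  have := two_mul c (two_of hP (inv_mem hq)) k
  rw [inv_mul_cancel_left] at this
  rwa [triv2 this (odd cop hr), mul_one]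

include hP cop qr ker in
theorem odd_mem {x : G} (x1 : x * t = t * x) (k : (orderOf x).Coprime 6) : x ∈ R := by
  have mx : x ∈ centralizer ({t} : Set G) := mem_centralizer_singleton_iff.2 x1
  obtain ⟨q, hq, r, hr, e⟩ := (ker ⟨x, mx⟩).1 (triv (n := 6) (by simpa [Fintype.card_perm, Nat.factorial] using orderOf_dvd_natCard (φ ⟨x, mx⟩))
    (k.coprime_dvd_left ((orderOf_map_dvd φ _).trans (by simp))))
  obtain rfl : x = q * r := e
  have c : Commute (q * r) r⁻¹ := (Commute.mul_left (qr q hq r hr) (Commute.refl r)).inv_right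
  have o := c.orderOf_mul_dvd_mul_orderOf
  rw [mul_inv_cancel_right] at o
  rwa [triv2 (two_of hP hq) ((Nat.Coprime.mul_left k (odd cop (inv_mem hr))).coprime_dvd_left o), one_mul]

include h in
theorem cj {x : G} (x1 : x * t = t * x) (x2 : x * z = z * x) :
    d * x * d⁻¹ * t = t * (d * x * d⁻¹) ∧ d * x * d⁻¹ * z = z * (d * x * d⁻¹) := by
  have c1 : Commute (d * x * d⁻¹) (d * t * d⁻¹) := Commute.conj x1 d
  have c2 : Commute (d * x * d⁻¹) (d * z * d⁻¹) := Commute.conj x2 d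
  rw [h.dtd] at c1
  rw [← h.zd, mul_inv_cancel_right] at c2
  exact ⟨by simpa using (c1.mul_right c2.inv_right).eq, c2.eq⟩

end TBR

open TBR

theorem tbThm (hB : BasThm.{u}) (_hF2 : F2Thm.{u}) : TBThm.{u} := by
  intro G _ _ M y t c z d h ⟨R, φ, _, cop, _, qr, _, ker⟩
  obtain ⟨hP, cen, cnj, -⟩ := hB G t
  have k : ∀ x : G, (∃ k, x ^ 2 ^ k = 1) → x * t = t * x → x * z = z * x → x ∈ O2C t ∨ x * z ∈ O2C t :=
    fun x hx x1 x2 => by
      obtain ⟨q, hq, r, hr, e | e⟩ := dich h hP cop qr ker x1 x2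
      · exact .inl (e ▸ two_mem hP cop qr hq hr (e ▸ hx))
      · exact .inr (e ▸ two_mem hP cop qr hq hr (e ▸ two_mul x2 hx ⟨1, by rw [pow_one, pow_two, h.zz]⟩))
  refine ⟨k, fun q hq q2 => ?_⟩
  obtain ⟨x1, x2⟩ := cj h (cen q hq) q2
  have e : d * (d * q * d⁻¹) * d⁻¹ = q := by
    rw [show d * (d * q * d⁻¹) * d⁻¹ = d * d * q * (d * d)⁻¹ by group, h.dd]; simp
  refine (k _ ((two_of hP hq).imp fun n hn => by rw [conj_pow, hn]; simp) x1 x2).imp (fun m => ?_) fun m => ?_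
  · rwa [cnj d, e, h.dtd] at m
  · rw [cnj d, h.dtd, show d * (d * q * d⁻¹ * z) * d⁻¹ = d * (d * q * d⁻¹) * d⁻¹ * (d * z * d⁻¹) by group, e,
      ← h.zd, mul_inv_cancel_right] at m
    have := mul_mem m ((hB G (t * z)).2.2.2.2.1 (by rw [mul_assoc, ← mul_assoc z, h.zt, mul_assoc, h.zz, mul_one, h.tt]))
    rwa [mul_assoc, ← mul_assoc z, h.zt, mul_assoc, h.zz, mul_one] at this

theorem rThm (hB : BasThm.{u}) (hF2 : F2Thm.{u}) : RThm.{u} := by
  intro G _ _ M y t c z d a g h ⟨R, φ, hR, cop, nR, qr, sj, ker⟩ A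
  obtain ⟨hP, cen, -, nQ, -⟩ := hB G t
  obtain ⟨-, -, f3, -⟩ := hF2 G M y t c z d h
  have my : y⁻¹ ∈ centralizer ({t} : Set G) := inv_mem (mem_centralizer_singleton_iff.2 h.ty.symm)
  have mz : z ∈ centralizer ({t} : Set G) := mem_centralizer_singleton_iff.2 h.zt
  have k1 : ∀ r ∈ R, r * z = z * r → r = 1 := fun r hr r2 => by
    have u1 := nQ y h.ty.symm a A.aQ
    have m := odd_mem hP cop qr ker (cj h (mem_centralizer_singleton_iff.1 (hR hr)) r2).1
      (by rw [← MulAut.conj_apply, MulEquiv.orderOf_eq]; exact odd cop hr)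
    have c1 : Commute r (y * a * y⁻¹) := (qr _ u1 r hr).symm
    have c2 : Commute (d * (d * r * d⁻¹) * d⁻¹) (d * (y * a * y⁻¹) * d⁻¹) := Commute.conj (qr _ u1 _ m).symm d
    rw [show d * (d * r * d⁻¹) * d⁻¹ = d * d * r * (d * d)⁻¹ by group, h.dd, one_mul, inv_one, mul_one] at c2
    obtain ⟨n, hn⟩ := mem_zpowers_iff.1 A.gp
    exact triv (f3 g r A.g3 (hn ▸ ((c1.mul_right c2).zpow_right n).eq)) (odd cop hr)
  have k2 : ∀ w ∈ R, z * w * z⁻¹ = w⁻¹ := fun w hw => by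
    let f : R → R := fun r => ⟨r⁻¹ * (z * r * z⁻¹), mul_mem (inv_mem r.2) (nR z mz r r.2)⟩
    obtain ⟨r, e⟩ := Finite.surjective_of_injective (f := f) (fun r s e => Subtype.ext (by
      have e : (r : G)⁻¹ * (z * r * z⁻¹) = (s : G)⁻¹ * (z * s * z⁻¹) := congrArg Subtype.val e
      refine (mul_inv_eq_one.1 (k1 _ (mul_mem s.2 (inv_mem r.2)) ?_)).symm
      calc (s : G) * (r : G)⁻¹ * z = s * ((r : G)⁻¹ * (z * r * z⁻¹)) * z * (r : G)⁻¹ := by group
        _ = z * (s * (r : G)⁻¹) := by rw [e]; group)) ⟨w, hw⟩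
    obtain rfl : (r : G)⁻¹ * (z * r * z⁻¹) = w := congrArg Subtype.val e
    calc z * ((r : G)⁻¹ * (z * r * z⁻¹)) * z⁻¹ = z * (r : G)⁻¹ * z⁻¹ * (z * z * r * (z * z)⁻¹) := by group
      _ = _ := by rw [h.zz]; group
  have k3 : ∀ w ∈ R, w = 1 := fun w hw => by
    have e1 := k2 _ (nR _ my w hw)
    have e2 := k2 _ (inv_mem hw)
    have y3 : y * y * y = 1 := by rw [← pow_three', ← h.y3, pow_orderOf_eq_one]
    have e3 : y = z * (y * z * y⁻¹) := by
      have := h.zy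
      rw [h.z_inv] at this
      rw [← mul_assoc, ← mul_assoc, this, ← mul_inv_rev, eq_inv_iff_mul_eq_one, ← mul_assoc, y3]
    refine triv (f3 y w h.y3 (mul_inv_eq_iff_eq_mul.1 ?_).symm) (odd cop hw)
    calc y * w * y⁻¹ = z * (y * z * y⁻¹) * w * (z * (y * z * y⁻¹))⁻¹ := by rw [← e3]
      _ = z * (y * (z * (y⁻¹ * w * y⁻¹⁻¹) * z⁻¹) * y⁻¹) * z⁻¹ := by group
      _ = z * w⁻¹ * z⁻¹ := by rw [e1]; group
      _ = w := by rw [e2, inv_inv]
  refine ⟨⟨φ, sj, fun x => (ker x).trans ⟨?_, fun m => ⟨x, m, 1, one_mem _, (mul_one _).symm⟩⟩⟩, fun x x1 x2 => ?_⟩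
  · rintro ⟨q, hq, r, hr, e⟩
    rwa [e, k3 r hr, mul_one]
  · obtain ⟨q, hq, r, hr, e⟩ := dich h hP cop qr ker x1 x2
    rw [k3 r hr, mul_one] at e
    exact e.imp (fun e => by rwa [e]) fun e => by rwa [e]

end CL.L11
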