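/-
Project L11 (S3717): the case `C(t) ≅ 2 × S₄`, structure of a Sylow 2-subgroup.
-/
import Cfsg.Agent.L11.Defs

set_option autoImplicit false
open Subgroup

namespace CL.L11

universe u

namespace X8ax

variable {G : Type*} [Group G]

theorem grow [Finite G] {D P : Subgroup G} (hP : IsPGroup 2 P) (h : D < P) :
    ∃ x ∈ P, x ∈ normalizer (D : Set G) ∧ x ∉ D := by
  have : Fact (Nat.Prime 2) := ⟨Nat.prime_two⟩
  have := hP.isNilpotent
  have hnc : NormalizerCondition P := Group.normalizerCondition_of_isNilpotent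
  have hlt : D.subgroupOf P < ⊤ := by
    rw [lt_top_iff_ne_top, Ne, Subgroup.subgroupOf_eq_top]
    exact not_le_of_gt h
  have h2 := hnc _ hlt
  obtain ⟨x, hx, hxD⟩ := SetLike.exists_of_lt h2
  refine ⟨x, x.2, ?_, hxD⟩
  rw [← Subgroup.subgroupOf_normalizer_eq h.le] at hx
  exact hx

/-- the four-group generated by two commuting involutions -/
def V4 (t a : G) (ht : t * t = 1) (ha : a * a = 1) (hc : a * t = t * a) : Subgroup G where
  carrier := {x | x = 1 ∨ x = t ∨ x = a ∨ x = t * a}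
  one_mem' := Or.inl rfl
  mul_mem' := by
    have h2 : t * (t * a) = a := by rw [← mul_assoc, ht, one_mul]
    have h5 : t * a * a = t := by rw [mul_assoc, ha, mul_one]
    have h3 : a * (t * a) = t := by rw [← mul_assoc, hc, h5]
    have h4 : t * a * t = a := by rw [mul_assoc, hc, h2]
    have h6 : t * a * (t * a) = 1 := by rw [← mul_assoc, h4, ha]
    intro x y hx hy
    simp only [Set.mem_setOf_eq] at hx hy ⊢
    rcases hx with hx | hx | hx | hx <;> rcases hy with hy | hy | hy | hy <;> rw [hx, hy] <;>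
      simp only [ht, ha, hc, h2, h3, h4, h5, h6, one_mul, mul_one, true_or, or_true]
  inv_mem' := by
    have h2 : t * (t * a) = a := by rw [← mul_assoc, ht, one_mul]
    have h4 : t * a * t = a := by rw [mul_assoc, hc, h2]
    have h6 : t * a * (t * a) = 1 := by rw [← mul_assoc, h4, ha]
    intro x hx
    simp only [Set.mem_setOf_eq] at hx ⊢
    rcases hx with hx | hx | hx | hx <;> rw [hx]
    · exact Or.inl inv_one
    · exact Or.inr (Or.inl (inv_eq_of_mul_eq_one_right ht))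
    · exact Or.inr (Or.inr (Or.inl (inv_eq_of_mul_eq_one_right ha)))
    · exact Or.inr (Or.inr (Or.inr (inv_eq_of_mul_eq_one_right h6)))

theorem mem_V4 {t a : G} {ht : t * t = 1} {ha : a * a = 1} {hc : a * t = t * a} {x : G} :
    x ∈ V4 t a ht ha hc ↔ (x = 1 ∨ x = t ∨ x = a ∨ x = t * a) := Iff.rfl

theorem card_V4 {t a : G} {ht : t * t = 1} {ha : a * a = 1} {hc : a * t = t * a}
    (t1 : t ≠ 1) (a1 : a ≠ 1) (hta : t ≠ a) : Nat.card (V4 t a ht ha hc) = 4 := by
  have h : ((V4 t a ht ha hc : Subgroup G) : Set G) = {1, t, a, t * a} := by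
    ext x
    simp only [SetLike.mem_coe, mem_V4, Set.mem_insert_iff, Set.mem_singleton_iff]
  have h1 : (1 : G) ≠ t * a := by
    intro h1
    apply hta
    calc t = t * (a * a) := by rw [ha, mul_one]
      _ = (t * a) * a := by rw [mul_assoc]
      _ = a := by rw [← h1, one_mul]
  have h2 : t ≠ t * a := by
    intro h2
    exact a1 (by simpa using h2.symm)
  have h3 : a ≠ t * a := by
    intro h3
    exact t1 (by simpa using h3.symm)
  have e : Nat.card (V4 t a ht ha hc) = (((V4 t a ht ha hc : Subgroup G) : Set G)).ncard := rfl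
  rw [e, h, Set.ncard_insert_of_notMem, Set.ncard_insert_of_notMem, Set.ncard_pair h3]
  · simp only [Set.mem_insert_iff, Set.mem_singleton_iff, not_or]
    exact ⟨hta, h2⟩
  · simp only [Set.mem_insert_iff, Set.mem_singleton_iff, not_or]
    exact ⟨t1.symm, a1.symm, h1⟩

theorem idx2 [Finite G] {V Q : Subgroup G} (hle : V ≤ Q) (hV : Nat.card V = 4) (hQ : Nat.card Q = 8)
    {u : G} (hu : u ∈ Q) (huV : u ∉ V) : ∀ q ∈ Q, q ∈ V ∨ q * u ∈ V := by
  have h1 : (V.subgroupOf Q).index = 2 := by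
    have h2 := (V.subgroupOf Q).card_mul_index
    have h3 : Nat.card (V.subgroupOf Q) = 4 := by
      rw [← hV]; exact Nat.card_congr (subgroupOfEquivOfLe hle).toEquiv
    rw [h3, hQ] at h2
    omega
  intro q hq
  by_cases hqV : q ∈ V
  · exact Or.inl hqV
  · right
    have h4 := (mul_mem_iff_of_index_two h1 (a := ⟨q, hq⟩) (b := ⟨u, hu⟩)).2
      (by simp only [mem_subgroupOf]; exact ⟨fun h => absurd h hqV, fun h => absurd h huV⟩)
    exact h4

theorem s3 : ∀ σ τ : Equiv.Perm (Fin 3), σ * σ = 1 → τ * τ = 1 → τ ≠ 1 → σ * τ * (σ * τ) = 1 →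
    σ = 1 ∨ σ * τ = 1 := by decide

theorem s3_sq (σ : Equiv.Perm (Fin 3)) (k : ℕ) (h : σ ^ 2 ^ k = 1) : σ * σ = 1 := by
  have h6 : ∀ τ : Equiv.Perm (Fin 3), τ * τ = 1 ∨ τ * τ * τ = 1 := by decide
  rcases h6 σ with h1 | h1
  · exact h1
  · have h3 : σ ^ 3 = 1 := by rw [pow_succ, pow_two]; exact h1
    have h4 : σ ^ Nat.gcd (2 ^ k) 3 = 1 := pow_gcd_eq_one.2 ⟨h, h3⟩
    have h5 : Nat.gcd (2 ^ k) 3 = 1 := Nat.Coprime.pow_left k (by norm_num)
    rw [h5, pow_one] at h4
    rw [h4, one_mul]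

theorem cj_comm {g x y : G} (h : x * y = y * x) :
    (g * x * g⁻¹) * (g * y * g⁻¹) = (g * y * g⁻¹) * (g * x * g⁻¹) := by
  calc (g * x * g⁻¹) * (g * y * g⁻¹) = g * (x * y) * g⁻¹ := by group
    _ = g * (y * x) * g⁻¹ := by rw [h]
    _ = _ := by group

theorem cj_inj' {g x y : G} (h : g * x * g⁻¹ = g * y * g⁻¹) : x = y := by
  simpa using h

theorem cj_of_comm {g x : G} (h : g * x = x * g) : g * x * g⁻¹ = x := by
  rw [h]; group

theorem comm_of_cj {g x : G} (h : g * x * g⁻¹ = x) : g * x = x * g := by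
  calc g * x = (g * x * g⁻¹) * g := by group
    _ = x * g := by rw [h]

/-- the abstract 2-group argument -/
theorem core [Finite G] {T Q P V : Subgroup G} {t a u z : G} (hT : IsPGroup 2 T)
    (tt : t * t = 1) (aa : a * a = 1) (uu : u * u = 1) (zz : z * z = 1)
    (at' : a * t = t * a) (ut : u * t = t * u) (zt : z * t = t * z) (ua : u * a = a * u)
    (za : z * a = a * z) (zu : z * u * z⁻¹ = t * a * u) (t1 : t ≠ 1) (a1 : a ≠ 1) (hta : t ≠ a)
    (mV : ∀ v, v ∈ V ↔ (v = 1 ∨ v = t ∨ v = a ∨ v = t * a))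
    (VQ : V ≤ Q) (VP : V ≤ P) (uQ : u ∈ Q) (zP : z ∈ P) (zQ : z ∉ Q)
    (mQ : ∀ q ∈ Q, q ∈ V ∨ q * u ∈ V) (mP : ∀ q ∈ P, q ∈ V ∨ q * z ∈ V)
    (QT : Q ≤ T) (zT : z ∈ T)
    (mS : ∀ w ∈ T, w * t = t * w → w ∈ Q ∨ w * z ∈ Q)
    (sw1 : ∀ w, w * t * w⁻¹ = a → ∀ q ∈ Q, w * q * w⁻¹ ∈ P)
    (sw2 : ∀ w, w * a * w⁻¹ = t → ∀ q ∈ P, w * q * w⁻¹ ∈ Q)
    (hne : ∃ w ∈ T, w * t ≠ t * w) :
    ∃ x ∈ T, x * t * x⁻¹ = a ∧ (∀ w ∈ T, w * t = t * w ∨ (w * x) * t = t * (w * x)) ∧
      ∀ w ∈ T, w * (t * a) = (t * a) * w := by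
  have tV : t ∈ V := (mV t).2 (Or.inr (Or.inl rfl))
  have aV : a ∈ V := (mV a).2 (Or.inr (Or.inr (Or.inl rfl)))
  have fV : t * a ∈ V := V.mul_mem tV aV
  have f1 : t * a ≠ 1 := by
    intro h1
    apply hta
    calc t = t * (a * a) := by rw [aa, mul_one]
      _ = (t * a) * a := by rw [mul_assoc]
      _ = a := by rw [h1, one_mul]
  have ff : t * a * (t * a) = 1 := by
    calc t * a * (t * a) = t * (a * t) * a := by group
      _ = (t * t) * (a * a) := by rw [at']; group
      _ = 1 := by rw [tt, aa, one_mul]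
  have zi : z⁻¹ = z := inv_eq_of_mul_eq_one_right zz
  have ui : u⁻¹ = u := inv_eq_of_mul_eq_one_right uu
  -- `V` commutes with anything commuting with `t` and `a`
  have Vc : ∀ x, Commute x t → Commute x a → ∀ v ∈ V, Commute x v := by
    intro x h1 h2 v hv
    rcases (mV v).1 hv with h | h | h | h <;> rw [h]
    · exact Commute.one_right x
    · exact h1
    · exact h2
    · exact h1.mul_right h2
  have Vsq : ∀ v ∈ V, v * v = 1 := by
    intro v hv
    rcases (mV v).1 hv with h | h | h | h <;> rw [h]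
    · exact one_mul 1
    · exact tt
    · exact aa
    · exact ff
  have cu : ∀ v ∈ V, Commute u v := Vc u ut ua
  have cz : ∀ v ∈ V, Commute z v := Vc z zt za
  have ct : ∀ v ∈ V, Commute t v := Vc t (Commute.refl t) at'.symm
  have ca : ∀ v ∈ V, Commute a v := Vc a at' (Commute.refl a)
  have nzu : ¬ Commute z u := by
    intro h
    have h1 : z * u * z⁻¹ = u := cj_of_comm h
    rw [h1] at zu
    exact f1 (by simpa using zu.symm)
  -- forms of the elements
  have fQ : ∀ q ∈ Q, q ∈ V ∨ ∃ v ∈ V, q = v * u := by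
    intro q hq
    rcases mQ q hq with h | h
    · exact Or.inl h
    · exact Or.inr ⟨q * u, h, by rw [mul_assoc, uu, mul_one]⟩
  have fP : ∀ q ∈ P, q ∈ V ∨ ∃ v ∈ V, q = v * z := by
    intro q hq
    rcases mP q hq with h | h
    · exact Or.inl h
    · exact Or.inr ⟨q * z, h, by rw [mul_assoc, zz, mul_one]⟩
  have fS : ∀ w ∈ T, w * t = t * w → w ∈ Q ∨ ∃ q ∈ Q, w = q * z := by
    intro w hw h
    rcases mS w hw h with h | h
    · exact Or.inl h
    · exact Or.inr ⟨w * z, h, by rw [mul_assoc, zz, mul_one]⟩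
  have QV : ∀ q ∈ Q, ∀ v ∈ V, Commute q v := by
    intro q hq v hv
    rcases fQ q hq with h | ⟨v', h, rfl⟩
    · exact Vc q (ct q h).symm (ca q h).symm v hv
    · exact (Vc v' (ct v' h).symm (ca v' h).symm v hv).mul_left (cu v hv)
  have Qu : ∀ q ∈ Q, Commute q u := by
    intro q hq
    rcases fQ q hq with h | ⟨v', h, rfl⟩
    · exact (cu q h).symm
    · exact (cu v' h).symm.mul_left (Commute.refl u)
  have QQ : ∀ q ∈ Q, ∀ q' ∈ Q, Commute q q' := by
    intro q hq q' hq'
    rcases fQ q' hq' with h | ⟨v', h, rfl⟩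
    · exact QV q hq q' h
    · exact (QV q hq v' h).mul_right (Qu q hq)
  have PV : ∀ q ∈ P, ∀ v ∈ V, Commute q v := by
    intro q hq v hv
    rcases fP q hq with h | ⟨v', h, rfl⟩
    · exact Vc q (ct q h).symm (ca q h).symm v hv
    · exact (Vc v' (ct v' h).symm (ca v' h).symm v hv).mul_left (cz v hv)
  have Pz : ∀ q ∈ P, Commute q z := by
    intro q hq
    rcases fP q hq with h | ⟨v', h, rfl⟩
    · exact (cz q h).symm
    · exact (cz v' h).symm.mul_left (Commute.refl z)
  have PP : ∀ q ∈ P, ∀ q' ∈ P, Commute q q' := by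
    intro q hq q' hq'
    rcases fP q' hq' with h | ⟨v', h, rfl⟩
    · exact PV q hq q' h
    · exact (PV q hq v' h).mul_right (Pz q hq)
  have Qsq : ∀ q ∈ Q, q * q = 1 := by
    intro q hq
    rcases fQ q hq with h | ⟨v, h, rfl⟩
    · exact Vsq q h
    · calc v * u * (v * u) = v * (u * v) * u := by group
        _ = (v * v) * (u * u) := by rw [(cu v h).eq]; group
        _ = 1 := by rw [Vsq v h, uu, one_mul]
  have SV : ∀ w ∈ T, w * t = t * w → ∀ v ∈ V, Commute w v := by
    intro w hw h v hv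
    rcases fS w hw h with h1 | ⟨q, h1, rfl⟩
    · exact QV w h1 v hv
    · exact (QV q h1 v hv).mul_left (cz v hv)
  have Qz : ∀ q ∈ Q, Commute q z → q ∈ V := by
    intro q hq h
    rcases fQ q hq with h1 | ⟨v, h1, rfl⟩
    · exact h1
    · exfalso
      apply nzu
      have h2 : Commute (v⁻¹ * (v * u)) z := (cz v h1).symm.inv_left.mul_left h
      rw [inv_mul_cancel_left] at h2
      exact h2.symm
  have Su : ∀ w ∈ T, w * t = t * w → Commute w u → w ∈ Q := by
    intro w hw h h'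
    rcases fS w hw h with h1 | ⟨q, h1, rfl⟩
    · exact h1
    · exfalso
      apply nzu
      have h2 : Commute (q⁻¹ * (q * z)) u := (Qu q h1).inv_left.mul_left h'
      rwa [inv_mul_cancel_left] at h2
  have Sz : ∀ w ∈ T, w * t = t * w → Commute w z → w ∈ P := by
    intro w hw h h'
    rcases fS w hw h with h1 | ⟨q, h1, rfl⟩
    · exact VP (Qz w h1 h')
    · have h2 : Commute (q * z * z⁻¹) z := h'.mul_left (Commute.refl z).inv_left
      rw [mul_inv_cancel_right] at h2
      exact P.mul_mem (VP (Qz q h1 h2)) zP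
  have QP : ∀ q ∈ Q, q ∈ P → q ∈ V := fun q hq hp => Qz q hq (Pz q hp)
  have ZS : ∀ w ∈ T, w * t = t * w → Commute w u → Commute w z → w ∈ V :=
    fun w hw h h1 h2 => Qz w (Su w hw h h1) h2
  have uz2 : u * z * (u * z) = t * a := by
    calc u * z * (u * z) = u * (z * u * z⁻¹) := by rw [zi]; group
      _ = u * (t * a) * u := by rw [zu]; group
      _ = (t * a) * (u * u) := by rw [(cu _ fV).eq]; group
      _ = t * a := by rw [uu, mul_one]
  -- squares and involutions in `S`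
  have Ssq : ∀ w ∈ T, w * t = t * w → ((w ∈ Q ∨ w ∈ P) ∧ w * w = 1) ∨ w * w = t * a := by
    intro w hw h
    rcases fS w hw h with h1 | ⟨q, h1, rfl⟩
    · exact Or.inl ⟨Or.inl h1, Qsq w h1⟩
    · rcases fQ q h1 with h2 | ⟨v, h2, rfl⟩
      · refine Or.inl ⟨Or.inr (P.mul_mem (VP h2) zP), ?_⟩
        calc q * z * (q * z) = q * (z * q) * z := by group
          _ = (q * q) * (z * z) := by rw [(cz q h2).eq]; group
          _ = 1 := by rw [Vsq q h2, zz, one_mul]
      · right
        have h3 : Commute (u * z) v := (cu v h2).mul_left (cz v h2)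
        calc v * u * z * (v * u * z) = v * ((u * z) * v) * (u * z) := by group
          _ = (v * v) * (u * z * (u * z)) := by rw [h3.eq]; group
          _ = t * a := by rw [Vsq v h2, uz2, one_mul]
  have Sinv : ∀ w ∈ T, w * t = t * w → w * w = 1 → w ∈ Q ∨ w ∈ P := by
    intro w hw h h1
    rcases Ssq w hw h with h2 | h2
    · exact h2.1
    · exact absurd (h2.symm.trans h1) f1
  -- the subgroup `S`
  set S : Subgroup G := T ⊓ centralizer ({t} : Set G) with hS
  have mS' : ∀ w, w ∈ S ↔ w ∈ T ∧ w * t = t * w := by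
    intro w
    rw [hS, mem_inf, mem_centralizer_singleton_iff]
  have tT : t ∈ T := QT (VQ tV)
  have aT : a ∈ T := QT (VQ aV)
  have uT : u ∈ T := QT uQ
  have tS : t ∈ S := (mS' t).2 ⟨tT, rfl⟩
  have aS : a ∈ S := (mS' a).2 ⟨aT, at'⟩
  have uS : u ∈ S := (mS' u).2 ⟨uT, ut⟩
  have zS : z ∈ S := (mS' z).2 ⟨zT, zt⟩
  -- elements normalising `S`
  have Nf : ∀ w ∈ normalizer (S : Set G), w * (t * a) * w⁻¹ = t * a := by
    intro w hw
    have h1 : w * (u * z) * w⁻¹ ∈ S := CL.Even.conj_mem hw (S.mul_mem uS zS)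
    have h2 : (w * (u * z) * w⁻¹) * (w * (u * z) * w⁻¹) = w * (t * a) * w⁻¹ := by
      rw [← uz2]; group
    rcases Ssq _ ((mS' _).1 h1).1 ((mS' _).1 h1).2 with h3 | h3
    · exfalso
      apply f1
      have h4 := h3.2
      rw [h2] at h4
      simpa using h4
    · rw [← h2, h3]
  have tOrA : ∀ w : G, w * (t * a) * w⁻¹ = t * a → w * t * w⁻¹ ∈ V →
      w * t * w⁻¹ = t ∨ w * t * w⁻¹ = a := by
    intro w h1 h2
    rcases (mV _).1 h2 with h | h | h | h
    · exact absurd (by simpa using h) t1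
    · exact Or.inl h
    · exact Or.inr h
    · exfalso
      rw [← h1] at h
      have h3 : t = t * a := cj_inj' h
      exact a1 (by simpa using h3.symm)
  have aT' : ∀ w : G, w * (t * a) * w⁻¹ = t * a → w * t * w⁻¹ = a → w * a * w⁻¹ = t := by
    intro w h1 h2
    calc w * a * w⁻¹ = w * ((t * t) * a) * w⁻¹ := by rw [tt, one_mul]
      _ = (w * t * w⁻¹) * (w * (t * a) * w⁻¹) := by group
      _ = a * (t * a) := by rw [h1, h2]
      _ = t * (a * a) := by rw [← mul_assoc, at', mul_assoc]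
      _ = t := by rw [aa, mul_one]
  have Nt : ∀ w ∈ normalizer (S : Set G), w * t * w⁻¹ = t ∨ w * t * w⁻¹ = a := by
    intro w hw
    apply tOrA w (Nf w hw)
    have h1 : w * t * w⁻¹ ∈ S := CL.Even.conj_mem hw tS
    have key : ∀ s ∈ S, Commute (w * t * w⁻¹) s := by
      intro s hs
      have h2 : w⁻¹ * s * w ∈ S := CL.Even.conj_mem' hw hs
      have h3 := cj_comm (g := w) ((mS' _).1 h2).2
      have h4 : w * (w⁻¹ * s * w) * w⁻¹ = s := by group
      rw [h4] at h3
      exact h3.symm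
    exact ZS _ ((mS' _).1 h1).1 ((mS' _).1 h1).2 (key u uS) (key z zS)
  set T1 : Subgroup G := T ⊓ normalizer (S : Set G) with hT1
  have ST1 : S ≤ T1 := le_inf inf_le_left le_normalizer
  have out : ∀ w ∈ T1, w ∉ S → w * t * w⁻¹ = a ∧ w * a * w⁻¹ = t := by
    intro w hw hn
    rcases Nt w hw.2 with h | h
    · exact absurd ((mS' w).2 ⟨hw.1, comm_of_cj h⟩) hn
    · exact ⟨h, aT' w (Nf w hw.2) h⟩
  have two : ∀ w ∈ T1, w ∉ S → ∀ w' ∈ T1, w' ∉ S → w * w' ∈ S := by
    intro w hw hn w' hw' hn'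
    refine (mS' _).2 ⟨T.mul_mem hw.1 hw'.1, comm_of_cj ?_⟩
    calc w * w' * t * (w * w')⁻¹ = w * (w' * t * w'⁻¹) * w⁻¹ := by group
      _ = t := by rw [(out w' hw' hn').1, (out w hw hn).2]
  have fixV : ∀ w ∈ T1, w ∉ S → ∀ e, (e ∈ Q ∨ e ∈ P) → w * e = e * w → e ∈ V := by
    intro w hw hn e he h
    have h1 := cj_of_comm h
    rcases he with he | he
    · exact QP e he (h1 ▸ sw1 w (out w hw hn).1 e he)
    · exact QP e (h1 ▸ sw2 w (out w hw hn).2 e he) he
  have fixF : ∀ w ∈ T1, w ∉ S → ∀ e ∈ V, w * e = e * w → e = 1 ∨ e = t * a := by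
    intro w hw hn e he h
    have h1 := cj_of_comm h
    rcases (mV e).1 he with h2 | h2 | h2 | h2
    · exact Or.inl h2
    · rw [h2, (out w hw hn).1] at h1
      exact absurd h1.symm hta
    · rw [h2, (out w hw hn).2] at h1
      exact absurd h1 hta
    · exact Or.inr h2
  have hlt : S < T := by
    obtain ⟨w, hw, hn⟩ := hne
    exact lt_of_le_of_ne inf_le_left fun h => hn ((mS' w).1 (h ▸ hw)).2
  obtain ⟨x, xT, xN, xS⟩ := grow hT hlt
  have xT1 : x ∈ T1 := ⟨xT, xN⟩
  -- `T1 = T`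
  have hTT : T ≤ T1 := by
    by_contra hn
    have hlt1 : T1 < T := lt_of_le_of_ne inf_le_left fun h => hn (h ▸ le_rfl)
    obtain ⟨n, nT, nN, nT1⟩ := grow hT hlt1
    apply nT1
    have cm : ∀ s ∈ S, n * s * n⁻¹ ∈ T1 := fun s hs => CL.Even.conj_mem nN (ST1 hs)
    -- `n` fixes `f`
    have fc : ∀ w ∈ T1, w * (n * (t * a) * n⁻¹) = (n * (t * a) * n⁻¹) * w := by
      intro w hw
      have h2 : n⁻¹ * w * n ∈ T1 := CL.Even.conj_mem' nN hw
      have h3 := cj_comm (g := n) (comm_of_cj (Nf _ h2.2))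
      have h4 : n * (n⁻¹ * w * n) * n⁻¹ = w := by group
      rwa [h4] at h3
    have nf : n * (t * a) * n⁻¹ = t * a := by
      have h1 := cm _ (S.mul_mem tS aS)
      have h2 : n * (t * a) * n⁻¹ ∈ V :=
        ZS _ h1.1 (fc t (ST1 tS)).symm (fc u (ST1 uS)).symm (fc z (ST1 zS)).symm
      rcases fixF x xT1 xS _ h2 (fc x xT1) with h | h
      · exact absurd (by simpa using h) f1
      · exact h
    have t'T1 := cm t tS
    have u'T1 := cm u uS
    have z'T1 := cm z zS
    have sq' : ∀ s : G, s * s = 1 → (n * s * n⁻¹) * (n * s * n⁻¹) = 1 := by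
      intro s hs
      calc (n * s * n⁻¹) * (n * s * n⁻¹) = n * (s * s) * n⁻¹ := by group
        _ = 1 := by rw [hs]; group
    have t'S : n * t * n⁻¹ ∈ S := by
      by_contra hn'
      have key : ∀ q ∈ Q, n * q * n⁻¹ ∈ S → q ∈ V := by
        intro q hq hs
        have h1 := Sinv _ ((mS' _).1 hs).1 ((mS' _).1 hs).2 (sq' q (Qsq q hq))
        have h2 : (n * t * n⁻¹) * (n * q * n⁻¹) = (n * q * n⁻¹) * (n * t * n⁻¹) :=
          cj_comm (QV q hq t tV).symm.eq
        rcases fixF _ t'T1 hn' _ (fixV _ t'T1 hn' _ h1 h2) h2 with h | h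
        · have h3 : q = 1 := by simpa using h
          rw [h3]; exact V.one_mem
        · rw [← nf] at h
          rw [cj_inj' h]; exact fV
      have uV : u ∈ V := by
        by_cases hu : n * u * n⁻¹ ∈ S
        · exact key u uQ hu
        · have h1 := two _ t'T1 hn' _ u'T1 hu
          have h2 : n * t * n⁻¹ * (n * u * n⁻¹) = n * (t * u) * n⁻¹ := by group
          rw [h2] at h1
          have h3 := key _ (Q.mul_mem (VQ tV) uQ) h1
          exact (V.mul_mem_cancel_left tV).1 h3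
      exact nzu (cz u uV)
    have t'V : n * t * n⁻¹ ∈ V := by
      by_contra hn'
      have h1 := Sinv _ ((mS' _).1 t'S).1 ((mS' _).1 t'S).2 (sq' t tt)
      have key : ∀ w ∈ T1, w * (n * t * n⁻¹) = (n * t * n⁻¹) * w → w ∈ S := by
        intro w hw h
        by_contra hw'
        exact hn' (fixV w hw hw' _ h1 h)
      have cu' : (n * u * n⁻¹) * (n * t * n⁻¹) = (n * t * n⁻¹) * (n * u * n⁻¹) := cj_comm ut
      have cz' : (n * z * n⁻¹) * (n * t * n⁻¹) = (n * t * n⁻¹) * (n * z * n⁻¹) := cj_comm zt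
      have u'S := (mS' _).1 (key _ u'T1 cu')
      have z'S := (mS' _).1 (key _ z'T1 cz')
      have fin : Commute (n * z * n⁻¹) (n * u * n⁻¹) → False := by
        intro h
        apply nzu
        have h3 : n * (z * u) * n⁻¹ = n * (u * z) * n⁻¹ := by
          calc n * (z * u) * n⁻¹ = (n * z * n⁻¹) * (n * u * n⁻¹) := by group
            _ = (n * u * n⁻¹) * (n * z * n⁻¹) := h.eq
            _ = _ := by group
        exact cj_inj' h3
      apply fin
      rcases h1 with h1 | h1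
      · rcases fQ _ h1 with h2 | ⟨v, h2, h3⟩
        · exact absurd h2 hn'
        · have inQ : ∀ w ∈ T, w * t = t * w → w * (n * t * n⁻¹) = (n * t * n⁻¹) * w → w ∈ Q := by
            intro w hw h h'
            apply Su w hw h
            have h4 : Commute w (v * u) := by rw [← h3]; exact h'
            have h5 : Commute w (v⁻¹ * (v * u)) := (SV w hw h v h2).inv_right.mul_right h4
            rwa [inv_mul_cancel_left] at h5
          exact QQ _ (inQ _ z'S.1 z'S.2 cz') _ (inQ _ u'S.1 u'S.2 cu')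
      · rcases fP _ h1 with h2 | ⟨v, h2, h3⟩
        · exact absurd h2 hn'
        · have inP : ∀ w ∈ T, w * t = t * w → w * (n * t * n⁻¹) = (n * t * n⁻¹) * w → w ∈ P := by
            intro w hw h h'
            apply Sz w hw h
            have h4 : Commute w (v * z) := by rw [← h3]; exact h'
            have h5 : Commute w (v⁻¹ * (v * z)) := (SV w hw h v h2).inv_right.mul_right h4
            rwa [inv_mul_cancel_left] at h5
          exact PP _ (inP _ z'S.1 z'S.2 cz') _ (inP _ u'S.1 u'S.2 cu')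
    rcases tOrA n nf t'V with h | h
    · exact ST1 ((mS' n).2 ⟨nT, comm_of_cj h⟩)
    · have h1 : x * n ∈ S := by
        refine (mS' _).2 ⟨T.mul_mem xT nT, comm_of_cj ?_⟩
        calc x * n * t * (x * n)⁻¹ = x * (n * t * n⁻¹) * x⁻¹ := by group
          _ = t := by rw [h, (out x xT1 xS).2]
      exact (T1.mul_mem_cancel_left xT1).1 (ST1 h1)
  refine ⟨x, xT, (out x xT1 xS).1, fun w hw => ?_, fun w hw => comm_of_cj (Nf w (hTT hw).2)⟩
  by_cases h : w ∈ S
  · exact Or.inl ((mS' w).1 h).2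
  · exact Or.inr ((mS' _).1 (two w (hTT hw) h x xT1 xS)).2

end X8ax

open X8ax in
theorem x8aThm (hB : BasThm.{u}) (hF2 : F2Thm.{u}) (hN : NThm.{u}) : X8aThm.{u} := by
  intro G _ _ M y t c z d a g h hT6 hA _ tP zP hQ8
  have : Fact (Nat.Prime 2) := ⟨Nat.prime_two⟩
  obtain ⟨F1, -, -, -, hTZ, zQ, -, -, -⟩ := hF2 G M y t c z d h
  obtain ⟨Qp, Qt, -, Qn, tQ', -, -⟩ := hB G t
  obtain ⟨-, -, -, -, aP', cardP, -⟩ := hB G a
  have tt := h.tt
  have zz := h.zz
  have aa := hA.a2
  have a1 := hA.a1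
  have tQ := tQ' tt
  have aP := aP' aa
  have aQ := hA.aQ
  have t1 : t ≠ 1 := by
    intro h1
    have := h.t2
    rw [h1, orderOf_one] at this
    exact absurd this (by norm_num)
  have at' : a * t = t * a := Qt a aQ
  have hta : t ≠ a := by
    intro h1
    have h2 : d * t * d⁻¹ = t := by
      apply cj_of_comm
      rw [h1]; exact hA.ad.symm
    rw [h.dtd] at h2
    exact h.z_ne (by simpa using h2)
  have za : z * a = a * z := by
    have h1 : Commute a (t * d) := Commute.mul_right at' hA.ad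
    have h2 : z = (t * d) * (t * d) := by rw [h.td, h.hz, ← pow_add]
    rw [h2]
    exact (h1.mul_right h1).symm.eq
  set u := y * a * y⁻¹ with hu
  have uQ : u ∈ O2C t := Qn y h.ty.symm a aQ
  have uu : u * u = 1 := by
    calc u * u = y * (a * a) * y⁻¹ := by rw [hu]; group
      _ = 1 := by rw [aa]; group
  have ut : u * t = t * u := Qt u uQ
  have ua : u * a = a * u := ((hN G (O2C t) t y hTZ.toTri a aQ).2.2.1 aa).symm
  have y3 : y ^ 3 = 1 := by have := pow_orderOf_eq_one y; rwa [h.y3] at this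
  have y2 : y ^ 2 = y⁻¹ := eq_inv_of_mul_eq_one_left (by rw [← pow_succ]; exact y3)
  have zu : z * u * z⁻¹ = t * a * u := by
    have h1 : z * u * z⁻¹ = y ^ 2 * a * (y ^ 2)⁻¹ := by
      calc z * u * z⁻¹ = (z * y * z⁻¹) * (z * a * z⁻¹) * (z * y * z⁻¹)⁻¹ := by rw [hu]; group
        _ = y ^ 2 * a * (y ^ 2)⁻¹ := by rw [h.zy, cj_of_comm za, y2]
    have h2 : a * u * (z * u * z⁻¹) = t := by rw [h1]; exact hA.na
    have h3 : a * u * (t * a * u) = t := by
      calc a * u * (t * a * u) = a * (u * t) * a * u := by group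
        _ = (a * t) * (u * a) * u := by rw [ut]; group
        _ = t * (a * a) * (u * u) := by rw [at', ua]; group
        _ = t := by rw [aa, uu, mul_one, mul_one]
    exact mul_left_cancel (h2.trans h3.symm)
  set V := V4 t a tt aa at' with hV
  have mV : ∀ v, v ∈ V ↔ (v = 1 ∨ v = t ∨ v = a ∨ v = t * a) := fun v => mem_V4
  have cV : Nat.card V = 4 := card_V4 t1 a1 hta
  have Vle : ∀ K : Subgroup G, t ∈ K → a ∈ K → V ≤ K := by
    intro K h1 h2 v hv
    rcases (mV v).1 hv with h3 | h3 | h3 | h3 <;> rw [h3]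
    · exact K.one_mem
    · exact h1
    · exact h2
    · exact K.mul_mem h1 h2
  have VQ := Vle _ tQ aQ
  have VP := Vle _ tP aP
  have uV : u ∉ V := by
    intro hv
    have h1 : z * u = u * z := by
      rcases (mV u).1 hv with h3 | h3 | h3 | h3 <;> rw [h3]
      · rw [mul_one, one_mul]
      · exact h.zt
      · exact za
      · exact (Commute.mul_right (a := z) h.zt za).eq
    rw [cj_of_comm h1] at zu
    have h2 : t * a = 1 := by simpa using zu.symm
    apply hta
    calc t = t * (a * a) := by rw [aa, mul_one]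
      _ = (t * a) * a := by rw [mul_assoc]
      _ = a := by rw [h2, one_mul]
  have zV : z ∉ V := fun hv => zQ (VQ hv)
  have hP8 : Nat.card (O2C a) = 8 := by
    obtain ⟨k, -, hk⟩ := F1 g a hA.g3 aa a1 hA.ga.symm
    rw [← cardP k, hk, hQ8]
  have mQ := idx2 VQ cV hQ8 uQ uV
  have mP := idx2 VP cV hP8 zP zV
  have Qsq : ∀ q ∈ O2C t, q * q = 1 := by
    have Vsq : ∀ v ∈ V, v * v = 1 ∧ v * u = u * v := by
      intro v hv
      rcases (mV v).1 hv with h3 | h3 | h3 | h3 <;> rw [h3]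
      · exact ⟨one_mul 1, by rw [mul_one, one_mul]⟩
      · exact ⟨tt, ut.symm⟩
      · exact ⟨aa, ua.symm⟩
      · refine ⟨?_, (Commute.mul_right (a := u) ut ua).symm.eq⟩
        calc t * a * (t * a) = t * (a * t) * a := by group
          _ = (t * t) * (a * a) := by rw [at']; group
          _ = 1 := by rw [tt, aa, one_mul]
    intro q hq
    rcases mQ q hq with h1 | h1
    · exact (Vsq q h1).1
    · obtain ⟨h2, h3⟩ := Vsq _ h1
      have h4 : q * u = u * q := by
        have h5 : q * u * u = u * q * u := h3.trans (mul_assoc u q u).symm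
        exact mul_right_cancel h5
      calc q * q = q * (u * u) * q := by rw [uu, mul_one]
        _ = q * u * (u * q) := by group
        _ = 1 := by rw [← h4, h2]
  obtain ⟨φ, -, hφ⟩ := hT6
  have sqQ : ∀ x (hx : x * t = t * x), (∃ k, x ^ 2 ^ k = 1) →
      φ ⟨x, mem_centralizer_singleton_iff.2 hx⟩ * φ ⟨x, mem_centralizer_singleton_iff.2 hx⟩ = 1 := by
    rintro x hx ⟨k, hk⟩
    apply s3_sq _ k
    rw [← map_pow]
    have h1 : (⟨x, mem_centralizer_singleton_iff.2 hx⟩ : centralizer ({t} : Set G)) ^ 2 ^ k = 1 :=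
      Subtype.ext hk
    rw [h1, map_one]
  have h4 : ∀ x, x * t = t * x → (∃ k, x ^ 2 ^ k = 1) → x ^ 4 = 1 := by
    intro x hx hk
    have h1 := sqQ x hx hk
    rw [← map_mul, hφ] at h1
    have h2 := Qsq _ h1
    have h3 : x ^ 4 = x * x * (x * x) := by
      rw [show x ^ 4 = x ^ 2 * x ^ 2 by rw [← pow_add], pow_two]
    rw [h3]; exact h2
  have zN : zpowers z ≤ normalizer ((O2C t : Subgroup G) : Set G) := by
    rw [zpowers_le, mem_normalizer_iff]
    intro q
    refine ⟨Qn z h.zt q, fun hq => ?_⟩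
    have h1 := Qn z h.zt _ hq
    have h2 : z * (z * q * z⁻¹) * z⁻¹ = q := by
      calc z * (z * q * z⁻¹) * z⁻¹ = (z * z) * q * (z * z)⁻¹ := by group
        _ = q := by rw [zz]; group
    rwa [h2] at h1
  have hz2 : IsPGroup 2 (zpowers z) := CL.Even.isPGroup_zpowers (k := 1) (by rw [pow_one, pow_two]; exact zz)
  obtain ⟨T, hT⟩ := (CL.Even.isPGroup_sup' Qp hz2 zN).exists_le_sylow
  have QT : O2C t ≤ T := le_sup_left.trans hT
  have zT : z ∈ (T : Subgroup G) := hT (mem_sup_right (mem_zpowers z))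
  have Tp : ∀ w ∈ (T : Subgroup G), ∃ k, w ^ 2 ^ k = 1 := CL.Even.isPGroup_iff_forall.1 T.isPGroup'
  have mS : ∀ w ∈ (T : Subgroup G), w * t = t * w → w ∈ O2C t ∨ w * z ∈ O2C t := by
    intro w hw hwt
    have hwz : w * z * t = t * (w * z) := (Commute.mul_left (c := t) hwt h.zt).eq
    have h1 := sqQ w hwt (Tp w hw)
    have h2 := sqQ z h.zt (Tp z zT)
    have h3 := sqQ (w * z) hwz (Tp _ ((T : Subgroup G).mul_mem hw zT))
    have h5 : φ ⟨w * z, mem_centralizer_singleton_iff.2 hwz⟩ =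
        φ ⟨w, mem_centralizer_singleton_iff.2 hwt⟩ * φ ⟨z, mem_centralizer_singleton_iff.2 h.zt⟩ := by
      rw [← map_mul]; rfl
    rw [h5] at h3
    rcases s3 _ _ h1 h2 (fun h6 => zQ ((hφ _).1 h6)) h3 with h6 | h6
    · exact Or.inl ((hφ _).1 h6)
    · rw [← h5] at h6
      exact Or.inr ((hφ _).1 h6)
  -- an element of order 8 in `T`
  have hc : ∃ c' ∈ (T : Subgroup G), c' ^ 2 ^ 3 = 1 ∧ c' ^ 4 ≠ 1 := by
    have hc2 : IsPGroup 2 (zpowers c) := CL.Even.isPGroup_zpowers (k := 3) h.c_pow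
    obtain ⟨T', hT'⟩ := hc2.exists_le_sylow
    obtain ⟨k, hk⟩ := MulAction.exists_smul_eq G T' T
    refine ⟨k * c * k⁻¹, ?_, ?_, ?_⟩
    · rw [← hk, Sylow.coe_subgroup_smul]
      exact smul_mem_pointwise_smul _ (MulAut.conj k) _ (hT' (mem_zpowers c))
    · rw [conj_pow, show 2 ^ 3 = 8 by norm_num, h.c_pow]; group
    · rw [conj_pow, ← h.hz]
      intro h1
      exact h.z_ne (by simpa using h1)
  obtain ⟨c', c'T, c'8, c'4⟩ := hc
  obtain ⟨x, xT, xt, cov, cf⟩ := core (T := T) (Q := O2C t) (P := O2C a) (V := V) T.isPGroup' tt aa uu zz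
    at' ut h.zt ua za zu t1 a1 hta mV VQ VP uQ zP zQ mQ mP QT zT mS
    (fun w hw q hq => hw ▸ ((hB G t).2.2.1 w q).1 hq)
    (fun w hw q hq => hw ▸ ((hB G a).2.2.1 w q).1 hq)
    ⟨c', c'T, fun h1 => c'4 (h4 c' h1 ⟨3, c'8⟩)⟩
  refine ⟨T, x, ⟨fun q => ⟨fun hq => ?_, fun hq => ?_⟩, fun q => ⟨fun hq => ?_, fun hq => ?_⟩,
    QT, zT, xT, xt, fun w hw => ?_, ?_⟩⟩
  · have h1 : t ∈ closure ({t, a, u} : Set G) := subset_closure (by simp)
    have h2 : a ∈ closure ({t, a, u} : Set G) := subset_closure (by simp)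
    have h3 : u ∈ closure ({t, a, u} : Set G) := subset_closure (by simp)
    rcases mQ q hq with h5 | h5
    · exact Vle _ h1 h2 h5
    · exact (Subgroup.mul_mem_cancel_right _ h3).1 (Vle _ h1 h2 h5)
  · refine (closure_le (K := O2C t)).2 ?_ hq
    intro v hv
    simp only [Set.mem_insert_iff, Set.mem_singleton_iff] at hv
    rcases hv with h3 | h3 | h3 <;> rw [h3]
    · exact tQ
    · exact aQ
    · exact uQ
  · have h1 : t ∈ closure ({t, z, a} : Set G) := subset_closure (by simp)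
    have h2 : a ∈ closure ({t, z, a} : Set G) := subset_closure (by simp)
    have h3 : z ∈ closure ({t, z, a} : Set G) := subset_closure (by simp)
    rcases mP q hq with h5 | h5
    · exact Vle _ h1 h2 h5
    · exact (Subgroup.mul_mem_cancel_right _ h3).1 (Vle _ h1 h2 h5)
  · refine (closure_le (K := O2C a)).2 ?_ hq
    intro v hv
    simp only [Set.mem_insert_iff, Set.mem_singleton_iff] at hv
    rcases hv with h3 | h3 | h3 <;> rw [h3]
    · exact tP
    · exact zP
    · exact aP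
  · rcases cov w hw with h1 | h1
    · exact Or.inl (mS w hw h1)
    · exact Or.inr (mS _ ((T : Subgroup G).mul_mem hw xT) h1)
  · intro hcj
    obtain ⟨k, hk⟩ := isConj_iff.1 hcj
    apply c'4
    have h1 : (k⁻¹ * c' * k⁻¹⁻¹) * t = t * (k⁻¹ * c' * k⁻¹⁻¹) := by
      have h2 := cj_comm (g := k⁻¹) (cf c' c'T)
      have h3 : k⁻¹ * (t * a) * k⁻¹⁻¹ = t := by rw [← hk]; group
      rwa [h3] at h2
    have h5 := h4 _ h1 ⟨3, by rw [conj_pow, c'8]; group⟩
    rw [conj_pow] at h5
    exact cj_inj' (g := k⁻¹) (h5.trans (by group))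

end CL.L11
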