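/-
Project L11 (S3717): the case `C(t) ≅ 2 × S₄` is excluded by Thompson transfer.
-/
import Cfsg.Agent.L11.Defs
import Cfsg.Agent.Grp.SylowIn
import Cfsg.Agent.S0111

set_option autoImplicit false
open Subgroup

namespace CL.L11

universe u

namespace X8B

variable {G : Type*} [Group G] {t f p z : G}

/-- a rewriting rule and its form inside a longer product -/
abbrev NF (a b c : G) : Prop := a * b = c ∧ ∀ x, a * (b * x) = c * x

theorem mkNF {a b c : G} (h : a * b = c) : NF a b c := ⟨h, fun x => by rw [← mul_assoc, h]⟩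

/-- three commuting involutions -/
structure R3 (t f p : G) : Prop where
  tt : t * t = 1
  ff : f * f = 1
  pp : p * p = 1
  ft : f * t = t * f
  pt : p * t = t * p
  pf : p * f = f * p

theorem R3.nf (h : R3 t f p) : NF t t 1 ∧ NF f f 1 ∧ NF p p 1 ∧ NF f t (t * f) ∧ NF p t (t * p) ∧ NF p f (f * p) ∧
    t⁻¹ = t ∧ f⁻¹ = f ∧ p⁻¹ = p :=
  ⟨mkNF h.tt, mkNF h.ff, mkNF h.pp, mkNF h.ft, mkNF h.pt, mkNF h.pf, inv_eq_of_mul_eq_one_right h.tt,
    inv_eq_of_mul_eq_one_right h.ff, inv_eq_of_mul_eq_one_right h.pp⟩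

/-- the group generated by three commuting involutions -/
def R3.W (h : R3 t f p) : Subgroup G where
  carrier := {v | v = 1 ∨ v = f ∨ v = p ∨ v = f * p ∨ v = t ∨ v = t * f ∨ v = t * p ∨ v = t * (f * p)}
  one_mem' := Or.inl rfl
  mul_mem' := fun {a b} ha hb => by
    rcases ha with ha | ha | ha | ha | ha | ha | ha | ha <;> rcases hb with hb | hb | hb | hb | hb | hb | hb | hb <;>
      simp only [Set.mem_ofPred_eq, ha, hb, h.nf, mul_assoc, one_mul, mul_one, true_or, or_true]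
  inv_mem' := fun {a} ha => by
    rcases ha with ha | ha | ha | ha | ha | ha | ha | ha <;>
      simp only [Set.mem_ofPred_eq, ha, h.nf, mul_assoc, mul_inv_rev, inv_one, true_or, or_true]

theorem R3.mem_W (h : R3 t f p) {v : G} :
    v ∈ h.W ↔ v = 1 ∨ v = f ∨ v = p ∨ v = f * p ∨ v = t ∨ v = t * f ∨ v = t * p ∨ v = t * (f * p) := Iff.rfl

/-- the relations of `2 × D₈` -/
structure Rel (t f p z : G) : Prop extends R3 t f p where
  zz : z * z = 1
  zt : z * t = t * z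
  zf : z * f = f * z
  zp : z * p = f * (p * z)

theorem Rel.r3 (h : Rel t f p z) : R3 t f z := ⟨h.tt, h.ff, h.zz, h.ft, h.zt, h.zf⟩

theorem Rel.nz (h : Rel t f p z) : NF z z 1 ∧ NF z t (t * z) ∧ NF z f (f * z) ∧ NF z p (f * (p * z)) ∧ z⁻¹ = z :=
  ⟨mkNF h.zz, mkNF h.zt, mkNF h.zf, mkNF h.zp, inv_eq_of_mul_eq_one_right h.zz⟩

/-- the dihedral group `⟨p, z⟩` -/
def Rel.D (h : Rel t f p z) : Subgroup G where
  carrier := {v | v = 1 ∨ v = f ∨ v = p ∨ v = f * p ∨ v = z ∨ v = f * z ∨ v = p * z ∨ v = f * (p * z)}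
  one_mem' := Or.inl rfl
  mul_mem' := fun {a b} ha hb => by
    rcases ha with ha | ha | ha | ha | ha | ha | ha | ha <;> rcases hb with hb | hb | hb | hb | hb | hb | hb | hb <;>
      simp only [Set.mem_ofPred_eq, ha, hb, h.nf, h.nz, mul_assoc, one_mul, mul_one, true_or, or_true]
  inv_mem' := fun {a} ha => by
    rcases ha with ha | ha | ha | ha | ha | ha | ha | ha <;>
      simp only [Set.mem_ofPred_eq, ha, h.nf, h.nz, mul_assoc, mul_inv_rev, inv_one, one_mul, true_or, or_true]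

theorem Rel.mem_D (h : Rel t f p z) {v : G} :
    v ∈ h.D ↔ v = 1 ∨ v = f ∨ v = p ∨ v = f * p ∨ v = z ∨ v = f * z ∨ v = p * z ∨ v = f * (p * z) := Iff.rfl

theorem Rel.fD (h : Rel t f p z) : f ∈ h.D := by simp [h.mem_D]
theorem Rel.pD (h : Rel t f p z) : p ∈ h.D := by simp [h.mem_D]
theorem Rel.zD (h : Rel t f p z) : z ∈ h.D := by simp [h.mem_D]

theorem Rel.cen (h : Rel t f p z) {s : G} (hs : s ∈ h.D) : s * t = t * s ∧ s * f = f * s ∧ s * s * (s * s) = 1 := by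
  rcases hs with hs | hs | hs | hs | hs | hs | hs | hs <;>
    simp only [hs, h.nf, h.nz, mul_assoc, one_mul, mul_one, and_self]

/-- adjoining an element whose square lies in the subgroup -/
def ext2 (H : Subgroup G) (w : G) (hn : ∀ s ∈ H, w * s * w⁻¹ ∈ H) (h2 : w * w ∈ H) : Subgroup G where
  carrier := {v | v ∈ H ∨ ∃ s ∈ H, v = s * w}
  one_mem' := Or.inl (one_mem _)
  mul_mem' := by
    rintro a b (ha | ⟨s, hs, rfl⟩) (hb | ⟨r, hr, rfl⟩)
    · exact Or.inl (mul_mem ha hb)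
    · exact Or.inr ⟨_, mul_mem ha hr, (mul_assoc _ _ _).symm⟩
    · exact Or.inr ⟨_, mul_mem hs (hn b hb), by group⟩
    · exact Or.inl (by convert mul_mem (mul_mem hs (hn r hr)) h2 using 1; group)
  inv_mem' := by
    rintro a (ha | ⟨s, hs, rfl⟩)
    · exact Or.inl (inv_mem ha)
    · exact Or.inr ⟨_, mul_mem (inv_mem h2) (hn _ (inv_mem hs)), by group⟩

/-- the group `2 × D₈` -/
def Rel.S (h : Rel t f p z) : Subgroup G :=
  ext2 h.D t (fun s hs => by rwa [← (h.cen hs).1, mul_inv_cancel_right]) (h.tt ▸ one_mem _)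

theorem Rel.mem_S (h : Rel t f p z) {v : G} : v ∈ h.S ↔ v ∈ h.D ∨ ∃ s ∈ h.D, v = s * t := Iff.rfl

theorem Rel.tS (h : Rel t f p z) : t ∈ h.S := Or.inr ⟨1, one_mem _, (one_mul _).symm⟩

theorem Rel.cenS (h : Rel t f p z) {s : G} (hs : s ∈ h.S) : s * t = t * s ∧ s * f = f * s ∧ s * s * (s * s) = 1 := by
  rcases hs with hs | ⟨s, hs, rfl⟩
  · exact h.cen hs
  · obtain ⟨h1, h2, h3⟩ := h.cen hs
    have h4 : s * t * (s * t) = s * s := by rw [mul_assoc, ← mul_assoc t, ← h1, mul_assoc s, h.tt, mul_one]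
    refine ⟨by rw [h1, mul_assoc, h1], by rw [mul_assoc, ← h.ft, ← mul_assoc, h2, mul_assoc], by rw [h4, h3]⟩

/-- the action of an element outside `S` -/
def Act (t f p z w : G) : Prop := w * t * w⁻¹ = t * f ∧ w * f * w⁻¹ = f ∧ (w * p * w⁻¹ = z ∨ w * p * w⁻¹ = f * z) ∧
  (w * z * w⁻¹ = p ∨ w * z * w⁻¹ = f * p)

theorem Rel.nor (h : Rel t f p z) {w : G} (a : Act t f p z w) : ∀ s ∈ h.D, w * s * w⁻¹ ∈ h.D := by
  obtain ⟨-, a2, a3, a4⟩ := a
  have b2 : w * f * w⁻¹ ∈ h.D := a2.symm ▸ h.fD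
  have b3 : w * p * w⁻¹ ∈ h.D := a3.elim (fun e => e.symm ▸ h.zD) fun e => e.symm ▸ mul_mem h.fD h.zD
  have b4 : w * z * w⁻¹ ∈ h.D := a4.elim (fun e => e.symm ▸ h.pD) fun e => e.symm ▸ mul_mem h.fD h.pD
  intro s hs
  rcases hs with hs | hs | hs | hs | hs | hs | hs | hs <;> rw [hs] <;>
    simp only [mul_one, mul_inv_cancel, ← conj_mul, one_mem, mul_mem, b2, b3, b4]

theorem Rel.noinv (h : Rel t f p z) (f1 : f ≠ 1) {e s : G} (a : Act t f p z e) (ee : e * e = 1) (hs : s ∈ h.D) :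
    s * (e * s * e⁻¹) * f ≠ 1 := by
  obtain ⟨-, a2, a3, a4⟩ := a
  have n1 : p * z ≠ 1 := fun e => f1 (by
    have : p * z * (p * z) = f := by simp only [h.nf, h.nz, mul_assoc, mul_one]
    rw [← this, e, one_mul])
  have n2 : f * (p * z) ≠ 1 := fun e => f1 (by
    have : f * (p * z) * (f * (p * z)) = f := by simp only [h.nf, h.nz, mul_assoc, one_mul, mul_one]
    rw [← this, e, one_mul])
  have sq : ∀ x, e * (e * x * e⁻¹) * e⁻¹ = x := fun x => by
    rw [show e * (e * x * e⁻¹) * e⁻¹ = e * e * x * (e * e)⁻¹ by group, ee]; group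
  have a5 : (e * p * e⁻¹ = z ∧ e * z * e⁻¹ = p) ∨ (e * p * e⁻¹ = f * z ∧ e * z * e⁻¹ = f * p) := by
    refine a3.imp (fun a => ⟨a, by rw [← a, sq]⟩) fun a => ⟨a, ?_⟩
    have := sq p
    rw [a, ← conj_mul, a2] at this
    rw [← this, ← mul_assoc f, h.ff, one_mul]
  rcases a5 with ⟨b, c⟩ | ⟨b, c⟩ <;> rcases hs with hs | hs | hs | hs | hs | hs | hs | hs <;> rw [hs] <;>
    simp only [mul_one, mul_inv_cancel, ← conj_mul, a2, b, c] <;>
    simp only [h.nf, h.nz, mul_assoc, one_mul, mul_one, ne_eq, f1, n1, n2, not_false_eq_true]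

theorem core [Finite G] [IsSimpleGroup G] (h : Rel t f p z) (T : Sylow 2 G) (h3 : Nat.card G ≠ 2) (t2 : orderOf t = 2)
    (f1 : f ≠ 1) (ST : h.S ≤ T) (nc : ∀ s ∈ h.D, ¬ IsConj t s)
    (cov : ∀ v ∈ T, ∀ w ∈ T, v ∉ h.S → w ∉ h.S → v * w⁻¹ ∈ h.S) (act : ∀ w ∈ T, w ∉ h.S → Act t f p z w)
    {w : G} (wT : w ∈ T) (wS : w ∉ h.S) (ww : w * w ∈ h.D) : False := by
  have tD : t ∉ h.D := fun e => nc t e (IsConj.refl t)
  have key : ∀ w ∈ T, w ∉ h.S → w * w ∈ h.D → ∃ s ∈ h.D, s * w * (s * w) = 1 := fun w wT wS ww => by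
    have a := act w wT wS
    have hU : ∀ v, v ∈ ext2 h.D w (h.nor a) ww ↔ v ∈ h.D ∨ ∃ s ∈ h.D, v = s * w := fun _ => Iff.rfl
    have tU : t ∉ ext2 h.D w (h.nor a) ww := by
      rintro (e | ⟨s, hs, e⟩)
      · exact tD e
      · exact wS ((mul_mem_cancel_left (Or.inl hs : s ∈ h.S)).1 (e ▸ h.tS))
    rcases Cfsg.Agent.S0111.result T (ext2 h.D w (h.nor a) ww) (by
      rintro v (e | ⟨s, hs, rfl⟩)
      · exact ST (Or.inl e)
      · exact mul_mem (ST (Or.inl hs)) wT) (relIndex_eq_two_iff_exists_notMem_and.2 ⟨t, ST h.tS, tU, fun b hb => by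
        by_cases hS : b ∈ h.S
        · rcases hS with e | ⟨s, hs, rfl⟩
          · exact Or.inr (Or.inl e)
          · exact Or.inl (Or.inl (by rwa [mul_assoc, h.tt, mul_one]))
        · rcases cov b hb w wT hS wS with e | ⟨s, hs, e⟩
          · exact Or.inr (Or.inr ⟨_, e, by group⟩)
          · refine Or.inl (Or.inr ⟨_, mul_mem hs h.fD, ?_⟩)
            rw [show b * t = b * w⁻¹ * (w * t * w⁻¹) * w by group, e, a.1, mul_assoc s, ← mul_assoc t, h.tt, one_mul]⟩)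
        t t2 (ST h.tS) tU with ⟨M, hM, i2, -⟩ | ⟨g, e | ⟨s, hs, e⟩⟩
    · rcases hM.eq_bot_or_eq_top with rfl | rfl
      · exact absurd (index_bot.symm.trans i2) h3
      · simp at i2
    · exact absurd (isConj_iff.2 ⟨g, rfl⟩) (nc _ e)
    · exact ⟨s, hs, by rw [← e, conj_mul, h.tt]; group⟩
  have wt : w * t ∉ h.S := fun e => wS ((mul_mem_cancel_right h.tS).1 e)
  have a' := (act w⁻¹ (inv_mem wT) fun e => wS (inv_mem_iff.1 e)).1
  obtain ⟨s, hs, e1⟩ := key w wT wS ww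
  obtain ⟨r, hr, e2⟩ := key (w * t) (mul_mem wT (ST h.tS)) wt (by
    rw [show w * t * (w * t) = w * w * (w⁻¹ * t * w⁻¹⁻¹ * t) by group, a', ← h.ft, mul_assoc f, h.tt, mul_one]
    exact mul_mem ww h.fD)
  have a := act (s * w) (mul_mem (ST (Or.inl hs)) wT) fun e => wS ((mul_mem_cancel_left (Or.inl hs : s ∈ h.S)).1 e)
  have hq := mul_mem hr (inv_mem hs)
  refine h.noinv f1 a e1 hq ?_
  generalize hq' : r * s⁻¹ = q at hq ⊢
  have e3 : r * (w * t) = q * (s * w) * t := by rw [← hq']; group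
  generalize s * w = e at a e1 e3 ⊢
  have ei : e⁻¹ = e := inv_eq_of_mul_eq_one_right e1
  have e4 : q * e * t * (q * e * t) = q * (e * t * e⁻¹) * (e * q * e⁻¹) * (e * e) * t := by group
  have hq2 := h.cen (h.nor a q hq)
  rw [e3, e4, e1, a.1, mul_one, mul_assoc, mul_assoc, hq2.1, mul_assoc t, ← mul_assoc f, h.ft, mul_assoc t,
    ← mul_assoc t, h.tt, one_mul, ← hq2.2.1, ← mul_assoc] at e2
  exact e2

theorem sd16 [Finite G] {M : Subgroup G} {y c d : G} (h : Cfg M y t c z d) (T : Sylow 2 G) :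
    ∃ k : G, k * c * k⁻¹ ∈ T ∧ k * t * k⁻¹ ∈ T := by
  have h1 : IsPGroup 2 (zpowers t) := IsPGroup.of_card (n := 1) (by rw [Nat.card_zpowers, h.t2]; rfl)
  have h2 : IsPGroup 2 (zpowers c) := IsPGroup.of_card (n := 3) (by rw [Nat.card_zpowers, h.c8]; rfl)
  obtain ⟨k, hk⟩ := CL.Grp.exists_conj_le_sylow T (h1.to_sup_of_normal_right' h2 (zpowers_le.2
    (mem_normalizer_fintype (by
      rintro n ⟨i, rfl⟩
      show t * c ^ i * t⁻¹ ∈ zpowers c
      rw [← conj_zpow, h.tc]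
      exact zpow_mem (pow_mem (mem_zpowers c) 3) i))))
  exact ⟨k, hk (smul_mem_pointwise_smul _ _ _ (mem_sup_right (mem_zpowers c))),
    hk (smul_mem_pointwise_smul _ _ _ (mem_sup_left (mem_zpowers t)))⟩

end X8B

open X8B in
theorem x8bThm (hB : BasThm.{u}) (hF2 : F2Thm.{u}) (hN : NThm.{u}) : X8bThm.{u} := by
  intro G _ _ _ M y t c z d a g h al T x e
  obtain ⟨-, -, -, -, tz, -⟩ := hF2 G M y t c z d h
  have y3 : y ^ 3 = 1 := h.y3 ▸ pow_orderOf_eq_one y
  have yt : y * t * y⁻¹ = t := by rw [← h.ty, mul_inv_cancel_right]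
  have ga : g * a * g⁻¹ = a := by rw [al.ga, mul_inv_cancel_right]
  obtain ⟨u, hu⟩ : ∃ u, u = y * a * y⁻¹ := ⟨_, rfl⟩
  have uQ : u ∈ O2C t := hu ▸ tz.nor a al.aQ
  have r0 : R3 t a u := ⟨h.tt, al.a2, by rw [hu, conj_mul, al.a2]; group, tz.cen a al.aQ, tz.cen u uQ,
    hu ▸ ((hN G _ t y tz.toTri a al.aQ).2.2.1 al.a2).symm⟩
  have za : z * a = a * z := by
    have c1 : Commute a (t * d) := Commute.mul_right (tz.cen a al.aQ) al.ad
    have := (c1.pow_right 2).eq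
    rwa [h.td, ← pow_mul, ← h.hz, eq_comm] at this
  have u2 : y * u * y⁻¹ = t * (a * u) := by
    have := al.na
    rw [nm, ← hu, show y ^ 2 * a * (y ^ 2)⁻¹ = y * (y * a * y⁻¹) * y⁻¹ by rw [pow_two]; group, ← hu] at this
    rw [eq_inv_mul_of_mul_eq this]
    simp only [r0.nf, mul_assoc, mul_inv_rev]
  have zu : z * u = t * (a * u) * z := by
    have h1 : z * u * z⁻¹ = y * u * y⁻¹ := by
      have h2 : y⁻¹ = y * y := inv_eq_of_mul_eq_one_right (by rw [← y3, pow_three])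
      rw [hu, show z * (y * a * y⁻¹) * z⁻¹ = (z * y * z⁻¹) * (z * a * z⁻¹) * (z * y * z⁻¹)⁻¹ by group, h.zy, za,
        mul_inv_cancel_right]
      conv_lhs => rw [h2]
      group
    rw [← u2, ← h1, inv_mul_cancel_right]
  obtain ⟨f, hf⟩ : ∃ f, f = t * a := ⟨_, rfl⟩
  obtain ⟨p, hp⟩ : ∃ p, p = t * u := ⟨_, rfl⟩
  have r : Rel t f p z := by
    refine ⟨⟨h.tt, ?_, ?_, ?_, ?_, ?_⟩, h.zz, h.zt, ?_, ?_⟩ <;>
      simp only [hf, hp, r0.nf, mkNF h.zt, mkNF za, mkNF zu, mul_assoc, one_mul, mul_one]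
  have ha : a = t * f := by rw [hf, ← mul_assoc, h.tt, one_mul]
  have hu' : u = t * p := by rw [hp, ← mul_assoc, h.tt, one_mul]
  have f1 : f ≠ 1 := fun e1 => h.z_ne (by
    have h1 := al.ad
    have h2 := h.dtd
    rw [ha, e1, mul_one] at h1
    rw [← h1, mul_inv_cancel_right] at h2
    exact left_eq_mul.1 h2)
  have nf : ¬ IsConj t f := hf ▸ e.nf
  have c1 : IsConj f p := isConj_iff.2 ⟨y, by rw [hf, hp, ← conj_mul, yt, hu]⟩
  have c2 : IsConj p (f * p) := isConj_iff.2 ⟨y, by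
    rw [hf, hp, ← conj_mul, yt, u2]; simp only [r0.nf, mul_assoc, one_mul]⟩
  have c3 : IsConj z f := isConj_iff.2 ⟨g, hf ▸ al.gz⟩
  have c4 : IsConj f (f * z) := isConj_iff.2 ⟨g, by rw [hf, ← conj_mul, al.gt, ga, mul_assoc, mul_assoc, za]⟩
  have d1 : IsConj t (t * f) := isConj_iff.2 ⟨x, ha ▸ e.xt⟩
  have d2 : IsConj t (t * p) := d1.trans (isConj_iff.2 ⟨y, by rw [← ha, ← hu', hu]⟩)
  have d3 : IsConj t (t * (f * p)) := d2.trans (isConj_iff.2 ⟨y, by
    rw [← hu', u2, hf, hp]; simp only [r0.nf, mul_assoc, one_mul]⟩)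
  have d4 : IsConj t (t * z) := isConj_iff.2 ⟨g, al.gt⟩
  have d5 : IsConj t (t * (f * z)) := d4.trans (isConj_iff.2 ⟨g, by
    rw [← conj_mul, al.gt, al.gz, ← hf]; simp only [r.nz, mul_assoc]⟩)
  have nc : ∀ s ∈ r.D, ¬ IsConj t s := fun s hs k => by
    have sq : s * s = 1 := by
      obtain ⟨k, rfl⟩ := isConj_iff.1 k
      rw [conj_mul, h.tt]; group
    rcases hs with hs | hs | hs | hs | hs | hs | hs | hs <;> rw [hs] at k sq
    · have := h.t2
      rw [isConj_one_left.1 k, orderOf_one] at this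
      exact absurd this (by norm_num)
    · exact nf k
    · exact nf (k.trans c1.symm)
    · exact nf (k.trans (c1.trans c2).symm)
    · exact nf (k.trans c3)
    · exact nf (k.trans c4.symm)
    · exact f1 (by simpa only [r.nf, r.nz, mul_assoc, one_mul, mul_one] using sq)
    · exact f1 (by simpa only [r.nf, r.nz, mul_assoc, one_mul, mul_one] using sq)
  have hQ : ∀ q ∈ O2C t, q ∈ r.toR3.W := fun q hq => by
    rw [e.memQ, ← hu, hu', ha] at hq
    refine (closure_le _).2 ?_ hq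
    simp [Set.insert_subset_iff, R3.mem_W]
  have hP : ∀ q ∈ O2C a, q ∈ r.r3.W := fun q hq => by
    rw [e.memP, ha] at hq
    refine (closure_le _).2 ?_ hq
    simp [Set.insert_subset_iff, R3.mem_W]
  have fS : f ∈ r.S := Or.inl r.fD
  have pS : p ∈ r.S := Or.inl r.pD
  have zS : z ∈ r.S := Or.inl r.zD
  have QS : ∀ q ∈ O2C t, q ∈ r.S := fun q hq => by
    rcases hQ q hq with k | k | k | k | k | k | k | k <;> simp only [k, one_mem, mul_mem, fS, pS, r.tS]
  have tT : t ∈ T := e.QT tz.tQ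
  have fT : f ∈ T := hf ▸ mul_mem tT (e.QT al.aQ)
  have pT : p ∈ T := hp ▸ mul_mem tT (e.QT uQ)
  have zT : z ∈ T := e.zT
  have DT : ∀ s ∈ r.D, s ∈ T := fun s hs => by
    rcases hs with k | k | k | k | k | k | k | k <;> simp only [k, one_mem, mul_mem, fT, pT, zT]
  have ST : r.S ≤ T := by
    rintro s (hs | ⟨s, hs, rfl⟩)
    · exact DT s hs
    · exact mul_mem (DT s hs) tT
  have cov : ∀ w ∈ T, w ∉ r.S → w * x ∈ r.S := fun w hw n => by
    rcases e.cov w hw with (k | k) | k | k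
    · exact absurd (QS _ k) n
    · exact absurd ((mul_mem_cancel_right zS).1 (QS _ k)) n
    · exact QS _ k
    · exact (mul_mem_cancel_right zS).1 (QS _ k)
  have wa : ∀ w ∈ T, w ∉ r.S → w * a * w⁻¹ = t := fun w hw n => by
    rw [← e.xt, show w * (x * t * x⁻¹) * w⁻¹ = w * x * t * (w * x)⁻¹ by group, (r.cenS (cov w hw n)).1,
      mul_inv_cancel_right]
  have act : ∀ w ∈ T, w ∉ r.S → Act t f p z w := fun w hw n => by
    have a1 := wa w hw n
    have a2 : w * t * w⁻¹ = a := by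
      rw [← wa w⁻¹ (inv_mem hw) fun k => n (inv_mem_iff.1 k)]; group
    have a3 : w * f * w⁻¹ = f := by rw [hf, ← conj_mul, a1, a2, r0.ft]
    have inj : ∀ v, w * v * w⁻¹ = f → v = f := fun v k => conj_injective (k.trans a3.symm)
    have one : ∀ v, w * v * w⁻¹ = 1 → v = 1 := fun v k => conj_eq_one_iff.1 k
    have ncw : ∀ v ∈ r.D, ∀ s, IsConj t s → w * v * w⁻¹ ≠ s := fun v hv s k k' =>
      nc v hv (k.trans (isConj_iff.2 ⟨w, k'⟩).symm)
    refine ⟨ha ▸ a2, a3, ?_, ?_⟩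
    · have := ((hB G t).2.2.1 w p).1 (hp ▸ mul_mem tz.tQ uQ)
      rw [a2] at this
      rcases hP _ this with k | k | k | k | k | k | k | k
      · exact absurd (isConj_one_left.1 (one _ k ▸ c1)) f1
      · have := r.zp
        rw [inj _ k, r.zf] at this
        exact absurd (right_eq_mul.1 this) f1
      · exact Or.inl k
      · exact Or.inr k
      · exact absurd k (ncw p r.pD _ (IsConj.refl t))
      · exact absurd k (ncw p r.pD _ d1)
      · exact absurd k (ncw p r.pD _ d4)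
      · exact absurd k (ncw p r.pD _ d5)
    · have := ((hB G a).2.2.1 w z).1 ((e.memP z).2 (subset_closure (by simp)))
      rw [a1] at this
      rcases hQ _ this with k | k | k | k | k | k | k | k
      · exact absurd (one _ k) h.z_ne
      · have := r.zp
        rw [inj _ k, r.pf, mul_right_inj] at this
        exact absurd (right_eq_mul.1 this) f1
      · exact Or.inl k
      · exact Or.inr k
      · exact absurd k (ncw z r.zD _ (IsConj.refl t))
      · exact absurd k (ncw z r.zD _ d1)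
      · exact absurd k (ncw z r.zD _ d2)
      · exact absurd k (ncw z r.zD _ d3)
  have fin : ∀ w ∈ T, w ∉ r.S → w * w ∈ r.D → False := fun w hw n ww =>
    core r T (fun k => absurd (h.y3 ▸ k ▸ orderOf_dvd_natCard y : 3 ∣ 2) (by norm_num)) h.t2 f1 ST nc
      (fun v hv w hw n n' => by
        rw [show v * w⁻¹ = v * x * (w * x)⁻¹ by group]
        exact mul_mem (cov v hv n) (inv_mem (cov w hw n'))) act hw n ww
  have inv : ∀ w ∈ T, IsConj t w → ∃ s ∈ r.D, w = s * t := fun w hw k => by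
    by_cases n : w ∈ r.S
    · exact n.resolve_left fun n => nc w n k
    · refine (fin w hw n ?_).elim
      obtain ⟨k, rfl⟩ := isConj_iff.1 k
      rw [conj_mul, h.tt, mul_one, mul_inv_cancel]
      exact one_mem _
  obtain ⟨k, kc, kt⟩ := sd16 h T
  obtain ⟨s, hs, e1⟩ := inv _ kt (isConj_iff.2 ⟨k, rfl⟩)
  obtain ⟨s', hs', e2⟩ := inv (k * d * k⁻¹) (by
    rw [h.hd, ← conj_mul, ← conj_mul, ← conj_inv]
    exact mul_mem (mul_mem kc kt) (inv_mem kc)) (isConj_iff.2 ⟨k * c, by rw [h.hd]; group⟩)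
  refine fin _ kc (fun n => h.z_ne ?_) ?_
  · have := (r.cenS n).2.2
    rwa [conj_mul, conj_mul, conj_eq_one_iff, ← pow_two c, ← pow_add, ← h.hz] at this
  · rw [conj_mul, ← pow_two, ← h.td, ← conj_mul, e1, e2, mul_assoc, ← mul_assoc t, ← (r.cen hs').1, mul_assoc s',
      h.tt, mul_one]
    exact mul_mem hs hs'

end CL.L11
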