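/-
Project L11: the case `|O₂(C(t))| = 32` is extraspecial.
-/
import Cfsg.Agent.L11.Defs
import Cfsg.Agent.Grp.ExtraBasic
import Cfsg.Agent.Loc.FStar

set_option autoImplicit false
open Subgroup
open scoped commutatorElement

namespace CL.L11

universe u

namespace XS

section abs
variable {P : Type*} [Group P] [Finite P] {t : P}

theorem refl_aut (tt : t * t = 1) (hcen : ∀ q, q * t = t * q) (hc : ∀ p q : P, p * q = q * p ∨ p * q = q * p * t)
    (ht : t ≠ 1) {w : P} (hw : w * w = t) : ∃ σ : MulAut P, ∀ x, x * w ≠ w * x → σ x = x * w := by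
  classical
  let f : P → P := fun x => if x * w = w * x then x else x * w
  have hn : ∀ x, x * w ≠ w * x → w * x = x * w * t := fun x hx => (hc w x).resolve_left fun h => hx h.symm
  have hne : ∀ a : P, a * t ≠ a := fun a h => ht (mul_left_cancel (h.trans (mul_one a).symm))
  have hmul : ∀ x y, f (x * y) = f x * f y := by
    intro x y
    by_cases hx : x * w = w * x <;> by_cases hy : y * w = w * y
    · have : x * y * w = w * (x * y) := by rw [mul_assoc, hy, ← mul_assoc, hx, mul_assoc]
      simp only [f, if_pos hx, if_pos hy, if_pos this]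
    · have : ¬ x * y * w = w * (x * y) := by
        intro h
        apply hy
        rw [← mul_assoc, ← hx, mul_assoc, mul_assoc] at h
        exact mul_left_cancel h
      simp only [f, if_pos hx, if_neg hy, if_neg this, mul_assoc]
    · have : ¬ x * y * w = w * (x * y) := by
        intro h
        apply hx
        rw [mul_assoc, hy, ← mul_assoc, ← mul_assoc] at h
        exact mul_right_cancel h
      simp only [f, if_neg hx, if_pos hy, if_neg this]
      rw [mul_assoc, hy, mul_assoc]
    · have e : w * (x * y) = x * y * w := by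
        calc w * (x * y) = (w * x) * y := by rw [mul_assoc]
          _ = x * (w * (t * y)) := by rw [hn x hx]; simp only [mul_assoc]
          _ = x * (w * y) * t := by rw [← hcen y]; simp only [mul_assoc]
          _ = x * y * w * (t * t) := by rw [hn y hy]; simp only [mul_assoc]
          _ = x * y * w := by rw [tt, mul_one]
      simp only [f, if_neg hx, if_neg hy, if_pos e.symm]
      calc x * y = x * y * (t * t) := by rw [tt, mul_one]
        _ = x * (y * w * t) * w := by
          rw [mul_assoc y w t, hcen w]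
          calc x * y * (t * t) = x * y * (t * (w * w)) := by rw [hw]
            _ = _ := by simp only [mul_assoc]
        _ = x * w * (y * w) := by rw [← hn y hy]; simp only [mul_assoc]
  let F : P →* P := MonoidHom.mk' f hmul
  have hF : Function.Injective F := by
    rw [injective_iff_map_eq_one]
    intro x hx
    by_cases h : x * w = w * x
    · have : F x = x := if_pos h
      rw [← this, hx]
    · have : F x = x * w := if_neg h
      rw [this] at hx
      exact absurd (hx.trans (mul_eq_one_comm.1 hx).symm) h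
  exact ⟨MulEquiv.ofBijective F (Finite.injective_iff_bijective.1 hF), fun x hx => if_neg hx⟩

theorem abs (hP : IsPGroup 2 P) (tt : t * t = 1) (ht : t ≠ 1) (hcen : ∀ q, q * t = t * q)
    (hZ : ∀ q : P, (∀ p, q * p = p * q) → q = 1 ∨ q = t) (hc : ∀ p q : P, p * q = q * p ∨ p * q = q * p * t)
    (hex : ∃ u : P, u ≠ 1 ∧ u ≠ t) : Cfsg.IsOfSymplecticType P ∧ Cfsg.IsExtraspecial 2 P := by
  have hsq : ∀ q : P, q * q = 1 ∨ q * q = t := by
    intro q
    refine hZ _ fun p => ?_
    rcases hc q p with h | h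
    · rw [mul_assoc, h, ← mul_assoc, h, mul_assoc]
    · calc q * q * p = q * (q * p) := by rw [mul_assoc]
        _ = (q * p) * q * t := by rw [h]; simp only [mul_assoc]; rw [← mul_assoc q p, h]; simp only [mul_assoc]
        _ = p * q * (t * q) * t := by rw [h]; simp only [mul_assoc]
        _ = p * (q * q) * (t * t) := by rw [← hcen q]; simp only [mul_assoc]
        _ = p * (q * q) := by rw [tt, mul_one]
  refine ⟨⟨hP, fun U hU hab => ?_⟩, ?_⟩
  · have hcm : ∀ a ∈ U, ∀ b ∈ U, a * b = b * a := fun a ha b hb =>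
      congrArg Subtype.val (hab.1.1 (⟨a, ha⟩ : U) ⟨b, hb⟩)
    have key : ∀ a ∈ U, a ≠ 1 → a ≠ t → a * a = t := by
      intro a ha h1 h2
      have hw : ∀ w, a * w ≠ w * a → w * w = 1 := by
        intro w hw
        refine (hsq w).resolve_right fun h => hw ?_
        obtain ⟨σ, hσ⟩ := refl_aut tt hcen hc ht h
        have h3 : σ a ∈ U := by
          have := hU.fixed σ
          rw [← this] at ha
          exact ha
        rw [hσ a hw] at h3
        exact hcm a ha w ((U.mul_mem_cancel_left ha).1 h3)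
      obtain ⟨v, hv⟩ : ∃ v, a * v ≠ v * a := by
        by_contra h
        push Not at h
        exact (hZ a h).elim h1 h2
      have h4 := hw v hv
      have h5 := hw (a * v) (fun h => hv (by rw [mul_assoc] at h; exact mul_left_cancel h))
      have h6 : v * a = a * v * t := (hc v a).resolve_left fun h => hv h.symm
      have h7 : a * a * t = 1 := by
        calc a * a * t = a * a * (v * v) * t := by rw [h4, mul_one]
          _ = a * (a * v * t) * v := by rw [mul_assoc _ _ t, mul_assoc v v t, hcen v]; simp only [mul_assoc]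
          _ = a * v * (a * v) := by rw [← h6]; simp only [mul_assoc]
          _ = 1 := h5
      exact mul_right_cancel (h7.trans tt.symm)
    by_cases h : ∃ a ∈ U, a ≠ 1 ∧ a ≠ t
    · obtain ⟨a, ha, h1, h2⟩ := h
      have hta : t ∈ zpowers a := by rw [← key a ha h1 h2]; exact mul_mem (mem_zpowers a) (mem_zpowers a)
      have hle : U ≤ zpowers a := by
        intro b hb
        by_cases hb1 : b = 1
        · rw [hb1]; exact one_mem _
        by_cases hb2 : b = t
        · rw [hb2]; exact hta
        refine ((zpowers a).mul_mem_cancel_left (mem_zpowers a)).1 ?_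
        by_cases h3 : a * b = 1
        · rw [h3]; exact one_mem _
        by_cases h4 : a * b = t
        · rw [h4]; exact hta
        exfalso
        have h5 := key _ (mul_mem ha hb) h3 h4
        apply ht
        calc t = a * (b * a) * b := by rw [← h5]; simp only [mul_assoc]
          _ = (a * a) * (b * b) := by rw [← hcm a ha b hb]; simp only [mul_assoc]
          _ = 1 := by rw [key a ha h1 h2, key b hb hb1 hb2, tt]
      exact Subgroup.isCyclic_of_le hle
    · push Not at h
      have hle : U ≤ zpowers t := by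
        intro b hb
        by_cases hb1 : b = 1
        · rw [hb1]; exact one_mem _
        · rw [h b hb hb1]; exact mem_zpowers t
      exact Subgroup.isCyclic_of_le hle
  · have htc : t ∈ center P := mem_center_iff.2 hcen
    have hz : center P = zpowers t := by
      refine le_antisymm (fun q hq => ?_) (zpowers_le.2 htc)
      rcases hZ q (fun p => (mem_center_iff.1 hq p).symm) with h | h
      · rw [h]; exact one_mem _
      · rw [h]; exact mem_zpowers t
    refine CL.Grp.isExtraspecial_of_center ?_ ?_ (fun h => ?_) hP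
    · rw [hz, Nat.card_zpowers]
      exact orderOf_eq_prime (by rw [pow_two, tt]) ht
    · refine commutator_le.2 fun p _ q _ => ?_
      rcases hc p q with h | h
      · rw [commutatorElement_eq_one_iff_mul_comm.2 h]; exact one_mem _
      · have : ⁅p, q⁆ = t := by
          rw [commutatorElement_def, h, hcen]; group
        rw [this]; exact htc
    · obtain ⟨v, h1, h2⟩ := hex
      exact (hZ v fun p => h.1.1 v p).elim h1 h2

end abs

variable {G : Type*} [Group G] {Q : Subgroup G} {t y : G}

theorem tri_tt (h : Tri Q t y) : t * t = 1 := by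
  have := pow_orderOf_eq_one t; rwa [h.t2, pow_two] at this

theorem card_mod [Finite G] (h : Tri Q t y) {X : Subgroup G} (hX : X ≤ Q) (htX : t ∈ X)
    (hy : ∀ x ∈ X, y * x * y⁻¹ ∈ X) : Nat.card X % 3 = 2 := by
  classical
  haveI : Fintype X := Fintype.ofFinite X
  haveI : Fact (Nat.Prime 3) := ⟨Nat.prime_three⟩
  let f : Function.End X := fun x => ⟨y * x * y⁻¹, hy x x.2⟩
  have h3 : y * y * y = 1 := by
    have := pow_orderOf_eq_one y
    rwa [h.y3, pow_succ, pow_two] at this
  have hf : f ^ 3 ^ 1 = 1 := by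
    funext x
    apply Subtype.ext
    change y * (y * (y * x * y⁻¹) * y⁻¹) * y⁻¹ = x
    calc y * (y * (y * x * y⁻¹) * y⁻¹) * y⁻¹ = (y * y * y) * x * (y * y * y)⁻¹ := by group
      _ = x := by rw [h3]; group
  have h1 := Equiv.Perm.card_fixedPoints_modEq hf
  have ht1 : t ≠ 1 := by
    intro e
    have := h.t2
    rw [e, orderOf_one] at this
    omega
  have h2 : f.fixedPoints = {(1 : X), ⟨t, htX⟩} := by
    ext x
    simp only [Function.mem_fixedPoints_iff, Set.mem_insert_iff, Set.mem_singleton_iff]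
    constructor
    · intro hx
      have e : y * x * y⁻¹ = x := congrArg Subtype.val hx
      rcases h.fix x (hX x.2) (by rw [mul_inv_eq_iff_eq_mul] at e; exact e.symm) with e1 | e1
      · exact Or.inl (Subtype.ext e1)
      · exact Or.inr (Subtype.ext e1)
    · rintro (rfl | rfl)
      · exact Subtype.ext (by simp [f])
      · exact Subtype.ext (by change y * t * y⁻¹ = t; rw [← h.ty]; group)
  rw [← Nat.card_eq_fintype_card, ← Nat.card_eq_fintype_card, h2, Nat.card_coe_set_eq,
    Set.ncard_pair (fun e => ht1 (congrArg Subtype.val e).symm)] at h1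
  exact h1

/-- the elements of `Q` commuting with the members of `S` modulo `t` -/
def D (h : Tri Q t y) (S : Set G) : Subgroup G where
  carrier := {v | v ∈ Q ∧ ∀ s ∈ S, s * v = v * s ∨ s * v = v * s * t}
  one_mem' := ⟨one_mem _, fun s _ => Or.inl (by simp)⟩
  mul_mem' := by
    rintro v w ⟨hv, h1⟩ ⟨hw, h2⟩
    refine ⟨mul_mem hv hw, fun s hs => ?_⟩
    rcases h1 s hs with e1 | e1 <;> rcases h2 s hs with e2 | e2
    · left; rw [← mul_assoc, e1, mul_assoc, e2, mul_assoc]
    · right; rw [← mul_assoc, e1, mul_assoc, e2]; simp only [mul_assoc]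
    · right
      rw [← mul_assoc, e1, mul_assoc, ← h.cen w hw, ← mul_assoc, mul_assoc v, e2]; simp only [mul_assoc]
    · left
      rw [← mul_assoc, e1, mul_assoc, ← h.cen w hw, ← mul_assoc, mul_assoc v, e2]
      simp only [mul_assoc]
      rw [tri_tt h, mul_one]
  inv_mem' := by
    rintro v ⟨hv, h1⟩
    refine ⟨inv_mem hv, fun s hs => ?_⟩
    rcases h1 s hs with e1 | e1
    · left
      calc s * v⁻¹ = v⁻¹ * (v * s) * v⁻¹ := by group
        _ = v⁻¹ * s := by rw [← e1]; group
    · right
      have e2 : s * v * t = v * s := by rw [e1, mul_assoc, tri_tt h, mul_one]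
      calc s * v⁻¹ = v⁻¹ * (v * s) * v⁻¹ := by group
        _ = v⁻¹ * s * (v * t) * v⁻¹ := by rw [← e2]; group
        _ = v⁻¹ * s * t := by rw [h.cen v hv]; group

theorem sym (h : Tri Q t y) {a b : G} (e : a * b = b * a ∨ a * b = b * a * t) : b * a = a * b ∨ b * a = a * b * t := by
  rcases e with e | e
  · exact Or.inl e.symm
  · exact Or.inr (by rw [e, mul_assoc, tri_tt h, mul_one])

theorem cj (h : Tri Q t y) {a b : G} (e : a * b = b * a ∨ a * b = b * a * t) :
    y * a * y⁻¹ * (y * b * y⁻¹) = y * b * y⁻¹ * (y * a * y⁻¹) ∨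
      y * a * y⁻¹ * (y * b * y⁻¹) = y * b * y⁻¹ * (y * a * y⁻¹) * t := by
  have e0 : y * a * y⁻¹ * (y * b * y⁻¹) = y * (a * b) * y⁻¹ := by group
  rw [e0]
  rcases e with e | e
  · left; rw [e]; group
  · right
    have : t = y * t * y⁻¹ := by rw [← h.ty]; group
    rw [e]
    calc y * (b * a * t) * y⁻¹ = y * b * y⁻¹ * (y * a * y⁻¹) * (y * t * y⁻¹) := by group
      _ = _ := by rw [← this]

theorem exists_central [Finite G] (h : Tri Q t y) (h32 : Nat.card Q = 32) :
    ∃ v ∈ D h (Q : Set G), v ≠ 1 ∧ v ≠ t := by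
  classical
  let t' : Q := ⟨t, h.tQ⟩
  have hcz : zpowers t' ≤ center Q := zpowers_le.2 (mem_center_iff.2 fun g => Subtype.ext (h.cen g g.2))
  haveI : (zpowers t').Normal := ⟨fun n hn g => by
    rw [mem_center_iff.1 (hcz hn) g, mul_inv_cancel_right]; exact hn⟩
  have ho : orderOf t' = 2 := by rw [← Subgroup.orderOf_coe]; exact h.t2
  have hcard : Nat.card (Q ⧸ zpowers t') = 16 := by
    have := card_eq_card_quotient_mul_card_subgroup (zpowers t')
    rw [Nat.card_zpowers, ho, h32] at this
    omega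
  haveI : Nontrivial (Q ⧸ zpowers t') := Finite.one_lt_card_iff_nontrivial.1 (by omega)
  haveI := (h.pg.to_quotient (zpowers t')).center_nontrivial
  obtain ⟨⟨c, hc⟩, hc1⟩ := exists_ne (1 : center (Q ⧸ zpowers t'))
  obtain ⟨v, rfl⟩ := QuotientGroup.mk_surjective c
  have hv : v ∉ zpowers t' := fun e => hc1 (Subtype.ext ((QuotientGroup.eq_one_iff v).2 e))
  refine ⟨v, ⟨v.2, fun s hs => ?_⟩, fun e => hv (by rw [show v = 1 from Subtype.ext e]; exact one_mem _),
    fun e => hv (by rw [show v = t' from Subtype.ext e]; exact mem_zpowers _)⟩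
  have e := (mem_center_iff.1 hc ((⟨s, hs⟩ : Q) : Q ⧸ zpowers t')).symm
  rw [← QuotientGroup.mk_mul, ← QuotientGroup.mk_mul, QuotientGroup.eq] at e
  obtain ⟨n, hn⟩ := (mem_zpowers_iff_mem_range_orderOf.1 e |> Finset.mem_image.1)
  rw [ho, Finset.mem_range] at hn
  obtain ⟨hn, e2⟩ := hn
  have e3 : t ^ n = ((v : G) * s)⁻¹ * (s * v) := congrArg Subtype.val e2
  rw [eq_inv_mul_iff_mul_eq] at e3
  interval_cases n
  · left; rw [← e3, pow_zero, mul_one]
  · right; rw [← e3, pow_one]

theorem comm_mod [Finite G] (h : Tri Q t y) (h32 : Nat.card Q = 32)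
    (hN : ∀ u ∈ Q, u * (y * u * y⁻¹) = (y * u * y⁻¹) * u ∨ u * (y * u * y⁻¹) = (y * u * y⁻¹) * u * t) :
    ∀ p ∈ Q, ∀ q ∈ Q, p * q = q * p ∨ p * q = q * p * t := by
  classical
  have h3 : y * y * y = 1 := by
    have := pow_orderOf_eq_one y
    rwa [h.y3, pow_succ, pow_two] at this
  have c3 : ∀ x : G, y * (y * (y * x * y⁻¹) * y⁻¹) * y⁻¹ = x := fun x => by
    calc y * (y * (y * x * y⁻¹) * y⁻¹) * y⁻¹ = (y * y * y) * x * (y * y * y)⁻¹ := by group
      _ = x := by rw [h3]; group
  have hcard : ∀ S : Set G, S ⊆ Q → (∀ s ∈ S, y * (y * s * y⁻¹) * y⁻¹ ∈ S) →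
      Nat.card (D h S) = 2 ∨ Nat.card (D h S) = 8 ∨ Nat.card (D h S) = 32 := by
    intro S hS hy
    have hle : D h S ≤ Q := fun v hv => hv.1
    have h1 := card_mod h hle ⟨h.tQ, fun s hs => Or.inl (h.cen s (hS hs))⟩ (fun v hv => ⟨h.nor v hv.1, fun s hs => by
      have := cj h (hv.2 _ (hy s hs))
      rwa [c3] at this⟩)
    have h2 : Nat.card (D h S) ∣ 2 ^ 5 := by
      have := card_dvd_of_le hle
      rwa [h32] at this
    obtain ⟨k, hk, e⟩ := (Nat.dvd_prime_pow Nat.prime_two).1 h2
    rw [e] at h1 ⊢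
    interval_cases k <;> simp_all
  have hZ := hcard Q subset_rfl fun s hs => h.nor _ (h.nor s hs)
  have hZ2 : Nat.card (D h (Q : Set G)) ≠ 2 := by
    intro e
    obtain ⟨v, hv, h1, h2⟩ := exists_central h h32
    have hle : zpowers t ≤ D h (Q : Set G) := zpowers_le.2 ⟨h.tQ, fun s hs => Or.inl (h.cen s hs)⟩
    have := eq_of_le_of_card_ge hle (by rw [e, Nat.card_zpowers, h.t2])
    rw [← this] at hv
    obtain ⟨n, hn⟩ := (mem_zpowers_iff_mem_range_orderOf.1 hv |> Finset.mem_image.1)
    rw [h.t2, Finset.mem_range] at hn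
    obtain ⟨hn, e2⟩ := hn
    interval_cases n
    · exact h1 (by rw [← e2, pow_zero])
    · exact h2 (by rw [← e2, pow_one])
  intro p hp q hq
  let S : Set G := {p, y * p * y⁻¹, y * (y * p * y⁻¹) * y⁻¹}
  have hS : S ⊆ Q := by
    rintro s (rfl | rfl | rfl)
    · exact hp
    · exact h.nor _ hp
    · exact h.nor _ (h.nor _ hp)
  have hX := hcard S hS (by
    rintro s (rfl | rfl | rfl)
    · exact Or.inr (Or.inr rfl)
    · exact Or.inl (c3 _)
    · exact Or.inr (Or.inl (c3 _)))
  have hle : D h (Q : Set G) ≤ D h S := fun v hv => ⟨hv.1, fun s hs => hv.2 s (hS hs)⟩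
  have hpX : p ∈ D h S := by
    refine ⟨hp, ?_⟩
    rintro s (rfl | rfl | rfl)
    · exact Or.inl rfl
    · exact sym h (hN p hp)
    · have := hN _ (h.nor _ (h.nor _ hp))
      rwa [c3] at this
  have hc := card_le_of_le hle
  by_cases e : Nat.card (D h S) = 32
  · have := eq_of_le_of_card_ge (show D h S ≤ Q from fun v hv => hv.1) (by omega)
    have hq' : q ∈ D h S := by rw [this]; exact hq
    exact hq'.2 p (Or.inl rfl)
  · have := eq_of_le_of_card_ge hle (by omega)
    rw [← this] at hpX
    exact sym h (hpX.2 q hq)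

end XS

theorem xsThm (hB : BasThm.{u}) (hF2 : F2Thm.{u}) (hN : NThm.{u}) : XSThm.{u} := by
  intro G _ _ M y t c z d h h6 h32 hZ
  obtain ⟨-, hF, -, -, hT, -, -, -, hord⟩ := hF2 G M y t c z d h
  have hTri : Tri (O2C t) t y := hT.toTri
  have hc := XS.comm_mod hTri h32 fun v hv => (hN G _ t y hTri v hv).2.1
  obtain ⟨v, hv, hv1, hv2⟩ := XS.exists_central hTri h32
  have ht1 : t ≠ 1 := by
    intro e
    have := h.t2
    rw [e, orderOf_one] at this
    omega
  have hmem : ∀ x : centralizer ({t} : Set G), (x : G) ∈ O2C t ↔ x ∈ Cfsg.pCore 2 (centralizer ({t} : Set G)) :=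
    fun x => ⟨by rintro ⟨w, hw, e⟩; exact (Subtype.ext e : w = x) ▸ hw, fun hx => ⟨x, hx, rfl⟩⟩
  have hF' : Cfsg.generalizedFittingSubgroup (centralizer ({t} : Set G)) = Cfsg.pCore 2 (centralizer ({t} : Set G)) := by
    rw [CL.Loc.fstar_eq_pCore_iff]
    intro x hx
    obtain ⟨φ, hφ, hk⟩ := h6
    rw [← hmem, ← hk]
    by_contra hx1
    obtain ⟨b, hb1, hb3⟩ := (by decide +kernel : ∀ a : Equiv.Perm (Fin 3), a ≠ 1 → ∃ b : Equiv.Perm (Fin 3),
      b * a * b⁻¹ * a ≠ 1 ∧ (b * a * b⁻¹ * a) ^ 3 = 1) (φ x) hx1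
    obtain ⟨g, rfl⟩ := hφ b
    haveI : Fact (Nat.Prime 3) := ⟨Nat.prime_three⟩
    have hk3 : 3 ∣ orderOf ((g * x * g⁻¹ * x : centralizer ({t} : Set G)) : G) := by
      rw [Subgroup.orderOf_coe, ← orderOf_eq_prime hb3 hb1, ← map_inv, ← map_mul, ← map_mul, ← map_mul]
      exact orderOf_map_dvd φ _
    obtain ⟨k, -, hk'⟩ := hord _ hk3
    have hxc : ∀ q ∈ O2C t, q * (x : G) = x * q := by
      rintro _ ⟨w, hw, rfl⟩
      exact congrArg Subtype.val (hx w hw)
    have hcom : ∀ q ∈ O2C t, Commute q (((g * x * g⁻¹ * x : centralizer ({t} : Set G)) : G) ^ k) := by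
      intro q hq
      refine Commute.pow_right (Commute.mul_right ?_ (hxc q hq)) k
      have hg : (g : G)⁻¹ * t = t * (g : G)⁻¹ := mem_centralizer_singleton_iff.1 (inv_mem g.2)
      have h1 := hxc _ ((hB G t).2.2.2.1 _ hg q hq)
      change q * ((g : G) * x * (g : G)⁻¹) = (g : G) * x * (g : G)⁻¹ * q
      calc q * ((g : G) * x * (g : G)⁻¹) = g * ((g : G)⁻¹ * q * (g : G)⁻¹⁻¹ * x) * (g : G)⁻¹ := by group
        _ = _ := by rw [h1]; group
    exact hv2 (hF _ hk' (O2C t) hTri.pg v hv.1 t hTri.tQ hv1 ht1 (hcom v hv.1) (hcom t hTri.tQ))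
  rw [hF']
  have htC : t ∈ centralizer ({t} : Set G) := mem_centralizer_singleton_iff.2 rfl
  have hvC : v ∈ centralizer ({t} : Set G) := mem_centralizer_singleton_iff.2 (hTri.cen v hv.1)
  have hin : ∀ x : Cfsg.pCore 2 (centralizer ({t} : Set G)), ((x : centralizer ({t} : Set G)) : G) ∈ O2C t :=
    fun x => (hmem _).2 x.2
  have hext : ∀ {a b : Cfsg.pCore 2 (centralizer ({t} : Set G))},
      ((a : centralizer ({t} : Set G)) : G) = ((b : centralizer ({t} : Set G)) : G) → a = b :=
    fun e => Subtype.ext (Subtype.ext e)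
  have key := XS.abs (P := Cfsg.pCore 2 (centralizer ({t} : Set G))) (t := ⟨⟨t, htC⟩, (hmem _).1 hTri.tQ⟩)
    (CL.Grp.pCore_isPGroup 2 _) (hext h.tt) (fun e => ht1 (congrArg (fun x => ((x.1 : centralizer ({t} : Set G)) : G)) e))
    (fun q => hext (hTri.cen _ (hin q)))
    (fun q hq => by
      refine (hZ _ (hin q) ?_).imp hext hext
      rintro _ ⟨w, hw, rfl⟩
      exact congrArg (fun x => ((x.1 : centralizer ({t} : Set G)) : G)) (hq ⟨w, hw⟩))
    (fun p q => (hc _ (hin p) _ (hin q)).imp hext hext)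
    ⟨⟨⟨v, hvC⟩, (hmem _).1 hv.1⟩, fun e => hv1 (congrArg (fun x => ((x.1 : centralizer ({t} : Set G)) : G)) e),
      fun e => hv2 (congrArg (fun x => ((x.1 : centralizer ({t} : Set G)) : G)) e)⟩
  refine ⟨key.1, key.2, ?_⟩
  rw [← h32, O2C, card_map_of_injective (subtype_injective _)]

end CL.L11
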