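/-
Project L11: the order and the centre of `O₂(C(t))` when `C(t) / O₂(C(t)) ≅ S₃`.
-/
import Cfsg.Agent.L11.Defs
import Cfsg.Agent.Cls.SL2Quat

set_option autoImplicit false
open Subgroup

namespace CL.L11

universe u

namespace Yx

variable {G : Type*} [Group G]

theorem two {s u v : G} (hs : s * s = 1) (hu : u = 1 ∨ u = s) (hv : v = 1 ∨ v = s) : u * v = 1 ∨ u * v = s := by
  rcases hu with rfl | rfl <;> rcases hv with rfl | rfl <;> simp [hs]

theorem cm {s r u v : G} (h : Commute s r) (hu : u = 1 ∨ u = s) (hv : v = 1 ∨ v = r) : Commute u v := by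
  rcases hu with rfl | rfl <;> rcases hv with rfl | rfl <;> simp [h]

theorem cases {t z a x : G} (ht : t * t = 1) (hz : z * z = 1) (ha : a * a = 1) (h1 : Commute z t) (h2 : Commute a t)
    (h3 : Commute a z) (hx : x ∈ closure ({t, z, a} : Set G)) :
    ∃ u v w, (u = 1 ∨ u = t) ∧ (v = 1 ∨ v = z) ∧ (w = 1 ∨ w = a) ∧ x = u * v * w := by
  have sq : ∀ {s u : G}, s * s = 1 → (u = 1 ∨ u = s) → u⁻¹ = u := fun hs hu => by
    rcases hu with rfl | rfl
    exacts [inv_one, inv_eq_of_mul_eq_one_right hs]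
  induction hx using closure_induction with
  | mem x hx =>
    rcases hx with rfl | rfl | rfl
    · exact ⟨x, 1, 1, .inr rfl, .inl rfl, .inl rfl, by simp⟩
    · exact ⟨1, x, 1, .inl rfl, .inr rfl, .inl rfl, by simp⟩
    · exact ⟨1, 1, x, .inl rfl, .inl rfl, .inr rfl, by simp⟩
  | one => exact ⟨1, 1, 1, .inl rfl, .inl rfl, .inl rfl, by simp⟩
  | mul x x' _ _ hx hx' =>
    obtain ⟨u, v, w, hu, hv, hw, rfl⟩ := hx
    obtain ⟨u', v', w', hu', hv', hw', rfl⟩ := hx'
    refine ⟨u * u', v * v', w * w', two ht hu hu', two hz hv hv', two ha hw hw', ?_⟩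
    simp only [mul_assoc]
    rw [(cm h2 hw hu').left_comm, (cm h1 hv hu').left_comm, (cm h3 hw hv').left_comm]
  | inv x _ hx =>
    obtain ⟨u, v, w, hu, hv, hw, rfl⟩ := hx
    refine ⟨u, v, w, hu, hv, hw, ?_⟩
    rw [mul_inv_rev, mul_inv_rev, sq ht hu, sq hz hv, sq ha hw, (cm h1 hv hu).eq,
      ((cm h2 hw hu).mul_right (cm h3 hw hv)).eq]

theorem s3 : ∀ g z : Equiv.Perm (Fin 3), g ≠ 1 → g * g * g = 1 → z * z = 1 → g * z * g⁻¹ * z = z * (g * z * g⁻¹) →
    z = 1 := by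
  intro g z
  revert g z
  set_option synthInstance.maxSize 1000 in decide

end Yx

theorem yThm (hB : BasThm.{u}) (hF2 : F2Thm.{u}) (hFI : FIThm.{u}) : YThm.{u} := by
  intro G _ _ M y t c z d a g C ⟨φ, _, hφ⟩ A h8
  obtain ⟨F1, -, -, -, TZ, zQ, -⟩ := hF2 G M y t c z d C
  obtain ⟨h, hg, ha⟩ := F1 g a A.g3 A.a2 A.a1 A.ga.symm
  obtain ⟨-, B1, B2, B3, B4, B5, -⟩ := hB G a
  have at' : Commute a t := TZ.cen a A.aQ
  have zt : Commute z t := C.zt
  have az : Commute a z := by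
    rw [C.hz, show c ^ 4 = (t * d) ^ 2 by rw [C.td, ← pow_mul]]
    exact (at'.mul_right A.ad).pow_right 2
  have hP : ∀ x, x ∈ O2C a ↔ h * x * h⁻¹ ∈ O2C t := fun x => ha ▸ B2 h x
  have hC : ∀ x, Commute a x → h * x * h⁻¹ ∈ centralizer ({t} : Set G) := fun x hx =>
    mem_centralizer_singleton_iff.2 (by
      rw [← ha]
      calc h * x * h⁻¹ * (h * a * h⁻¹) = h * (x * a) * h⁻¹ := by group
        _ = _ := by rw [← hx.eq]; group)
  have g3 : g * g * g = 1 := by rw [← pow_three', ← A.g3, pow_orderOf_eq_one]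
  have zP : z ∈ O2C a := by
    refine (hP z).2 ((hφ ⟨_, hC z az⟩).1 (Yx.s3 (φ ⟨_, hC g A.ga.symm⟩) _ (fun e => ?_) ?_ ?_ ?_))
    · have hy : y ∈ O2C t := hg ▸ (hφ _).1 e
      have h3 := C.y3
      rcases TZ.fix y hy rfl with e | e
      · rw [e, orderOf_one] at h3; omega
      · rw [e, C.t2] at h3; omega
    · rw [← map_mul, ← map_mul, ← map_one φ]
      refine congrArg φ (Subtype.ext ?_)
      change h * g * h⁻¹ * (h * g * h⁻¹) * (h * g * h⁻¹) = 1
      rw [conj_mul, conj_mul, g3]; simp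
    · rw [← map_mul, ← map_one φ]
      refine congrArg φ (Subtype.ext ?_)
      change h * z * h⁻¹ * (h * z * h⁻¹) = 1
      rw [conj_mul, C.zz]; simp
    · simp only [← map_inv, ← map_mul]
      refine congrArg φ (Subtype.ext ?_)
      change h * g * h⁻¹ * (h * z * h⁻¹) * (h * g * h⁻¹)⁻¹ * (h * z * h⁻¹) =
        h * z * h⁻¹ * (h * g * h⁻¹ * (h * z * h⁻¹) * (h * g * h⁻¹)⁻¹)
      rw [conj_inv, conj_mul, conj_mul, conj_mul, conj_mul, A.gz, (zt.mul_right az.symm).eq]
  have ta : t * a * a = t := by rw [mul_assoc, A.a2, mul_one]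
  have tP : t ∈ O2C a := ta ▸ mul_mem (A.gz ▸ B3 g A.ga z zP) (B4 A.a2)
  refine ⟨tP, zP, ?_⟩
  have Y := fun x h1 h2 => Yx.cases C.tt C.zz A.a2 zt at' az (h8 x h1 h2)
  have cp : CL.SL2.CPair t a := ⟨C.tt, A.a2, at'.eq, fun e => by
    have := C.t2; rw [e, orderOf_one] at this; omega, A.a1, fun e => by
    have h1 := C.dtd
    rw [show d * t = t * d from e ▸ A.ad.symm, mul_inv_cancel_right] at h1
    exact C.z_ne (left_eq_mul.1 h1)⟩
  have hA : O2C t ⊓ centralizer ({z} : Set G) = closure {t, a} := by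
    refine le_antisymm (fun x hx => ?_) ((closure_le _).2 ?_)
    · obtain ⟨u, v, w, hu, hv, hw, rfl⟩ := Y x (TZ.cen x hx.1) (mem_centralizer_singleton_iff.1 hx.2)
      have hu' : u ∈ closure ({t, a} : Set G) := by
        rcases hu with rfl | rfl
        exacts [one_mem _, subset_closure (by simp)]
      have hw' : w ∈ closure ({t, a} : Set G) := by
        rcases hw with rfl | rfl
        exacts [one_mem _, subset_closure (by simp)]
      have hle : closure ({t, a} : Set G) ≤ O2C t := (closure_le _).2 (by rintro _ (rfl | rfl); exacts [TZ.tQ, A.aQ])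
      rcases hv with rfl | rfl
      · rw [mul_one]; exact mul_mem hu' hw'
      · exact absurd ((mul_mem_cancel_left (hle hu')).1 ((mul_mem_cancel_right (hle hw')).1 hx.1)) zQ
    · rintro _ (rfl | rfl)
      exacts [⟨TZ.tQ, mem_centralizer_singleton_iff.2 zt.symm⟩, ⟨A.aQ, mem_centralizer_singleton_iff.2 az⟩]
  have hF := (hFI G _ t y z TZ).1
  rw [hA, cp.isKleinFour.card_four] at hF
  rcases hF with hF | ⟨hF, -⟩
  · exact .inl (by omega)
  refine .inr ⟨by omega, fun q hq hc => ?_⟩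
  let Z := centralizer (O2C a : Set G)
  have aZ : a ∈ Z := fun x hx => B1 x hx
  have gZ : ∀ p ∈ Z, g * p * g⁻¹ ∈ Z := fun p hp x hx => by
    have := hp _ (B3 g⁻¹ (Commute.inv_left A.ga) x hx)
    calc x * (g * p * g⁻¹) = g * (g⁻¹ * x * g⁻¹⁻¹ * p) * g⁻¹ := by group
      _ = _ := by rw [this]; group
  have pZ : h⁻¹ * q * h ∈ Z := fun x hx => by
    have := hc _ ((hP x).1 hx)
    calc x * (h⁻¹ * q * h) = h⁻¹ * (h * x * h⁻¹ * q) * h := by group
      _ = _ := by rw [← this]; group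
  have zZ : z ∉ Z := fun zZ => by
    have tZ : t ∈ Z := ta ▸ mul_mem (A.gz ▸ gZ z zZ) aZ
    let f : Bool × Bool × Bool → G := fun i => (if i.1 then t else 1) * (if i.2.1 then z else 1) * (if i.2.2 then a else 1)
    have h1 : (O2C a : Set G) ⊆ Set.range f := fun x hx => by
      obtain ⟨u, v, w, hu, hv, hw, rfl⟩ := Y x (tZ x hx) (zZ x hx)
      have k : ∀ {s u : G}, (u = 1 ∨ u = s) → ∃ i : Bool, (if i then s else 1) = u := fun hu => by
        rcases hu with rfl | rfl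
        exacts [⟨false, rfl⟩, ⟨true, rfl⟩]
      obtain ⟨i, rfl⟩ := k hu
      obtain ⟨j, rfl⟩ := k hv
      obtain ⟨l, rfl⟩ := k hw
      exact ⟨(i, j, l), rfl⟩
    have h2 := (Nat.card_mono (Set.toFinite _) h1).trans (Finite.card_range_le f)
    have h3 := B5 h
    rw [ha, ← hF] at h3
    change Nat.card (O2C a) ≤ _ at h2
    rw [← h3] at h2
    simp at h2
  obtain ⟨u, v, w, hu, hv, hw, e⟩ := Y _ (pZ t tP).symm (pZ z zP).symm
  have wZ : w ∈ Z := by
    rcases hw with rfl | rfl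
    exacts [one_mem _, aZ]
  have uv : u * v ∈ Z := (mul_mem_cancel_right wZ).1 (e ▸ pZ)
  have hq' : q = h * (u * v * w) * h⁻¹ := by rw [← e]; group
  rcases hu with rfl | rfl <;> rcases hv with rfl | rfl
  · rcases hw with rfl | rfl
    · exact .inl (by simp [hq'])
    · exact .inr (by rw [hq', mul_one, one_mul, ha])
  · exact absurd (by simpa using uv) zZ
  · rw [mul_one] at uv
    exact absurd ((mul_mem_cancel_left uv).1 (A.gt ▸ gZ _ uv)) zZ
  · have := gZ _ uv
    rw [← conj_mul, A.gt, A.gz] at this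
    have tZ := (mul_mem_cancel_right aZ).1 ((mul_mem_cancel_left uv).1 this)
    exact absurd ((mul_mem_cancel_left tZ).1 uv) zZ

end CL.L11
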